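import Mathlib
import Cfsg.Agent.Lib.Helper22.WeakOrth
import Cfsg.Agent.Lib.Helper22.GAlg

/-!
# Brandt piece CLS (helper7): the class-sum matrix of the block idempotent

`P c c' = (e * K_{c'}) (g_c)` for `e` the block idempotent coefficient function and `K_{c'}`
the indicator of the class `c'`: an idempotent matrix with local-integer entries and trace `#B`.
-/

set_option autoImplicit false

namespace Cfsg.Agent.Lib.Helper7.BrandtCLS

open Cfsg Cfsg.Agent.Lib.Helper4 Cfsg.Agent.Lib.Helper21 Cfsg.Agent.Lib.Helper22
open scoped ComplexConjugate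

section Main

variable {G : Type*} [Group G] [Fintype G] [Fintype (ConjClasses G)]
  [DecidableEq (ConjClasses G)]

/-- The indicator function of a conjugacy class. -/
def cind (c : ConjClasses G) : G → ℂ := fun h => if ConjClasses.mk h = c then (1 : ℂ) else 0

theorem cind_apply (c : ConjClasses G) (h : G) :
    cind c h = if ConjClasses.mk h = c then (1 : ℂ) else 0 := rfl

theorem mk_conj (g k : G) : ConjClasses.mk (k * g * k⁻¹) = ConjClasses.mk g :=
  ConjClasses.mk_eq_mk_iff_isConj.mpr (isConj_iff.mpr ⟨k, rfl⟩).symm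

theorem cind_isClassFunction (c : ConjClasses G) : IsClassFunction G (cind c) := by
  intro g k
  rw [cind_apply, cind_apply, mk_conj]

/-- A chosen representative of a conjugacy class. -/
noncomputable def crep (c : ConjClasses G) : G := Classical.choose (ConjClasses.exists_rep c)

theorem mk_out (c : ConjClasses G) : ConjClasses.mk (crep c) = c :=
  Classical.choose_spec (ConjClasses.exists_rep c)

theorem out_mk_isConj (g : G) : IsConj (crep (ConjClasses.mk g)) g :=
  ConjClasses.mk_eq_mk_iff_isConj.mp (mk_out _)

theorem classFunction_out_mk {f : G → ℂ} (hf : IsClassFunction G f) (g : G) :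
    f (crep (ConjClasses.mk g)) = f g :=
  classFunction_eq_of_isConj hf (out_mk_isConj g)

/-- A class function is the combination of class indicators with its values on
representatives. -/
theorem classFunction_eq_sum (f : G → ℂ) (hf : IsClassFunction G f) :
    f = ∑ c : ConjClasses G, f (crep c) • cind c := by
  funext g
  rw [Finset.sum_apply]
  simp only [Pi.smul_apply, smul_eq_mul, cind_apply, mul_ite, mul_one, mul_zero]
  rw [Finset.sum_ite_eq Finset.univ (ConjClasses.mk g) (fun c => f (crep c))]
  simp only [Finset.mem_univ, if_true]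
  exact (classFunction_out_mk hf g).symm

theorem conv_sum_right {ι : Type*} (s : Finset ι) (a : G → ℂ) (b : ι → G → ℂ) :
    conv a (∑ i ∈ s, b i) = ∑ i ∈ s, conv a (b i) := by
  funext g
  simp only [conv_apply, Finset.sum_apply, Finset.mul_sum]
  exact Finset.sum_comm

theorem conv_smul_right (c : ℂ) (a b : G → ℂ) : conv a (c • b) = c • conv a b := by
  funext g
  simp only [conv_apply, Pi.smul_apply, smul_eq_mul, Finset.mul_sum]
  exact Finset.sum_congr rfl fun h _ => by ring

/-- The class-sum matrix of `a`. -/
noncomputable def cmat (a : G → ℂ) : Matrix (ConjClasses G) (ConjClasses G) ℂ :=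
  fun c c' => conv a (cind c') (crep c)

theorem cmat_apply (a : G → ℂ) (c c' : ConjClasses G) :
    cmat a c c' = conv a (cind c') (crep c) := rfl

theorem conv_cind_eq (a : G → ℂ) (ha : IsClassFunction G a) (c' : ConjClasses G) (g : G) :
    conv a (cind c') g = cmat a (ConjClasses.mk g) c' := by
  rw [cmat_apply]
  exact (classFunction_out_mk (conv_isClassFunction ha (cind_isClassFunction c')) g).symm

theorem cmat_mul (a : G → ℂ) (ha : IsClassFunction G a) (haa : conv a a = a) :
    cmat a * cmat a = cmat a := by
  funext c c'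
  rw [Matrix.mul_apply]
  have hcf : IsClassFunction G (conv a (cind c')) :=
    conv_isClassFunction ha (cind_isClassFunction c')
  have h1 : conv a (cind c') = conv a (conv a (cind c')) := by
    rw [← conv_assoc, haa]
  have h2 := classFunction_eq_sum (conv a (cind c')) hcf
  have h3 : cmat a c c' = conv a (∑ c'' : ConjClasses G,
      conv a (cind c') (crep c'') • cind c'') (crep c) := by
    rw [← h2, ← h1, cmat_apply]
  rw [h3, conv_sum_right, Finset.sum_apply]
  refine Finset.sum_congr rfl fun c'' _ => ?_
  rw [conv_smul_right, Pi.smul_apply, smul_eq_mul, cmat_apply, cmat_apply, mul_comm]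

theorem cmat_locRing {p : ℕ} {M : Ideal AlgInt} (hM : IsPModular p M) (a : G → ℂ)
    (ha : ∀ g, MemLocalRing M (a g)) (c c' : ConjClasses G) : MemLocalRing M (cmat a c c') := by
  rw [cmat_apply]
  refine conv_locRing hM ha (fun g => ?_) _
  rw [cind_apply]
  split_ifs
  · exact locRing_one hM
  · exact locRing_zero hM

theorem sum_cind_mul (f : ConjClasses G → G → ℂ) (g : G) :
    ∑ c : ConjClasses G, cind c g * f c g = f (ConjClasses.mk g) g := by
  simp only [cind_apply, ite_mul, one_mul, zero_mul]
  rw [Finset.sum_ite_eq Finset.univ (ConjClasses.mk g) (fun c => f c g)]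
  simp only [Finset.mem_univ, if_true]

open scoped Classical in
theorem trace_cmat_blockCoeff (B : Set (IrrCharacter G)) :
    Matrix.trace (cmat (blockCoeff B)) = (Nat.card B : ℂ) := by
  haveI := irr_finite (G := G)
  letI := Fintype.ofFinite (IrrCharacter G)
  have hcf := blockCoeff_isClassFunction B
  have hG : (Nat.card G : ℂ) ≠ 0 := card_ne_zero G
  -- each diagonal entry via Fourier inversion
  have hdiag : ∀ c : ConjClasses G, cmat (blockCoeff B) c c =
      (Nat.card G : ℂ)⁻¹ * ∑ χ : IrrCharacter G, (if χ ∈ B then (1 : ℂ) else 0) *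
        ∑ x : G, cind c x * ((χ : G → ℂ) x * conj ((χ : G → ℂ) x)) := by
    intro c
    rw [cmat_apply, classFunction_fourier _ (conv_isClassFunction hcf (cind_isClassFunction c))]
    congr 1
    refine Finset.sum_congr rfl fun χ _ => ?_
    rw [omega_conv χ _ _ hcf (cind_isClassFunction c), omega_blockCoeff, omega_def,
      mul_assoc]
    congr 1
    have hne := irr_one_ne_zero χ
    have h9 : ∀ S z : ℂ, S / (χ : G → ℂ) 1 * ((χ : G → ℂ) 1 * z) = S * z := by
      intro S z
      field_simp
    rw [h9, Finset.sum_mul]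
    refine Finset.sum_congr rfl fun x _ => ?_
    rw [cind_apply]
    split_ifs with h
    · have h5 : (χ : G → ℂ) (crep c) = (χ : G → ℂ) x := by
        rw [← h]
        exact classFunction_out_mk (isClassFunction_irr χ) x
      rw [h5]
      ring
    · ring
  rw [Matrix.trace]
  simp only [Matrix.diag_apply, hdiag]
  rw [← Finset.mul_sum, Finset.sum_comm]
  have h6 : ∀ χ : IrrCharacter G, ∑ c : ConjClasses G, (if χ ∈ B then (1 : ℂ) else 0) *
      ∑ x : G, cind c x * ((χ : G → ℂ) x * conj ((χ : G → ℂ) x)) =
      (if χ ∈ B then (1 : ℂ) else 0) * (Nat.card G : ℂ) := by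
    intro χ
    rw [← Finset.mul_sum, Finset.sum_comm]
    congr 1
    have h7 : ∀ x : G, ∑ c : ConjClasses G, cind c x *
        ((χ : G → ℂ) x * conj ((χ : G → ℂ) x)) = (χ : G → ℂ) x * conj ((χ : G → ℂ) x) :=
      fun x => sum_cind_mul (fun _ y => (χ : G → ℂ) y * conj ((χ : G → ℂ) y)) x
    rw [Finset.sum_congr rfl fun x _ => h7 x]
    have h8 := classInner_irr χ χ
    rw [if_pos rfl, classInner] at h8
    rw [← mul_one (Nat.card G : ℂ), ← h8, ← mul_assoc, mul_inv_cancel₀ hG, one_mul]
  rw [Finset.sum_congr rfl fun χ _ => h6 χ, ← Finset.sum_mul, ← mul_assoc, mul_comm,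
    ← mul_assoc, mul_inv_cancel₀ hG, one_mul, Finset.sum_boole, Nat.card_eq_fintype_card,
    Fintype.card_subtype]

end Main

open Cfsg Cfsg.Agent.Lib.Helper21 in
/-- Piece CLS of Brandt's theorem: the class-sum matrix of the block idempotent. -/
theorem brandt_cls {G : Type*} [Group G] [Fintype G] [Fintype (ConjClasses G)]
    [DecidableEq (ConjClasses G)] {p : ℕ} {M : Ideal AlgInt}
    (hM : IsPModular p M) (B : Set (IrrCharacter G)) (hB : IsPBlock M B) :
    ∃ P : Matrix (ConjClasses G) (ConjClasses G) ℂ,
      P * P = P ∧ (∀ c c', MemLocalRing M (P c c')) ∧ Matrix.trace P = (Nat.card B : ℂ) ∧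
      ∀ (c' : ConjClasses G) (g : G),
        conv (blockCoeff B) (fun h => if ConjClasses.mk h = c' then (1 : ℂ) else 0) g =
          P (ConjClasses.mk g) c' :=
  ⟨cmat (blockCoeff B), cmat_mul _ (blockCoeff_isClassFunction B) (blockCoeff_conv B),
    cmat_locRing hM _ (osima hM B hB), trace_cmat_blockCoeff B,
    fun c' g => conv_cind_eq _ (blockCoeff_isClassFunction B) c' g⟩

end Cfsg.Agent.Lib.Helper7.BrandtCLS
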