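import Mathlib

set_option autoImplicit false

namespace Cfsg.Agent.Lib.Helper7

/-- Certificate for the subgroup generated by `s`: an indexed family of "representations" closed
under right multiplication by the generators (tables `p`), with a spanning tree, functional and
injective. -/
theorem cayley_cert {Γ : Type*} [Group Γ] [Finite Γ] {m : ℕ} (s : Fin m → Γ) (n : ℕ) (hn : 0 < n)
    (p : Fin m → ℕ → ℕ) (Rep : ℕ → Γ → Prop)
    (h0 : Rep 0 1)
    (hmul : ∀ k, k < n → ∀ i g, Rep k g → Rep (p i k) (g * s i))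
    (hlt : ∀ k, k < n → ∀ i, p i k < n)
    (hpar : ∀ k, 0 < k → k < n → ∃ j, j < k ∧ ∃ i, p i j = k)
    (hfun : ∀ k g g', k < n → Rep k g → Rep k g' → g = g')
    (hinj : ∀ j k g, j < n → k < n → Rep j g → Rep k g → j = k) :
    ∃ a : ℕ → Γ, a 0 = 1 ∧ (∀ k, k < n → Rep k (a k)) ∧
      (∀ g, g ∈ Subgroup.closure (Set.range s) ↔ ∃ k, k < n ∧ g = a k) ∧
      (∀ j k, j < n → k < n → a j = a k → j = k) ∧
      (∀ k, k < n → ∀ i, a k * s i = a (p i k)) := by
  classical
  have step1 : ∀ k, k < n → ∃ g, g ∈ Submonoid.closure (Set.range s) ∧ Rep k g := by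
    intro k
    induction k using Nat.strong_induction_on with
    | _ k ih =>
      intro hk
      rcases Nat.eq_zero_or_pos k with rfl | hk0
      · exact ⟨1, one_mem _, h0⟩
      · obtain ⟨j, hj, i, hi⟩ := hpar k hk0 hk
        obtain ⟨g, hg, hr⟩ := ih j hj (hj.trans hk)
        refine ⟨g * s i, mul_mem hg (Submonoid.subset_closure ⟨i, rfl⟩), ?_⟩
        rw [← hi]
        exact hmul j (hj.trans hk) i g hr
  let a : ℕ → Γ := fun k => if h : k < n then (step1 k h).choose else 1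
  have ha : ∀ k, k < n → a k ∈ Submonoid.closure (Set.range s) ∧ Rep k (a k) := by
    intro k hk
    simp only [a, dif_pos hk]
    exact (step1 k hk).choose_spec
  have ha0 : a 0 = 1 := hfun 0 _ _ hn (ha 0 hn).2 h0
  have ham : ∀ k, k < n → ∀ i, a k * s i = a (p i k) := by
    intro k hk i
    exact hfun (p i k) _ _ (hlt k hk i) (hmul k hk i _ (ha k hk).2) (ha _ (hlt k hk i)).2
  have hfwd : ∀ g, g ∈ Submonoid.closure (Set.range s) → ∃ k, k < n ∧ g = a k := by
    intro g hg
    induction hg using Submonoid.closure_induction_right with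
    | one => exact ⟨0, hn, ha0.symm⟩
    | mul_right x hx y hy ih =>
      obtain ⟨k, hk, rfl⟩ := ih
      obtain ⟨i, rfl⟩ := hy
      exact ⟨p i k, hlt k hk i, ham k hk i⟩
  refine ⟨a, ha0, fun k hk => (ha k hk).2, ?_, ?_, ham⟩
  · intro g
    have h1 : g ∈ Subgroup.closure (Set.range s) ↔ g ∈ Submonoid.closure (Set.range s) := by
      rw [← Subgroup.closure_toSubmonoid_of_finite]; rfl
    rw [h1]
    exact ⟨hfwd g, fun ⟨k, hk, hgk⟩ => hgk ▸ (ha k hk).1⟩
  · intro j k hj hk hjk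
    have h2 := (ha k hk).2
    rw [← hjk] at h2
    exact hinj j k _ hj hk (ha j hj).2 h2

/-- A subgroup bijectively indexed by `k < n` has order `n`. -/
theorem card_of_index {Γ : Type*} [Group Γ] (H : Subgroup Γ) (n : ℕ) (c : ℕ → Γ)
    (hc : ∀ g, g ∈ H ↔ ∃ k, k < n ∧ g = c k) (hci : ∀ j k, j < n → k < n → c j = c k → j = k) :
    Nat.card H = n := by
  have h1 : (H : Set Γ) = c '' Set.Iio n := by
    ext g
    rw [SetLike.mem_coe, hc]
    constructor
    · rintro ⟨k, hk, rfl⟩; exact ⟨k, hk, rfl⟩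
    · rintro ⟨k, hk, rfl⟩; exact ⟨k, hk, rfl⟩
  have hI : (Set.Iio n : Set ℕ).ncard = n := by
    rw [← Finset.coe_range, Set.ncard_coe_finset, Finset.card_range]
  have h2 : Nat.card H = (H : Set Γ).ncard := Nat.card_coe_set_eq _
  rw [h2, h1, Set.InjOn.ncard_image, hI]
  intro j hj k hk h
  exact hci j k hj hk h

/-- Two generated subgroups with the same right-multiplication tables are isomorphic. -/
theorem iso_of_tables {Γ₁ Γ₂ : Type*} [Group Γ₁] [Group Γ₂] [Finite Γ₁] [Finite Γ₂] {m : ℕ}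
    (s₁ : Fin m → Γ₁) (s₂ : Fin m → Γ₂) (n : ℕ) (hn : 0 < n) (p : Fin m → ℕ → ℕ)
    (a : ℕ → Γ₁) (b : ℕ → Γ₂) (ha0 : a 0 = 1) (hb0 : b 0 = 1)
    (hlt : ∀ k, k < n → ∀ i, p i k < n)
    (hac : ∀ g, g ∈ Subgroup.closure (Set.range s₁) ↔ ∃ k, k < n ∧ g = a k)
    (hbc : ∀ g, g ∈ Subgroup.closure (Set.range s₂) ↔ ∃ k, k < n ∧ g = b k)
    (hai : ∀ j k, j < n → k < n → a j = a k → j = k)
    (hbi : ∀ j k, j < n → k < n → b j = b k → j = k)
    (ham : ∀ k, k < n → ∀ i, a k * s₁ i = a (p i k))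
    (hbm : ∀ k, k < n → ∀ i, b k * s₂ i = b (p i k)) :
    Nonempty (Subgroup.closure (Set.range s₁) ≃* Subgroup.closure (Set.range s₂)) ∧
      Nat.card (Subgroup.closure (Set.range s₁)) = n ∧
      Nat.card (Subgroup.closure (Set.range s₂)) = n := by
  classical
  refine ⟨?_, card_of_index _ n a hac hai, card_of_index _ n b hbc hbi⟩
  -- key: translation by an element of the closure acts compatibly on both tables
  have key : ∀ h, h ∈ Submonoid.closure (Set.range s₁) → ∃ h' : Γ₂,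
      ∀ k, k < n → ∃ k', k' < n ∧ a k * h = a k' ∧ b k * h' = b k' := by
    intro h hh
    induction hh using Submonoid.closure_induction_right with
    | one => exact ⟨1, fun k hk => ⟨k, hk, mul_one _, mul_one _⟩⟩
    | mul_right x hx y hy ih =>
      obtain ⟨h', hh'⟩ := ih
      obtain ⟨i, rfl⟩ := hy
      refine ⟨h' * s₂ i, fun k hk => ?_⟩
      obtain ⟨k', hk', e1, e2⟩ := hh' k hk
      refine ⟨p i k', hlt k' hk' i, ?_, ?_⟩
      · rw [← mul_assoc, e1, ham k' hk' i]
      · rw [← mul_assoc, e2, hbm k' hk' i]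
  have hsub : ∀ g, g ∈ Subgroup.closure (Set.range s₁) ↔ g ∈ Submonoid.closure (Set.range s₁) := by
    intro g
    rw [← Subgroup.closure_toSubmonoid_of_finite]; rfl
  -- index function
  have hidx : ∀ g : Subgroup.closure (Set.range s₁), ∃ k, k < n ∧ (g : Γ₁) = a k :=
    fun g => (hac g).mp g.2
  let idx : Subgroup.closure (Set.range s₁) → ℕ := fun g => (hidx g).choose
  have hidx1 : ∀ g, idx g < n := fun g => (hidx g).choose_spec.1
  have hidx2 : ∀ g : Subgroup.closure (Set.range s₁), (g : Γ₁) = a (idx g) :=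
    fun g => (hidx g).choose_spec.2
  have hbmem : ∀ k, k < n → b k ∈ Subgroup.closure (Set.range s₂) :=
    fun k hk => (hbc _).mpr ⟨k, hk, rfl⟩
  let θ : Subgroup.closure (Set.range s₁) → Subgroup.closure (Set.range s₂) :=
    fun g => ⟨b (idx g), hbmem _ (hidx1 g)⟩
  have hθmul : ∀ g h, θ (g * h) = θ g * θ h := by
    intro g h
    obtain ⟨h', hh'⟩ := key h ((hsub _).mp h.2)
    -- h' = b (idx h)
    obtain ⟨k0, hk0, e1, e2⟩ := hh' 0 hn
    rw [ha0, one_mul] at e1
    rw [hb0, one_mul] at e2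
    have hk0' : k0 = idx h := hai _ _ hk0 (hidx1 h) (by rw [← e1, ← hidx2])
    obtain ⟨k', hk', e3, e4⟩ := hh' (idx g) (hidx1 g)
    have hk'' : k' = idx (g * h) := by
      apply hai _ _ hk' (hidx1 _)
      rw [← e3, ← hidx2, ← hidx2]
      rfl
    apply Subtype.ext
    show b (idx (g * h)) = b (idx g) * b (idx h)
    rw [← hk'', ← e4, e2, hk0']
  have hθinj : Function.Injective θ := by
    intro g g' hgg
    have h1 : b (idx g) = b (idx g') := congrArg Subtype.val hgg
    have h2 := hbi _ _ (hidx1 g) (hidx1 g') h1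
    apply Subtype.ext
    rw [hidx2 g, hidx2 g', h2]
  have hθsurj : Function.Surjective θ := by
    rintro ⟨y, hy⟩
    obtain ⟨k, hk, rfl⟩ := (hbc y).mp hy
    have hak : a k ∈ Subgroup.closure (Set.range s₁) := (hac _).mpr ⟨k, hk, rfl⟩
    refine ⟨⟨a k, hak⟩, ?_⟩
    apply Subtype.ext
    show b (idx ⟨a k, hak⟩) = b k
    congr 1
    exact hai _ _ (hidx1 _) hk (hidx2 ⟨a k, hak⟩).symm
  exact ⟨MulEquiv.ofBijective (MonoidHom.mk' θ hθmul) ⟨hθinj, hθsurj⟩⟩

/-- A subgroup of order `2^k` in a group of order `2^k * m`, `m` odd, is isomorphic to every Sylow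
2-subgroup. -/
theorem sylow_equiv_of_card {G : Type*} [Group G] [Finite G] (H : Subgroup G) (k m : ℕ)
    (hH : Nat.card H = 2 ^ k) (hG : Nat.card G = 2 ^ k * m) (hm : Odd m) (P : Sylow 2 G) :
    Nonempty (P ≃* H) := by
  haveI : Fact (Nat.Prime 2) := ⟨Nat.prime_two⟩
  have hp : IsPGroup 2 H := IsPGroup.of_card hH
  obtain ⟨Q, hQ⟩ := hp.exists_le_sylow
  have hQc : Nat.card Q = 2 ^ k := by
    rw [Sylow.card_eq_multiplicity, hG]
    congr 1
    have hm0 : m ≠ 0 := fun h => by rw [h] at hm; exact absurd hm (by decide)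
    rw [Nat.factorization_mul (by positivity) hm0, Nat.factorization_pow]
    have h2 : m.factorization 2 = 0 := by
      apply Nat.factorization_eq_zero_of_not_dvd
      exact fun h => (Nat.not_even_iff_odd.mpr hm) (even_iff_two_dvd.mpr h)
    simp [h2, Nat.Prime.factorization_self Nat.prime_two]
  have hHQ : H = (Q : Subgroup G) :=
    Subgroup.eq_of_le_of_card_ge hQ (by rw [hH, hQc])
  rw [hHQ]
  exact ⟨Sylow.equiv P Q⟩

end Cfsg.Agent.Lib.Helper7
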