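import Cfsg.Agent.Lib.Helper7.EPData
import Cfsg.Agent.Lib.Helper38.CosetWP
import Cfsg.Agent.Lib.Helper39.SuzOrdData
import Cfsg.Agent.Lib.Helper62.EPCERT
import Cfsg.Agent.Lib.Helper79.EPCOATOM

/-!
# Project EP (S5746): the permutation representation of `WP 6 W6` on 416 points

`epi : WP 6 W6 →* Perm (Fin 416)` sends the six generators to the permutations with the packed
tables `epT0 … epT5`.  `level` turns an orbit certificate (generator words, labels, representatives
and path words) into the two facts used by the maximality criterion.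
-/

set_option autoImplicit false
set_option maxRecDepth 100000
set_option maxHeartbeats 0

namespace Cfsg.Agent.Lib.Helper7.EPP

open Cfsg.Agent.Lib.Helper7.Sims Cfsg.Agent.Lib.Helper7.EPD Cfsg.Agent.Lib.Helper7.EP
open Cfsg.Agent.Lib.Helper38 Cfsg.Agent.Lib.Helper39.SuzOrd

/-- action of the generator `s` on the points (as naturals) -/
def apS (s x : ℕ) : ℕ :=
  match s with
  | 0 => ap9 epT0 x
  | 1 => ap9 epT1 x
  | 2 => ap9 epT2 x
  | 3 => ap9 epT3 x
  | 4 => ap9 epT4 x
  | 5 => ap9 epT5 x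
  | _ => x

/-- action of a word, rightmost letter first -/
def apW (w : List ℕ) (x : ℕ) : ℕ := w.foldr apS x

/-- action of a path: a list of indices into the list `S` of generator words -/
def apG (S : List (List ℕ)) (p : List ℕ) (x : ℕ) : ℕ :=
  p.foldr (fun k acc => apW (S.getD k []) acc) x

theorem hinvT0 : invChk ap9 416 epT0 epT0 = true := by decide +kernel
theorem hinvT1 : invChk ap9 416 epT1 epT1 = true := by decide +kernel
theorem hinvT2 : invChk ap9 416 epT2 epT2 = true := by decide +kernel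
theorem hinvT3 : invChk ap9 416 epT3 epT3 = true := by decide +kernel
theorem hinvT4 : invChk ap9 416 epT4 epT4 = true := by decide +kernel
theorem hinvT5 : invChk ap9 416 epT5 epT5 = true := by decide +kernel

/-- the permutations of the six generators -/
def imgP (s : ℕ) : Equiv.Perm (Fin 416) :=
  match s with
  | 0 => permOf ap9 416 epT0 epT0 hinvT0
  | 1 => permOf ap9 416 epT1 epT1 hinvT1
  | 2 => permOf ap9 416 epT2 epT2 hinvT2
  | 3 => permOf ap9 416 epT3 epT3 hinvT3
  | 4 => permOf ap9 416 epT4 epT4 hinvT4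
  | 5 => permOf ap9 416 epT5 epT5 hinvT5
  | _ => 1

theorem imgP_apply : ∀ (s : ℕ) (i : Fin 416), ((imgP s i : Fin 416) : ℕ) = apS s i
  | 0, _ => rfl
  | 1, _ => rfl
  | 2, _ => rfl
  | 3, _ => rfl
  | 4, _ => rfl
  | 5, _ => rfl
  | (_ + 6), _ => rfl

theorem imgP_sq : ∀ s, imgP s * imgP s = 1
  | 0 => Equiv.ext fun i => Fin.ext (invChk_spec hinvT0 i i.2).2.2.1
  | 1 => Equiv.ext fun i => Fin.ext (invChk_spec hinvT1 i i.2).2.2.1
  | 2 => Equiv.ext fun i => Fin.ext (invChk_spec hinvT2 i i.2).2.2.1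
  | 3 => Equiv.ext fun i => Fin.ext (invChk_spec hinvT3 i i.2).2.2.1
  | 4 => Equiv.ext fun i => Fin.ext (invChk_spec hinvT4 i i.2).2.2.1
  | 5 => Equiv.ext fun i => Fin.ext (invChk_spec hinvT5 i i.2).2.2.1
  | (_ + 6) => one_mul 1

theorem imgP_ge : ∀ s, 6 ≤ s → imgP s = 1
  | 0, h => absurd h (by decide)
  | 1, h => absurd h (by decide)
  | 2, h => absurd h (by decide)
  | 3, h => absurd h (by decide)
  | 4, h => absurd h (by decide)
  | 5, h => absurd h (by decide)
  | (_ + 6), _ => rfl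

theorem imgP_word (w : List ℕ) (i : Fin 416) :
    (((w.map imgP).prod i : Fin 416) : ℕ) = apW w i := by
  induction w with
  | nil => rfl
  | cons s t ih =>
    rw [List.map_cons, List.prod_cons, Equiv.Perm.mul_apply, imgP_apply, ih]
    rfl

theorem relChk : W6.all (fun w => allLt (fun i => Nat.beq (apW w i) i) 416) = true := by
  decide +kernel

theorem imgP_rel : ∀ w ∈ W6, (w.map imgP).prod = 1 := by
  intro w hw
  apply Equiv.ext
  intro i
  apply Fin.ext
  rw [imgP_word]
  exact (nbeq_iff _ _).1 ((allLt_iff _ 416).1 (List.all_eq_true.1 relChk w hw) i i.2)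

/-- the permutation representation on 416 points -/
noncomputable def epi : WP 6 W6 →* Equiv.Perm (Fin 416) :=
  WP.lift 6 W6 imgP imgP_sq imgP_ge imgP_rel

/-- the element of a word -/
noncomputable def elt (w : List ℕ) : WP 6 W6 := (w.map (WP.gen 6 W6)).prod

theorem epi_elt (w : List ℕ) : epi (elt w) = (w.map imgP).prod := by
  unfold elt
  rw [map_list_prod, List.map_map]
  have e : (⇑epi ∘ WP.gen 6 W6) = imgP :=
    funext fun s => WP.lift_gen 6 W6 imgP imgP_sq imgP_ge imgP_rel s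
  rw [e]

theorem epi_elt_apply (w : List ℕ) (i : Fin 416) : ((epi (elt w) i : Fin 416) : ℕ) = apW w i := by
  rw [epi_elt, imgP_word]

/-- the elements of a list of words -/
def SS (S : List (List ℕ)) : Set (WP 6 W6) := {x | ∃ w ∈ S, elt w = x}

theorem getD_mem_or (S : List (List ℕ)) (k : ℕ) : S.getD k [] ∈ S ∨ S.getD k [] = [] := by
  by_cases h : k < S.length
  · left
    rw [List.getD_eq_getElem _ _ h]
    exact List.getElem_mem h
  · right
    exact List.getD_eq_default _ _ (not_lt.1 h)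

theorem elt_getD_mem (S : List (List ℕ)) (k : ℕ) :
    elt (S.getD k []) ∈ Subgroup.closure (SS S) := by
  rcases getD_mem_or S k with h | h
  · exact Subgroup.subset_closure ⟨_, h, rfl⟩
  · rw [h]
    have : elt [] = 1 := rfl
    rw [this]
    exact one_mem _

theorem path_elt (S : List (List ℕ)) (p : List ℕ) :
    ∃ l ∈ Subgroup.closure (SS S), ∀ i : Fin 416, ((epi l i : Fin 416) : ℕ) = apG S p i := by
  induction p with
  | nil => exact ⟨1, one_mem _, fun i => by rw [map_one]; rfl⟩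
  | cons k t ih =>
    obtain ⟨l, hl, h⟩ := ih
    refine ⟨elt (S.getD k []) * l, mul_mem (elt_getD_mem S k) hl, fun i => ?_⟩
    rw [map_mul, Equiv.Perm.mul_apply, epi_elt_apply, h]
    rfl

/-- the generators preserve the labels -/
def chk1 (S : List (List ℕ)) (C : ℕ) : Bool :=
  S.all (fun w => allLt (fun i => Nat.beq (ap9 C (apW w i)) (ap9 C i)) 416)

/-- every point is reached from the representative of its label -/
def chk2 (S : List (List ℕ)) (C : ℕ) (R : List ℕ) (PG : List (List ℕ)) : Bool :=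
  allLt (fun i => Nat.blt (R.getD (ap9 C i) 0) 416 &&
    Nat.beq (apG S (PG.getD i []) (R.getD (ap9 C i) 0)) i) 416

/-- the label of a point -/
def cc (C : ℕ) (i : Fin 416) : ℕ := ap9 C i

/-- the representative of a label -/
def repF (R : List ℕ) (k : ℕ) : Fin 416 := if h : R.getD k 0 < 416 then ⟨R.getD k 0, h⟩ else 0

theorem level (S : List (List ℕ)) (C : ℕ) (R : List ℕ) (PG : List (List ℕ))
    (h1 : chk1 S C = true) (h2 : chk2 S C R PG = true) :
    (∀ l ∈ Subgroup.closure (SS S), ∀ i : Fin 416, cc C (epi l i) = cc C i) ∧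
    (∀ i j : Fin 416, cc C i = cc C j → ∃ l ∈ Subgroup.closure (SS S), epi l i = j) := by
  apply EPCERT epi (SS S) (cc C) (repF R)
  · rintro s ⟨w, hw, rfl⟩ i
    have h := (nbeq_iff _ _).1 ((allLt_iff _ 416).1 (List.all_eq_true.1 h1 w hw) i i.2)
    show ap9 C ((epi (elt w) i : Fin 416) : ℕ) = ap9 C i
    rw [epi_elt_apply]
    exact h
  · intro i
    have h := (allLt_iff _ 416).1 h2 i i.2
    rw [Bool.and_eq_true] at h
    obtain ⟨ha, hb⟩ := h
    have ha' := (nblt_iff _ _).1 ha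
    have hb' := (nbeq_iff _ _).1 hb
    obtain ⟨l, hl, hact⟩ := path_elt S (PG.getD i [])
    refine ⟨l, hl, Fin.ext ?_⟩
    rw [hact]
    have e : ((repF R (cc C i) : Fin 416) : ℕ) = R.getD (ap9 C i) 0 := by
      unfold repF cc
      rw [dif_pos ha']
    rw [e]
    exact hb'

/-- the maximality criterion with the orbit sizes evaluated -/
theorem coatom_of {X : Type*} [Group X] [Finite X] (ρ : X →* Equiv.Perm (Fin 416)) (b : Fin 416)
    (r : ℕ) (C : ℕ) (L : Subgroup X) (szL : List ℕ) (tot : ℕ)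
    (hLfix : ∀ l ∈ L, ρ l b = b)
    (hOrb : ∀ i : Fin 416, cc C i < r ↔ ∃ x : X, ρ x b = i)
    (hconn : ∀ i j : Fin 416, cc C i < r → cc C i = cc C j → ∃ l ∈ L, ρ l i = j)
    (hsz : ∀ k ∈ Finset.range r,
      (Finset.univ.filter (fun i : Fin 416 => cc C i = k)).card = szL.getD k 0)
    (htot : (Finset.univ.filter (fun i : Fin 416 => cc C i < r)).card = tot)
    (har : ∀ J ∈ (Finset.range r).powerset, (∑ k ∈ J, szL.getD k 0) ∣ tot →
      1 < ∑ k ∈ J, szL.getD k 0 → ∑ k ∈ J, szL.getD k 0 = tot)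
    (hnt : ∃ x : X, ρ x b ≠ b) :
    IsCoatom ((MulAction.stabilizer (Equiv.Perm (Fin 416)) b).comap ρ) := by
  apply EPCOATOM ρ b r (cc C) L hLfix hOrb hconn _ hnt
  intro J hJ
  have e : ∑ k ∈ J, (Finset.univ.filter (fun i : Fin 416 => cc C i = k)).card =
      ∑ k ∈ J, szL.getD k 0 :=
    Finset.sum_congr rfl (fun k hk => hsz k (Finset.mem_powerset.1 hJ hk))
  rw [e, htot]
  exact har J hJ

/-! ### The three certificates -/

theorem lev0a : chk1 epS0 epC0 = true := by decide +kernel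
theorem lev0b : chk2 epS0 epC0 epR0 epPG0 = true := by decide +kernel
theorem lev1a : chk1 epS1 epC1 = true := by decide +kernel
theorem lev1b : chk2 epS1 epC1 epR1 epPG1 = true := by decide +kernel
theorem lev2a : chk1 epS2 epC2 = true := by decide +kernel
theorem lev2b : chk2 epS2 epC2 epR2 epPG2 = true := by decide +kernel

theorem c0_facts : ∀ i < 416, (ap9 epC0 i = 0 ↔ i = 0) ∧ ap9 epC0 i ≤ 2 ∧
    ap9 epC0 (apW (epTW.getD (ap9 epC0 i) []) 0) = ap9 epC0 i := by decide +kernel

theorem c1_facts : ∀ i < 416, (ap9 epC1 i = 0 → i = 52) ∧ (ap9 epC1 i = ap9 epC1 0 → i = 0) ∧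
    (ap9 epC1 i < 3 ↔ ap9 epC0 i = 1) := by decide +kernel

theorem c2_facts : ∀ i < 416, (ap9 epC2 i = 0 → i = 1) ∧ (ap9 epC2 i = ap9 epC2 0 → i = 0) ∧
    (ap9 epC2 i < 6 ↔ ap9 epC0 i = 2) := by decide +kernel

theorem sz0 : ∀ k ∈ Finset.range 3,
    (Finset.univ.filter (fun i : Fin 416 => cc epC0 i = k)).card = epSZ0.getD k 0 := by
  decide +kernel
theorem sz1 : ∀ k ∈ Finset.range 3,
    (Finset.univ.filter (fun i : Fin 416 => cc epC1 i = k)).card = epSZ1.getD k 0 := by
  decide +kernel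
theorem sz2 : ∀ k ∈ Finset.range 6,
    (Finset.univ.filter (fun i : Fin 416 => cc epC2 i = k)).card = epSZ2.getD k 0 := by
  decide +kernel

theorem tot0 : (Finset.univ.filter (fun i : Fin 416 => cc epC0 i < 3)).card = 416 := by
  decide +kernel
theorem tot1 : (Finset.univ.filter (fun i : Fin 416 => cc epC1 i < 3)).card = 100 := by
  decide +kernel
theorem tot2 : (Finset.univ.filter (fun i : Fin 416 => cc epC2 i < 6)).card = 315 := by
  decide +kernel

theorem ar0 : ∀ J ∈ (Finset.range 3).powerset, (∑ k ∈ J, epSZ0.getD k 0) ∣ 416 →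
    1 < ∑ k ∈ J, epSZ0.getD k 0 → ∑ k ∈ J, epSZ0.getD k 0 = 416 := by decide +kernel
theorem ar1 : ∀ J ∈ (Finset.range 3).powerset, (∑ k ∈ J, epSZ1.getD k 0) ∣ 100 →
    1 < ∑ k ∈ J, epSZ1.getD k 0 → ∑ k ∈ J, epSZ1.getD k 0 = 100 := by decide +kernel
theorem ar2 : ∀ J ∈ (Finset.range 6).powerset, (∑ k ∈ J, epSZ2.getD k 0) ∣ 315 →
    1 < ∑ k ∈ J, epSZ2.getD k 0 → ∑ k ∈ J, epSZ2.getD k 0 = 315 := by decide +kernel

theorem eE_facts : ∀ i < 315, ap9 epE i < 416 ∧ ap9 epE' (ap9 epE i) = i ∧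
    ap9 epC0 (ap9 epE i) = 2 := by decide +kernel

theorem eE'_facts : ∀ j < 416, ap9 epE' j < 315 ∧ (ap9 epC0 j = 2 → ap9 epE (ap9 epE' j) = j) := by
  decide +kernel

end Cfsg.Agent.Lib.Helper7.EPP
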