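import Cfsg.Agent.Lib.Helper70.HeODefs

/-! Piece REPX for S2075 (helper70; `|Out(He)| = 2`): every element of the centraliser `C(f)` of
the presented Held group has a table in the list `allT`; elements with a table centralise `f`. -/

set_option autoImplicit false
set_option maxHeartbeats 400000

namespace Cfsg.Agent.Lib.Helper7.HeOREPX

open Cfsg.Agent.Lib.Helper39.HeOrd Cfsg.Agent.Lib.Helper70.HeC Cfsg.Agent.Lib.Helper70.HeO
open Cfsg.Agent.Lib.Helper70.HeM (Wd)

theorem xor_comm64 : ∀ i j : Fin 64, i ^^^ j = j ^^^ i := by decide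

theorem ofNat_val (j : Fin 64) : Fin.ofNat 64 j.val = j :=
  Fin.ext (Nat.mod_eq_of_lt j.isLt)

/-- PIECE REPX (1/3).  Every element of `C(f)` has a table in the list (`hdec1` from piece DEC). -/
theorem rp_ex
    (hdec1 : ∀ g ∈ Subgroup.centralizer ({zE} : Set G), ∃ a i, g = wOf a * fH i) :
    ∀ g : G, g * zE = zE * g → ∃ N ∈ allT, Rp g N := by
  intro g hg
  have hgc : g ∈ Subgroup.centralizer ({zE} : Set G) := by
    rw [Subgroup.mem_centralizer_iff]
    intro h hh
    rw [Set.mem_singleton_iff] at hh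
    rw [hh]
    exact hg.symm
  obtain ⟨a, i, hgi⟩ := hdec1 g hgc
  have hlt : (iota a).val < 16 := iota_lt a
  have hL : HLL.get (Fin.cast lenH.symm i) ∈ HLL := List.get_mem _ _
  refine ⟨tabOf (iota a).val (HLL.get (Fin.cast lenH.symm i)), ?_, ?_⟩
  · unfold allT
    exact List.mem_flatMap.2 ⟨_, hL, List.mem_map.2 ⟨(iota a).val, List.mem_range.2 hlt, rfl⟩⟩
  · refine ⟨(iota a).val, hlt, HLL.get (Fin.cast lenH.symm i), ?_, rfl⟩
    rw [hgi]
    unfold val wOf fH
    rw [ofNat_val]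

/-- PIECE REPX (2/3). -/
theorem rp_comm : ∀ (g : G) (N : List ℕ), Rp g N → g * zE = zE * g := by
  rintro g N ⟨i, _, L, rfl, _⟩
  unfold val
  have h1 : Wd (hWd L) * zE = zE * Wd (hWd L) := hcz _ (mem_word L)
  have h2 : ew (Fin.ofNat 64 i) * zE = zE * ew (Fin.ofNat 64 i) := by
    rw [← ew_one, hmulw, hmulw, xor_comm64]
  rw [mul_assoc, h1, ← mul_assoc, h2, mul_assoc]

/-- PIECE REPX (3/3). -/
theorem rp_val (i : ℕ) (hi : i < 16) (L : List ℕ) : Rp (val i L) (tabOf i L) :=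
  ⟨i, hi, L, rfl, rfl⟩

end Cfsg.Agent.Lib.Helper7.HeOREPX
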