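import Mathlib
import Cfsg.Agent.Lib.Helper4.Burnside

set_option autoImplicit false

namespace Cfsg.Agent.Lib.Helper7

/-- A group of order `7 * m` with `m ∣ 12` is solvable (normal Sylow 7-subgroup). -/
theorem solvable_seven_mul {Q : Type*} [Group Q] [Finite Q] (m : ℕ) (hm : m ∣ 12)
    (h : Nat.card Q = 7 * m) : Group.IsSolvable Q := by
  haveI : Fact (Nat.Prime 7) := ⟨by norm_num⟩
  obtain ⟨P⟩ : Nonempty (Sylow 7 Q) := inferInstance
  have h1 : Nat.card (Sylow 7 Q) ≡ 1 [MOD 7] := card_sylow_modEq_one 7 Q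
  have h2 : Nat.card (Sylow 7 Q) ∣ (P : Subgroup Q).index := Sylow.card_dvd_index P
  have h3 : ¬ 7 ∣ (P : Subgroup Q).index := Sylow.not_dvd_index P
  have h4 : (P : Subgroup Q).index ∣ 7 * m := h ▸ Subgroup.index_dvd_card _
  have h5 : (P : Subgroup Q).index ∣ m :=
    (Nat.Coprime.dvd_of_dvd_mul_left
      ((Nat.Prime.coprime_iff_not_dvd (by norm_num)).mpr h3).symm h4)
  have h6 : Nat.card (Sylow 7 Q) ∣ 12 := h2.trans (h5.trans hm)
  have h7 : Nat.card (Sylow 7 Q) = 1 := by
    have hle : Nat.card (Sylow 7 Q) ≤ 12 := Nat.le_of_dvd (by norm_num) h6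
    have hmod : Nat.card (Sylow 7 Q) % 7 = 1 := h1
    generalize Nat.card (Sylow 7 Q) = n at *
    interval_cases n <;> simp_all
  haveI : Subsingleton (Sylow 7 Q) := (Nat.card_eq_one_iff_unique.mp h7).1
  haveI hPn : (P : Subgroup Q).Normal := Sylow.normal_of_subsingleton P
  have hidx : (P : Subgroup Q).index ∣ 12 := h5.trans hm
  haveI : Group.IsSolvable (Q ⧸ (P : Subgroup Q)) := by
    have hc : Nat.card (Q ⧸ (P : Subgroup Q)) = (P : Subgroup Q).index := rfl
    have hle : (P : Subgroup Q).index ≤ 12 := Nat.le_of_dvd (by norm_num) hidx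
    rw [← hc] at hidx hle
    generalize hn : Nat.card (Q ⧸ (P : Subgroup Q)) = n at *
    interval_cases n
    · simp at hidx
    · exact Cfsg.Agent.Lib.Helper4.burnside 2 3 0 0 (by norm_num) (by norm_num) (by rw [hn]; norm_num)
    · exact Cfsg.Agent.Lib.Helper4.burnside 2 3 1 0 (by norm_num) (by norm_num) (by rw [hn]; norm_num)
    · exact Cfsg.Agent.Lib.Helper4.burnside 2 3 0 1 (by norm_num) (by norm_num) (by rw [hn]; norm_num)
    · exact Cfsg.Agent.Lib.Helper4.burnside 2 3 2 0 (by norm_num) (by norm_num) (by rw [hn]; norm_num)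
    · norm_num at hidx
    · exact Cfsg.Agent.Lib.Helper4.burnside 2 3 1 1 (by norm_num) (by norm_num) (by rw [hn]; norm_num)
    · norm_num at hidx
    · norm_num at hidx
    · norm_num at hidx
    · norm_num at hidx
    · norm_num at hidx
    · exact Cfsg.Agent.Lib.Helper4.burnside 2 3 2 1 (by norm_num) (by norm_num) (by rw [hn]; norm_num)
  haveI : Group.IsSolvable (P : Subgroup Q) := by
    haveI : Group.IsNilpotent (P : Subgroup Q) := P.2.isNilpotent
    infer_instance
  exact Group.isSolvable_of_ker_le_range (P : Subgroup Q).subtype (QuotientGroup.mk' (P : Subgroup Q))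
    (by rw [QuotientGroup.ker_mk', Subgroup.range_subtype])

/-- Every group whose order is a proper divisor of `168` is solvable. -/
theorem solvable_of_dvd_168 {Q : Type*} [Group Q] [Finite Q] (h : Nat.card Q ∣ 168)
    (hne : Nat.card Q ≠ 168) : Group.IsSolvable Q := by
  have hmem : Nat.card Q ∈ Nat.divisors 168 := Nat.mem_divisors.mpr ⟨h, by norm_num⟩
  have hd : Nat.divisors 168 = {1, 2, 3, 4, 6, 7, 8, 12, 14, 21, 24, 28, 42, 56, 84, 168} := by
    decide
  rw [hd] at hmem
  simp only [Finset.mem_insert, Finset.mem_singleton] at hmem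
  rcases hmem with h | h | h | h | h | h | h | h | h | h | h | h | h | h | h | h
  · exact Cfsg.Agent.Lib.Helper4.burnside 2 3 0 0 (by norm_num) (by norm_num) (by rw [h]; norm_num)
  · exact Cfsg.Agent.Lib.Helper4.burnside 2 3 1 0 (by norm_num) (by norm_num) (by rw [h]; norm_num)
  · exact Cfsg.Agent.Lib.Helper4.burnside 2 3 0 1 (by norm_num) (by norm_num) (by rw [h]; norm_num)
  · exact Cfsg.Agent.Lib.Helper4.burnside 2 3 2 0 (by norm_num) (by norm_num) (by rw [h]; norm_num)
  · exact Cfsg.Agent.Lib.Helper4.burnside 2 3 1 1 (by norm_num) (by norm_num) (by rw [h]; norm_num)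
  · exact Cfsg.Agent.Lib.Helper4.burnside 2 7 0 1 (by norm_num) (by norm_num) (by rw [h]; norm_num)
  · exact Cfsg.Agent.Lib.Helper4.burnside 2 3 3 0 (by norm_num) (by norm_num) (by rw [h]; norm_num)
  · exact Cfsg.Agent.Lib.Helper4.burnside 2 3 2 1 (by norm_num) (by norm_num) (by rw [h]; norm_num)
  · exact Cfsg.Agent.Lib.Helper4.burnside 2 7 1 1 (by norm_num) (by norm_num) (by rw [h]; norm_num)
  · exact Cfsg.Agent.Lib.Helper4.burnside 3 7 1 1 (by norm_num) (by norm_num) (by rw [h]; norm_num)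
  · exact Cfsg.Agent.Lib.Helper4.burnside 2 3 3 1 (by norm_num) (by norm_num) (by rw [h]; norm_num)
  · exact Cfsg.Agent.Lib.Helper4.burnside 2 7 2 1 (by norm_num) (by norm_num) (by rw [h]; norm_num)
  · exact solvable_seven_mul 6 (by norm_num) (by rw [h])
  · exact Cfsg.Agent.Lib.Helper4.burnside 2 7 3 1 (by norm_num) (by norm_num) (by rw [h]; norm_num)
  · exact solvable_seven_mul 12 (by norm_num) (by rw [h])
  · exact absurd h hne

/-- A group of order `168` generated by `a`, `b` with `a² = b³ = (ab)⁷ = 1` is simple. -/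
theorem simple_of_237 {G : Type*} [Group G] [Finite G] (hG : Nat.card G = 168) (a b : G)
    (ha : a ^ 2 = 1) (hb : b ^ 3 = 1) (hab : (a * b) ^ 7 = 1)
    (S : Set G) (hS : ∀ s ∈ S, s = a ∨ s = b) (hgen : Subgroup.closure S = ⊤) :
    IsSimpleGroup G := by
  haveI : Nontrivial G := by
    apply (Finite.one_lt_card_iff_nontrivial).mp
    rw [hG]; norm_num
  refine ⟨fun N hN => ?_⟩
  by_contra hcon
  push Not at hcon
  obtain ⟨hbot, htop⟩ := hcon
  have hidx : N.index * Nat.card N = 168 := by rw [← hG]; exact N.index_mul_card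
  have hN1 : Nat.card N ≠ 1 := fun h1 => hbot (Subgroup.card_eq_one.mp h1)
  have hcq : Nat.card (G ⧸ N) = N.index := rfl
  haveI hsol : Group.IsSolvable (G ⧸ N) := by
    apply solvable_of_dvd_168
    · rw [hcq]; exact Dvd.intro _ hidx
    · rw [hcq]
      intro h168
      rw [h168] at hidx
      exact hN1 (by omega)
  haveI hnt : Nontrivial (G ⧸ N) := by
    apply (Finite.one_lt_card_iff_nontrivial).mp
    rw [hcq]
    have h0 : N.index ≠ 0 := fun h0 => by rw [h0] at hidx; omega
    have h1 : N.index ≠ 1 := fun h1 => htop (Subgroup.index_eq_one.mp h1)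
    omega
  have hlt : commutator (G ⧸ N) < ⊤ := Group.IsSolvable.commutator_lt_top_of_nontrivial (G ⧸ N)
  obtain ⟨x, -, hx⟩ := SetLike.exists_of_lt hlt
  obtain ⟨g, rfl⟩ := QuotientGroup.mk_surjective x
  let f : G →* Abelianization (G ⧸ N) := (Abelianization.of).comp (QuotientGroup.mk' N)
  have hfa2 : f a ^ 2 = 1 := by rw [← map_pow, ha, map_one]
  have hfb3 : f b ^ 3 = 1 := by rw [← map_pow, hb, map_one]
  have hfab : (f a * f b) ^ 7 = 1 := by rw [← map_mul, ← map_pow, hab, map_one]
  have h1 : f a * f b = 1 := by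
    have e1 : f a ^ 7 = f a := by
      calc f a ^ 7 = (f a ^ 2) ^ 3 * f a := by group
        _ = f a := by rw [hfa2]; simp
    have e2 : f b ^ 7 = f b := by
      calc f b ^ 7 = (f b ^ 3) ^ 2 * f b := by group
        _ = f b := by rw [hfb3]; simp
    rw [mul_pow, e1, e2] at hfab
    exact hfab
  have hfa : f a = 1 := by
    have e3 : f a = (f b)⁻¹ := eq_inv_of_mul_eq_one_left h1
    have e4 : f a ^ 3 = 1 := by rw [e3, inv_pow, hfb3, inv_one]
    calc f a = f a ^ 3 * (f a ^ 2)⁻¹ := by group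
      _ = 1 := by rw [e4, hfa2]; simp
  have hfb : f b = 1 := by rw [hfa, one_mul] at h1; exact h1
  have hf : f = 1 := by
    apply MonoidHom.eq_of_eqOn_dense hgen
    intro s hs
    rcases hS s hs with rfl | rfl
    · rw [hfa]; rfl
    · rw [hfb]; rfl
  have hfg : f g = 1 := by rw [hf]; rfl
  apply hx
  have : (Abelianization.of (QuotientGroup.mk' N g) : Abelianization (G ⧸ N)) = 1 := hfg
  rw [← QuotientGroup.eq_one_iff]
  exact this

end Cfsg.Agent.Lib.Helper7
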