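import Cfsg.Agent.Lib.Helper70.J1Tools
import Cfsg.Agent.Lib.Helper7.J1CentData

/-!
# Centralisers in J1 by certificate, for arbitrary elements (helper7)

Built on helper70's enumeration `g = u_k κ_c` of J1 (`k < 3080`, `c < 57`, `κ_c v0 = v0`).
If `g` commutes with `h` then `κ_c (h v0) = u_kᵀ (h (u_k v0))` (J1 is orthogonal), which leaves at
most one `c` for each `k`, and only a few `k` at all; those candidates are then checked directly.
-/

set_option autoImplicit false

namespace Cfsg.Agent.Lib.Helper7.J1C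

open Cfsg.Spor Cfsg.Agent.Lib.Helper70.J1

/-- The entry `i` of the product of the transpose of the matrix encoded by `A` and the vector
encoded by `v`. -/
def pvT (A v i : ℕ) : ℕ :=
  Nat.add (Nat.add (Nat.add (Nat.add (Nat.add (Nat.add
    (Nat.mul (ent A i) (ent v 0))
    (Nat.mul (ent A (Nat.add 7 i)) (ent v 1)))
    (Nat.mul (ent A (Nat.add 14 i)) (ent v 2)))
    (Nat.mul (ent A (Nat.add 21 i)) (ent v 3)))
    (Nat.mul (ent A (Nat.add 28 i)) (ent v 4)))
    (Nat.mul (ent A (Nat.add 35 i)) (ent v 5)))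
    (Nat.mul (ent A (Nat.add 42 i)) (ent v 6))

theorem mulVecT_dec_apply (A v : ℕ) (i : Fin 7) :
    (dec A).transpose.mulVec (decV v) i = ((pvT A v i.val : ℕ) : ZMod 11) := by
  simp only [Matrix.mulVec, dotProduct, Fin.sum_univ_seven, dec, decV, pvT, Nat.add_eq,
    Nat.mul_eq, Matrix.transpose_apply]
  push_cast
  simp

/-- Checks `Aᵀ *ᵥ v = v'` for the encoded matrix and vectors. -/
noncomputable def mvTEq (A v v' : ℕ) : Bool :=
  allLt 7 fun i => Nat.beq (Nat.mod (pvT A v i) 11) (Nat.mod (ent v' i) 11)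

theorem mvTEq_iff (A v v' : ℕ) :
    mvTEq A v v' = true ↔ (dec A).transpose.mulVec (decV v) = decV v' := by
  unfold mvTEq
  rw [allLt_iff]
  constructor
  · intro h
    ext i
    have := h i.val i.isLt
    rw [beq_mod_iff] at this
    rw [mulVecT_dec_apply, this]
    rfl
  · intro h i hi
    rw [beq_mod_iff]
    have := congrFun h ⟨i, hi⟩
    rwa [mulVecT_dec_apply] at this

/-- Checks that two codes encode the same vector. -/
noncomputable def vecEq (v v' : ℕ) : Bool :=
  allLt 7 fun i => Nat.beq (Nat.mod (ent v i) 11) (Nat.mod (ent v' i) 11)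

theorem vecEq_iff (v v' : ℕ) : vecEq v v' = true ↔ decV v = decV v' := by
  unfold vecEq
  rw [allLt_iff]
  constructor
  · intro h
    ext i
    have := h i.val i.isLt
    rw [beq_mod_iff] at this
    exact this
  · intro h i hi
    rw [beq_mod_iff]
    exact congrFun h ⟨i, hi⟩

/-- Every element of J1 is an orthogonal matrix. -/
theorem J1_orth {g : GL (Fin 7) (ZMod 11)} (hg : g ∈ J1) :
    (g : M7).transpose * (g : M7) = 1 := by
  unfold J1 at hg
  induction hg using Subgroup.closure_induction with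
  | mem x hx =>
    rcases hx with rfl | rfl
    · exact jankoX.inv_val
    · exact jankoY.inv_val
  | one => simp
  | mul x y _ _ hx hy =>
    rw [Units.val_mul, Matrix.transpose_mul, mul_assoc, ← mul_assoc _ (x : M7), hx, one_mul, hy]
  | inv x _ hx =>
    have h1 : ((x⁻¹ : GL (Fin 7) (ZMod 11)) : M7) = (x : M7).transpose := by
      have h2 : (x : M7).transpose * (x : M7) * ((x⁻¹ : GL (Fin 7) (ZMod 11)) : M7) =
          (x : M7).transpose := by
        rw [mul_assoc, Units.mul_inv, mul_one]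
      rw [hx, one_mul] at h2
      exact h2
    rw [h1, Matrix.transpose_transpose]
    exact mul_eq_one_comm.mp hx

theorem U_orth (k : ℕ) (hk : k < 3080) : (dec (U k)).transpose * dec (U k) = 1 := by
  obtain ⟨g, hg, hgm⟩ := U_mem k hk
  rw [← hgm]
  exact J1_orth hg

/-- Code of the vector `u_k v0` (literal table). -/
def VT (k : ℕ) : ℕ := fld VTB 28 k

theorem chkVT : allLt 3080 (fun k => mvEq (U k) v0 (VT k)) = true := by decide +kernel

theorem VT_spec (k : ℕ) (hk : k < 3080) : (dec (U k)).mulVec (decV v0) = decV (VT k) :=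
  (mvEq_iff _ _ _).mp ((allLt_iff _ _).mp chkVT k hk)

/-- The centraliser of an element `h` of J1, by certificate: every element commuting with `h` has
its code in the list `CL`. -/
theorem cent_cert (Hc PV nC N : ℕ) (HV QT RT FP CK CC CG IDX CL : ℕ → ℕ)
    (h : ↥J1) (hh : IsCode h Hc)
    (c0 : mvEq Hc v0 PV = true)
    (c1 : allLt 3080 (fun k => mvEq Hc (VT k) (HV k)) = true)
    (c2 : allLt 3080 (fun k => mvTEq (U k) (HV k) (QT k)) = true)
    (c3 : allLt 57 (fun c => mvEq (Kt c) PV (RT c)) = true)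
    (c4 : allLt 3080 (fun k => allLt 57 fun c => !(vecEq (RT c) (QT k)) ||
      (Nat.blt 0 (FP k) && Nat.ble (FP k) nC && Nat.beq (CK (Nat.sub (FP k) 1)) k &&
        Nat.beq (CC (Nat.sub (FP k) 1)) c)) = true)
    (c5 : allLt nC (fun j => mulEq (U (CK j)) (Kt (CC j)) (CG j) cI &&
      (!(mulEq (CG j) Hc Hc (CG j)) ||
        (Nat.blt (IDX j) N && mulEq (CG j) cI (CL (IDX j)) cI))) = true) :
    ∀ g : ↥J1, g * h = h * g → ∃ m < N, IsCode g (CL m) := by
  intro g hgh
  obtain ⟨k, hk, c, hc, hg⟩ := exists_rep g.2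
  have hh' : ((h : GL (Fin 7) (ZMod 11)) : M7) = dec Hc := hh
  have hcomm : ((g : GL (Fin 7) (ZMod 11)) : M7) * dec Hc =
      dec Hc * ((g : GL (Fin 7) (ZMod 11)) : M7) := by
    have := congrArg (fun x : ↥J1 => ((x : GL (Fin 7) (ZMod 11)) : M7)) hgh
    simp only [Subgroup.coe_mul, Units.val_mul] at this
    rw [hh'] at this
    exact this
  -- the two sides applied to `v0`
  have e0 : (dec Hc).mulVec (decV v0) = decV PV := (mvEq_iff _ _ _).mp c0
  have e1 : (dec Hc).mulVec (decV (VT k)) = decV (HV k) :=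
    (mvEq_iff _ _ _).mp ((allLt_iff _ _).mp c1 k hk)
  have e2 : (dec (U k)).transpose.mulVec (decV (HV k)) = decV (QT k) :=
    (mvTEq_iff _ _ _).mp ((allLt_iff _ _).mp c2 k hk)
  have e3 : (dec (Kt c)).mulVec (decV PV) = decV (RT c) :=
    (mvEq_iff _ _ _).mp ((allLt_iff _ _).mp c3 c hc)
  have lhs : (((g : GL (Fin 7) (ZMod 11)) : M7) * dec Hc).mulVec (decV v0) =
      (dec (U k)).mulVec (decV (RT c)) := by
    rw [hg, ← Matrix.mulVec_mulVec, e0, ← Matrix.mulVec_mulVec, e3]
  have rhs : (dec Hc * ((g : GL (Fin 7) (ZMod 11)) : M7)).mulVec (decV v0) = decV (HV k) := by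
    rw [hg, ← Matrix.mulVec_mulVec, ← Matrix.mulVec_mulVec, Kt_fix c hc, VT_spec k hk, e1]
  have key : decV (RT c) = decV (QT k) := by
    have h1 : (dec (U k)).mulVec (decV (RT c)) = decV (HV k) := by
      rw [← lhs, hcomm, rhs]
    have h2 := congrArg (fun w => (dec (U k)).transpose.mulVec w) h1
    simp only [Matrix.mulVec_mulVec, U_orth k hk, Matrix.one_mulVec] at h2
    rw [h2, e2]
  have hve : vecEq (RT c) (QT k) = true := (vecEq_iff _ _).mpr key
  have h4 := (allLt_iff _ _).mp ((allLt_iff _ _).mp c4 k hk) c hc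
  rw [hve] at h4
  simp only [Bool.not_true, Bool.false_or, Bool.and_eq_true] at h4
  obtain ⟨⟨⟨hp0, hpn⟩, hCK⟩, hCC⟩ := h4
  have hp0' : 0 < FP k := Nat.le_of_ble_eq_true hp0
  have hpn' : FP k ≤ nC := Nat.le_of_ble_eq_true hpn
  have hCK' : CK (FP k - 1) = k := Nat.eq_of_beq_eq_true hCK
  have hCC' : CC (FP k - 1) = c := Nat.eq_of_beq_eq_true hCC
  have hjn : FP k - 1 < nC := by omega
  have h5 := (allLt_iff _ _).mp c5 (FP k - 1) hjn
  rw [Bool.and_eq_true] at h5
  obtain ⟨h5a, h5b⟩ := h5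
  rw [hCK', hCC'] at h5a
  have hgc : ((g : GL (Fin 7) (ZMod 11)) : M7) = dec (CG (FP k - 1)) := by
    rw [hg]
    exact dec_mul_one_of _ _ _ _ dec_cI h5a
  have hcm : mulEq (CG (FP k - 1)) Hc Hc (CG (FP k - 1)) = true := by
    rw [mulEq_iff, ← hgc]
    exact hcomm
  rw [hcm] at h5b
  simp only [Bool.not_true, Bool.false_or, Bool.and_eq_true] at h5b
  refine ⟨IDX (FP k - 1), Nat.le_of_ble_eq_true h5b.1, ?_⟩
  have h6 := (mulEq_iff _ _ _ _).mp h5b.2
  rw [dec_cI, mul_one, mul_one] at h6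
  exact hgc.trans h6

/-- Codes of the powers of an element along a chain `HP (i + 1) = HP i * Hc`. -/
theorem isCode_pow_chain (HP : ℕ → ℕ) (Hc n : ℕ) (h : ↥J1) (hh : IsCode h Hc)
    (h0 : mulEq (HP 0) cI cI cI = true)
    (chain : allLt n (fun i => mulEq (HP i) Hc (HP (Nat.add i 1)) cI) = true) :
    ∀ i, i ≤ n → IsCode (h ^ i) (HP i) := by
  intro i
  induction i with
  | zero =>
    intro _
    rw [pow_zero]
    have h1 := (mulEq_iff _ _ _ _).mp h0
    rw [dec_cI, mul_one, mul_one] at h1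
    show ((1 : GL (Fin 7) (ZMod 11)) : M7) = dec (HP 0)
    rw [h1]
    rfl
  | succ i ih =>
    intro hi
    rw [pow_succ]
    exact (ih (by omega)).mul hh ((allLt_iff _ _).mp chain i (by omega))

end Cfsg.Agent.Lib.Helper7.J1C
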