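import Cfsg.Agent.Lib.Helper7.J1CentCert

/-!
# Centralisers of elements of orders 3, 7, 11, 19 in J1: kernel evaluation of the certificates
(generated, helper7)
-/

set_option autoImplicit false

namespace Cfsg.Agent.Lib.Helper7.J1C

open Cfsg.Spor Cfsg.Agent.Lib.Helper70.J1

theorem comm_of_codes {a b : ↥J1} {A B : ℕ} (ha : IsCode a A) (hb : IsCode b B)
    (hc : mulEq A B B A = true) : a * b = b * a := by
  apply Subtype.ext
  apply Units.ext
  rw [Subgroup.coe_mul, Subgroup.coe_mul, Units.val_mul, Units.val_mul]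
  unfold IsCode at ha hb
  rw [ha, hb]
  exact (mulEq_iff _ _ _ _).mp hc

theorem not_comm_of_codes {a b : ↥J1} {A B : ℕ} (ha : IsCode a A) (hb : IsCode b B)
    (hc : mulEq A B B A = false) : a * b ≠ b * a := by
  intro h
  have h1 := congrArg (fun x : ↥J1 => ((x : GL (Fin 7) (ZMod 11)) : M7)) h
  simp only [Subgroup.coe_mul, Units.val_mul] at h1
  unfold IsCode at ha hb
  rw [ha, hb] at h1
  have h2 : mulEq A B B A = true := (mulEq_iff _ _ _ _).mpr h1
  rw [hc] at h2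
  exact Bool.false_ne_true h2

/-- An element of prime order `p` whose centraliser consists of its powers. -/
theorem prime_cent (p : ℕ) (hp : p.Prime) (Hc : ℕ) (CL : ℕ → ℕ) (h : ↥J1) (hh : IsCode h Hc)
    (h0 : mulEq (CL 0) cI cI cI = true)
    (chain : allLt p (fun i => mulEq (CL i) Hc (CL (Nat.add i 1)) cI) = true)
    (hlast : mulEq (CL p) cI cI cI = true)
    (hne : mulEq Hc cI cI cI = false)
    (cert : ∀ g : ↥J1, g * h = h * g → ∃ m < p, IsCode g (CL m)) :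
    orderOf h = p ∧ ∀ g : ↥J1, g * h = h * g → g ^ p = 1 := by
  have pw := isCode_pow_chain CL Hc p h hh h0 chain
  have hp1 : h ^ p = 1 := ((pw p le_rfl).congr hlast).eq_one
  have hne1 : h ≠ 1 := hh.ne isCode_one hne
  haveI : Fact p.Prime := ⟨hp⟩
  refine ⟨orderOf_eq_prime hp1 hne1, fun g hg => ?_⟩
  obtain ⟨m, hm, hgm⟩ := cert g hg
  have : g = h ^ m := hgm.ext (pw m hm.le)
  rw [this, ← pow_mul, mul_comm, pow_mul, hp1, one_pow]


/-! ### The element `h7` of order 7 -/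

def h7_HV (k : ℕ) : ℕ := fld h7_HVB 28 k
def h7_QT (k : ℕ) : ℕ := fld h7_QB 28 k
def h7_RT (c : ℕ) : ℕ := fld h7_RTB 28 c
def h7_FP (k : ℕ) : ℕ := fld h7_FPB 7 k
def h7_CK (j : ℕ) : ℕ := fld h7_CKB 12 j
def h7_CC (j : ℕ) : ℕ := fld h7_CCB 6 j
def h7_CG (j : ℕ) : ℕ := fld h7_CGB 196 j
def h7_IDX (j : ℕ) : ℕ := fld h7_IDXB 5 j
def h7_CL (m : ℕ) : ℕ := fld h7_CLB 196 m

theorem h7_c0 : mvEq h7_Hc v0 h7_PV = true := by decide +kernel
theorem h7_c1 : allLt 3080 (fun k => mvEq h7_Hc (VT k) (h7_HV k)) = true := by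
  decide +kernel
theorem h7_c2 : allLt 3080 (fun k => mvTEq (U k) (h7_HV k) (h7_QT k)) = true := by
  decide +kernel
theorem h7_c3 : allLt 57 (fun c => mvEq (Kt c) h7_PV (h7_RT c)) = true := by
  decide +kernel
theorem h7_c4 : allLt 3080 (fun k => allLt 57 fun c => !(vecEq (h7_RT c) (h7_QT k)) ||
    (Nat.blt 0 (h7_FP k) && Nat.ble (h7_FP k) h7_nC &&
      Nat.beq (h7_CK (Nat.sub (h7_FP k) 1)) k &&
      Nat.beq (h7_CC (Nat.sub (h7_FP k) 1)) c)) = true := by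
  decide +kernel
theorem h7_c5 : allLt h7_nC (fun j =>
    mulEq (U (h7_CK j)) (Kt (h7_CC j)) (h7_CG j) cI &&
    (!(mulEq (h7_CG j) h7_Hc h7_Hc (h7_CG j)) ||
      (Nat.blt (h7_IDX j) 7 && mulEq (h7_CG j) cI (h7_CL (h7_IDX j)) cI))) = true := by
  decide +kernel

theorem h7_exists : ∃ h : ↥J1, IsCode h h7_Hc :=
  exists_isCode h7_k h7_c h7_Hc (by decide +kernel) (by decide +kernel)
    (by decide +kernel)

theorem h7_cert (h : ↥J1) (hh : IsCode h h7_Hc) :
    ∀ g : ↥J1, g * h = h * g → ∃ m < 7, IsCode g (h7_CL m) :=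
  cent_cert h7_Hc h7_PV h7_nC 7 h7_HV h7_QT h7_RT h7_FP h7_CK
    h7_CC h7_CG h7_IDX h7_CL h hh h7_c0 h7_c1 h7_c2 h7_c3 h7_c4
    h7_c5


theorem h7_chain0 : mulEq (h7_CL 0) cI cI cI = true := by decide +kernel
theorem h7_chain : allLt 7 (fun i =>
    mulEq (h7_CL i) h7_Hc (h7_CL (Nat.add i 1)) cI) = true := by decide +kernel
theorem h7_last : mulEq (h7_CL 7) cI cI cI = true := by decide +kernel
theorem h7_ne : mulEq h7_Hc cI cI cI = false := by decide +kernel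

theorem h7_main (h : ↥J1) (hh : IsCode h h7_Hc) :
    orderOf h = 7 ∧ ∀ g : ↥J1, g * h = h * g → g ^ 7 = 1 :=
  prime_cent 7 (by norm_num) h7_Hc h7_CL h hh h7_chain0 h7_chain h7_last
    h7_ne (h7_cert h hh)


/-! ### The element `h11` of order 11 -/

def h11_HV (k : ℕ) : ℕ := fld h11_HVB 28 k
def h11_QT (k : ℕ) : ℕ := fld h11_QB 28 k
def h11_RT (c : ℕ) : ℕ := fld h11_RTB 28 c
def h11_FP (k : ℕ) : ℕ := fld h11_FPB 7 k
def h11_CK (j : ℕ) : ℕ := fld h11_CKB 12 j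
def h11_CC (j : ℕ) : ℕ := fld h11_CCB 6 j
def h11_CG (j : ℕ) : ℕ := fld h11_CGB 196 j
def h11_IDX (j : ℕ) : ℕ := fld h11_IDXB 5 j
def h11_CL (m : ℕ) : ℕ := fld h11_CLB 196 m

theorem h11_c0 : mvEq h11_Hc v0 h11_PV = true := by decide +kernel
theorem h11_c1 : allLt 3080 (fun k => mvEq h11_Hc (VT k) (h11_HV k)) = true := by
  decide +kernel
theorem h11_c2 : allLt 3080 (fun k => mvTEq (U k) (h11_HV k) (h11_QT k)) = true := by
  decide +kernel
theorem h11_c3 : allLt 57 (fun c => mvEq (Kt c) h11_PV (h11_RT c)) = true := by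
  decide +kernel
theorem h11_c4 : allLt 3080 (fun k => allLt 57 fun c => !(vecEq (h11_RT c) (h11_QT k)) ||
    (Nat.blt 0 (h11_FP k) && Nat.ble (h11_FP k) h11_nC &&
      Nat.beq (h11_CK (Nat.sub (h11_FP k) 1)) k &&
      Nat.beq (h11_CC (Nat.sub (h11_FP k) 1)) c)) = true := by
  decide +kernel
theorem h11_c5 : allLt h11_nC (fun j =>
    mulEq (U (h11_CK j)) (Kt (h11_CC j)) (h11_CG j) cI &&
    (!(mulEq (h11_CG j) h11_Hc h11_Hc (h11_CG j)) ||
      (Nat.blt (h11_IDX j) 11 && mulEq (h11_CG j) cI (h11_CL (h11_IDX j)) cI))) = true := by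
  decide +kernel

theorem h11_exists : ∃ h : ↥J1, IsCode h h11_Hc :=
  exists_isCode h11_k h11_c h11_Hc (by decide +kernel) (by decide +kernel)
    (by decide +kernel)

theorem h11_cert (h : ↥J1) (hh : IsCode h h11_Hc) :
    ∀ g : ↥J1, g * h = h * g → ∃ m < 11, IsCode g (h11_CL m) :=
  cent_cert h11_Hc h11_PV h11_nC 11 h11_HV h11_QT h11_RT h11_FP h11_CK
    h11_CC h11_CG h11_IDX h11_CL h hh h11_c0 h11_c1 h11_c2 h11_c3 h11_c4
    h11_c5


theorem h11_chain0 : mulEq (h11_CL 0) cI cI cI = true := by decide +kernel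
theorem h11_chain : allLt 11 (fun i =>
    mulEq (h11_CL i) h11_Hc (h11_CL (Nat.add i 1)) cI) = true := by decide +kernel
theorem h11_last : mulEq (h11_CL 11) cI cI cI = true := by decide +kernel
theorem h11_ne : mulEq h11_Hc cI cI cI = false := by decide +kernel

theorem h11_main (h : ↥J1) (hh : IsCode h h11_Hc) :
    orderOf h = 11 ∧ ∀ g : ↥J1, g * h = h * g → g ^ 11 = 1 :=
  prime_cent 11 (by norm_num) h11_Hc h11_CL h hh h11_chain0 h11_chain h11_last
    h11_ne (h11_cert h hh)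


/-! ### The element `h19` of order 19 -/

def h19_HV (k : ℕ) : ℕ := fld h19_HVB 28 k
def h19_QT (k : ℕ) : ℕ := fld h19_QB 28 k
def h19_RT (c : ℕ) : ℕ := fld h19_RTB 28 c
def h19_FP (k : ℕ) : ℕ := fld h19_FPB 7 k
def h19_CK (j : ℕ) : ℕ := fld h19_CKB 12 j
def h19_CC (j : ℕ) : ℕ := fld h19_CCB 6 j
def h19_CG (j : ℕ) : ℕ := fld h19_CGB 196 j
def h19_IDX (j : ℕ) : ℕ := fld h19_IDXB 5 j
def h19_CL (m : ℕ) : ℕ := fld h19_CLB 196 m

theorem h19_c0 : mvEq h19_Hc v0 h19_PV = true := by decide +kernel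
theorem h19_c1 : allLt 3080 (fun k => mvEq h19_Hc (VT k) (h19_HV k)) = true := by
  decide +kernel
theorem h19_c2 : allLt 3080 (fun k => mvTEq (U k) (h19_HV k) (h19_QT k)) = true := by
  decide +kernel
theorem h19_c3 : allLt 57 (fun c => mvEq (Kt c) h19_PV (h19_RT c)) = true := by
  decide +kernel
theorem h19_c4 : allLt 3080 (fun k => allLt 57 fun c => !(vecEq (h19_RT c) (h19_QT k)) ||
    (Nat.blt 0 (h19_FP k) && Nat.ble (h19_FP k) h19_nC &&
      Nat.beq (h19_CK (Nat.sub (h19_FP k) 1)) k &&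
      Nat.beq (h19_CC (Nat.sub (h19_FP k) 1)) c)) = true := by
  decide +kernel
theorem h19_c5 : allLt h19_nC (fun j =>
    mulEq (U (h19_CK j)) (Kt (h19_CC j)) (h19_CG j) cI &&
    (!(mulEq (h19_CG j) h19_Hc h19_Hc (h19_CG j)) ||
      (Nat.blt (h19_IDX j) 19 && mulEq (h19_CG j) cI (h19_CL (h19_IDX j)) cI))) = true := by
  decide +kernel

theorem h19_exists : ∃ h : ↥J1, IsCode h h19_Hc :=
  exists_isCode h19_k h19_c h19_Hc (by decide +kernel) (by decide +kernel)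
    (by decide +kernel)

theorem h19_cert (h : ↥J1) (hh : IsCode h h19_Hc) :
    ∀ g : ↥J1, g * h = h * g → ∃ m < 19, IsCode g (h19_CL m) :=
  cent_cert h19_Hc h19_PV h19_nC 19 h19_HV h19_QT h19_RT h19_FP h19_CK
    h19_CC h19_CG h19_IDX h19_CL h hh h19_c0 h19_c1 h19_c2 h19_c3 h19_c4
    h19_c5


theorem h19_chain0 : mulEq (h19_CL 0) cI cI cI = true := by decide +kernel
theorem h19_chain : allLt 19 (fun i =>
    mulEq (h19_CL i) h19_Hc (h19_CL (Nat.add i 1)) cI) = true := by decide +kernel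
theorem h19_last : mulEq (h19_CL 19) cI cI cI = true := by decide +kernel
theorem h19_ne : mulEq h19_Hc cI cI cI = false := by decide +kernel

theorem h19_main (h : ↥J1) (hh : IsCode h h19_Hc) :
    orderOf h = 19 ∧ ∀ g : ↥J1, g * h = h * g → g ^ 19 = 1 :=
  prime_cent 19 (by norm_num) h19_Hc h19_CL h hh h19_chain0 h19_chain h19_last
    h19_ne (h19_cert h hh)


/-! ### The element `h3` of order 3 -/

def h3_HV (k : ℕ) : ℕ := fld h3_HVB 28 k
def h3_QT (k : ℕ) : ℕ := fld h3_QB 28 k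
def h3_RT (c : ℕ) : ℕ := fld h3_RTB 28 c
def h3_FP (k : ℕ) : ℕ := fld h3_FPB 7 k
def h3_CK (j : ℕ) : ℕ := fld h3_CKB 12 j
def h3_CC (j : ℕ) : ℕ := fld h3_CCB 6 j
def h3_CG (j : ℕ) : ℕ := fld h3_CGB 196 j
def h3_IDX (j : ℕ) : ℕ := fld h3_IDXB 5 j
def h3_CL (m : ℕ) : ℕ := fld h3_CLB 196 m

theorem h3_c0 : mvEq h3_Hc v0 h3_PV = true := by decide +kernel
theorem h3_c1 : allLt 3080 (fun k => mvEq h3_Hc (VT k) (h3_HV k)) = true := by
  decide +kernel
theorem h3_c2 : allLt 3080 (fun k => mvTEq (U k) (h3_HV k) (h3_QT k)) = true := by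
  decide +kernel
theorem h3_c3 : allLt 57 (fun c => mvEq (Kt c) h3_PV (h3_RT c)) = true := by
  decide +kernel
theorem h3_c4 : allLt 3080 (fun k => allLt 57 fun c => !(vecEq (h3_RT c) (h3_QT k)) ||
    (Nat.blt 0 (h3_FP k) && Nat.ble (h3_FP k) h3_nC &&
      Nat.beq (h3_CK (Nat.sub (h3_FP k) 1)) k &&
      Nat.beq (h3_CC (Nat.sub (h3_FP k) 1)) c)) = true := by
  decide +kernel
theorem h3_c5 : allLt h3_nC (fun j =>
    mulEq (U (h3_CK j)) (Kt (h3_CC j)) (h3_CG j) cI &&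
    (!(mulEq (h3_CG j) h3_Hc h3_Hc (h3_CG j)) ||
      (Nat.blt (h3_IDX j) 30 && mulEq (h3_CG j) cI (h3_CL (h3_IDX j)) cI))) = true := by
  decide +kernel

theorem h3_exists : ∃ h : ↥J1, IsCode h h3_Hc :=
  exists_isCode h3_k h3_c h3_Hc (by decide +kernel) (by decide +kernel)
    (by decide +kernel)

theorem h3_cert (h : ↥J1) (hh : IsCode h h3_Hc) :
    ∀ g : ↥J1, g * h = h * g → ∃ m < 30, IsCode g (h3_CL m) :=
  cent_cert h3_Hc h3_PV h3_nC 30 h3_HV h3_QT h3_RT h3_FP h3_CK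
    h3_CC h3_CG h3_IDX h3_CL h hh h3_c0 h3_c1 h3_c2 h3_c3 h3_c4
    h3_c5


/-! ### Order of `h3`, two non-commuting elements of its centraliser, an element of order 15 -/

def h3_PW (i : ℕ) : ℕ := fld h3_PWB 196 i

theorem h3_chain0 : mulEq (h3_PW 0) cI cI cI = true := by decide +kernel
theorem h3_chain : allLt 3 (fun i => mulEq (h3_PW i) h3_Hc (h3_PW (Nat.add i 1)) cI) = true := by
  decide +kernel
theorem h3_last : mulEq (h3_PW 3) cI cI cI = true := by decide +kernel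
theorem h3_ne : mulEq h3_Hc cI cI cI = false := by decide +kernel

theorem h3_order (h : ↥J1) (hh : IsCode h h3_Hc) : orderOf h = 3 := by
  have pw := isCode_pow_chain h3_PW h3_Hc 3 h hh h3_chain0 h3_chain
  have hp1 : h ^ 3 = 1 := ((pw 3 le_rfl).congr h3_last).eq_one
  have hne1 : h ≠ 1 := hh.ne isCode_one h3_ne
  haveI : Fact (Nat.Prime 3) := ⟨by norm_num⟩
  exact orderOf_eq_prime hp1 hne1

theorem h3_card (h : ↥J1) (hh : IsCode h h3_Hc) :
    Nat.card (Subgroup.centralizer ({h} : Set ↥J1)) ≤ 30 := by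
  have hex : ∀ g : Subgroup.centralizer ({h} : Set ↥J1), ∃ m : Fin 30,
      IsCode (g : ↥J1) (h3_CL m.val) := by
    intro g
    have hg : (g : ↥J1) * h = h * (g : ↥J1) :=
      (Subgroup.mem_centralizer_iff.mp g.2 h (Set.mem_singleton h)).symm
    obtain ⟨m, hm, hgm⟩ := h3_cert h hh g hg
    exact ⟨⟨m, hm⟩, hgm⟩
  choose f hf using hex
  have hinj : Function.Injective f := by
    intro g g' hgg
    apply Subtype.ext
    have h1 := hf g
    rw [hgg] at h1
    exact h1.ext (hf g')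
  have := Nat.card_le_card_of_injective f hinj
  rwa [Nat.card_fin] at this

theorem y_exists (h : ↥J1) (hh : IsCode h h3_Hc) :
    ∃ y1 y2 : ↥J1, y1 * h = h * y1 ∧ y2 * h = h * y2 ∧ y1 * y2 ≠ y2 * y1 := by
  obtain ⟨y1, h1⟩ := exists_isCode y1_k y1_c y1_C (by decide +kernel) (by decide +kernel)
    (by decide +kernel)
  obtain ⟨y2, h2⟩ := exists_isCode y2_k y2_c y2_C (by decide +kernel) (by decide +kernel)
    (by decide +kernel)
  exact ⟨y1, y2, comm_of_codes h1 hh (by decide +kernel), comm_of_codes h2 hh (by decide +kernel),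
    not_comm_of_codes h1 h2 (by decide +kernel)⟩

theorem g15_exists : ∃ g : ↥J1, orderOf g = 15 := by
  obtain ⟨g, h1⟩ := exists_isCode g15_k g15_c g15_A1 (by decide +kernel) (by decide +kernel)
    (by decide +kernel)
  have p1 : IsCode (g ^ 1) g15_A1 := h1.pow_one
  have p2 : IsCode (g ^ (1 + 1)) g15_A2 := p1.pow_add p1 (by decide +kernel)
  have p3 : IsCode (g ^ (1 + 1 + 1)) g15_A3 := p2.pow_add p1 (by decide +kernel)
  have p5 : IsCode (g ^ (1 + 1 + 1 + (1 + 1))) g15_A5 := p3.pow_add p2 (by decide +kernel)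
  have p10 : IsCode (g ^ (1 + 1 + 1 + (1 + 1) + (1 + 1 + 1 + (1 + 1)))) g15_A10 :=
    p5.pow_add p5 (by decide +kernel)
  have p15 : IsCode (g ^ (1 + 1 + 1 + (1 + 1) + (1 + 1 + 1 + (1 + 1)) + (1 + 1 + 1 + (1 + 1)))) cI :=
    p10.pow_add p5 (by decide +kernel)
  have e15 : g ^ 15 = 1 := p15.eq_one
  have n3 : g ^ 3 ≠ 1 := p3.ne isCode_one (by decide +kernel)
  have n5 : g ^ 5 ≠ 1 := p5.ne isCode_one (by decide +kernel)
  refine ⟨g, ?_⟩
  have hd : orderOf g ∣ 15 := orderOf_dvd_of_pow_eq_one e15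
  have hmem : orderOf g ∈ Nat.divisors 15 := Nat.mem_divisors.mpr ⟨hd, by norm_num⟩
  have hdiv : Nat.divisors 15 = {1, 3, 5, 15} := by decide
  rw [hdiv] at hmem
  simp only [Finset.mem_insert, Finset.mem_singleton] at hmem
  rcases hmem with h | h | h | h
  · exact absurd (by rw [orderOf_eq_one_iff.mp h, one_pow]) n3
  · exact absurd (by rw [← h]; exact pow_orderOf_eq_one g) n3
  · exact absurd (by rw [← h]; exact pow_orderOf_eq_one g) n5
  · exact h

end Cfsg.Agent.Lib.Helper7.J1C
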