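import Cfsg.Agent.Lib.Helper7.J1CentRun
import Cfsg.Agent.Lib.Helper57.J1SpecA
import Cfsg.Agent.S2131

/-!
# The spectrum of the Janko group J1 (helper7)

`Set.range orderOf = {1, 2, 3, 5, 6, 7, 10, 11, 15, 19}`, from the centraliser certificates
(orders 3, 7, 11, 19), the involution centraliser `2 × A5` (helper70, S2131) and the abstract
Sylow glue of helper57.
-/

set_option autoImplicit false

namespace Cfsg.Agent.Lib.Helper7.J1C

open Cfsg.Spor Cfsg.Agent.Lib.Helper70.J1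

theorem perm5_sq : ∀ τ : Equiv.Perm (Fin 5), Equiv.Perm.sign τ = 1 → τ ^ 8 = 1 → τ ^ 2 = 1 := by
  decide +kernel

theorem z2_sq : ∀ a : Multiplicative (ZMod 2), a ^ 2 = 1 := by decide

theorem z2a5_sq (z : Multiplicative (ZMod 2) × alternatingGroup (Fin 5)) (h8 : z ^ 8 = 1) :
    z ^ 2 = 1 := by
  obtain ⟨a, σ⟩ := z
  have h2 : σ ^ 8 = 1 := (Prod.ext_iff.mp h8).2
  have h3 : (σ : Equiv.Perm (Fin 5)) ^ 8 = 1 := by
    have := congrArg Subtype.val h2
    simpa using this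
  have h4 : (σ : Equiv.Perm (Fin 5)) ^ 2 = 1 :=
    perm5_sq _ (Equiv.Perm.mem_alternatingGroup.mp σ.2) h3
  have h5 : σ ^ 2 = 1 := Subtype.ext (by simpa using h4)
  exact Prod.ext (z2_sq a) h5

/-- An element of order 6 and one of order 10 in `2 × A5`. -/
theorem z2a5_six : ∃ z : Multiplicative (ZMod 2) × alternatingGroup (Fin 5), orderOf z = 6 := by
  refine ⟨(Multiplicative.ofAdd 1, ⟨c[0, 1, 2], Equiv.Perm.mem_alternatingGroup.mpr (by decide +kernel)⟩), ?_⟩
  rw [Prod.orderOf]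
  have h1 : orderOf (Multiplicative.ofAdd (1 : ZMod 2)) = 2 :=
    orderOf_eq_prime (by decide) (by decide)
  have h2 : orderOf (⟨c[0, 1, 2], Equiv.Perm.mem_alternatingGroup.mpr (by decide +kernel)⟩ :
      alternatingGroup (Fin 5)) = 3 := by
    have : Fact (Nat.Prime 3) := ⟨by norm_num⟩
    exact orderOf_eq_prime (by decide +kernel) (by decide +kernel)
  show Nat.lcm (orderOf (Multiplicative.ofAdd (1 : ZMod 2))) (orderOf (⟨c[0, 1, 2],
    Equiv.Perm.mem_alternatingGroup.mpr (by decide +kernel)⟩ : alternatingGroup (Fin 5))) = 6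
  rw [h1, h2]
  rfl

theorem z2a5_ten : ∃ z : Multiplicative (ZMod 2) × alternatingGroup (Fin 5), orderOf z = 10 := by
  refine ⟨(Multiplicative.ofAdd 1,
    ⟨c[0, 1, 2, 3, 4], Equiv.Perm.mem_alternatingGroup.mpr (by decide +kernel)⟩), ?_⟩
  rw [Prod.orderOf]
  have h1 : orderOf (Multiplicative.ofAdd (1 : ZMod 2)) = 2 :=
    orderOf_eq_prime (by decide) (by decide)
  have h2 : orderOf (⟨c[0, 1, 2, 3, 4], Equiv.Perm.mem_alternatingGroup.mpr (by decide +kernel)⟩ :
      alternatingGroup (Fin 5)) = 5 := by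
    have : Fact (Nat.Prime 5) := ⟨by norm_num⟩
    exact orderOf_eq_prime (by decide +kernel) (by decide +kernel)
  show Nat.lcm (orderOf (Multiplicative.ofAdd (1 : ZMod 2))) (orderOf (⟨c[0, 1, 2, 3, 4],
    Equiv.Perm.mem_alternatingGroup.mpr (by decide +kernel)⟩ : alternatingGroup (Fin 5))) = 10
  rw [h1, h2]
  rfl

theorem card_z2a5 : Nat.card (Multiplicative (ZMod 2) × alternatingGroup (Fin 5)) = 120 := by
  rw [Nat.card_prod, Nat.card_eq_fintype_card, Nat.card_eq_fintype_card]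
  have h1 : Fintype.card (Multiplicative (ZMod 2)) = 2 := by decide
  have h2 : 2 * Fintype.card (alternatingGroup (Fin 5)) = 120 := by
    rw [two_mul_card_alternatingGroup, Fintype.card_perm, Fintype.card_fin]
    rfl
  rw [h1]
  exact h2

theorem finite_J1 : Finite ↥J1 := Nat.finite_of_card_ne_zero (by rw [card_J1]; norm_num)

/-- From the involution centraliser `2 × A5`: an elementary abelian subgroup of order 8 and
elements of orders 6 and 10. -/
theorem two_local : (∃ Q : Subgroup ↥J1, Nat.card Q = 8 ∧ ∀ x ∈ Q, x ^ 2 = 1) ∧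
    (∃ x : ↥J1, orderOf x = 6) ∧ ∃ x : ↥J1, orderOf x = 10 := by
  have := finite_J1
  obtain ⟨t, _, ⟨e⟩⟩ := Cfsg.Agent.S2131.result
  set C := Subgroup.centralizer ({t} : Set ↥J1) with hC
  have hcard : Nat.card C = 120 := by rw [Nat.card_congr e.toEquiv, card_z2a5]
  refine ⟨?_, ?_, ?_⟩
  · have : Fact (Nat.Prime 2) := ⟨by norm_num⟩
    obtain ⟨P⟩ : Nonempty (Sylow 2 C) := inferInstance
    have hP8 : Nat.card P = 8 := by
      have h1 : (2 : ℕ) ^ 3 ∣ Nat.card P := P.pow_dvd_card_of_pow_dvd_card (by rw [hcard]; norm_num)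
      obtain ⟨n, hn⟩ := IsPGroup.iff_card.mp P.isPGroup'
      have h2 : Nat.card P ∣ 120 := hcard ▸ Subgroup.card_subgroup_dvd_card (P : Subgroup C)
      rw [hn] at h1 h2 ⊢
      have hn3 : n ≤ 3 := by
        by_contra hlt
        have h4 : (2 : ℕ) ^ 4 ∣ 2 ^ n := pow_dvd_pow 2 (by omega)
        have := h4.trans h2
        norm_num at this
      have hn3' : 3 ≤ n := by
        by_contra hlt
        have h4 : (2 : ℕ) ^ n ∣ 2 ^ 2 := pow_dvd_pow 2 (by omega)
        have := Nat.le_of_dvd (by norm_num) (h1.trans h4)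
        norm_num at this
      have : n = 3 := le_antisymm hn3 hn3'
      rw [this]
      norm_num
    refine ⟨(P : Subgroup C).map C.subtype, ?_, ?_⟩
    · rw [Subgroup.card_map_of_injective (Subgroup.subtype_injective C)]
      exact hP8
    · rintro x ⟨y, hy, rfl⟩
      have h8 : y ^ 8 = 1 := by
        have h1 : (⟨y, hy⟩ : (P : Subgroup C)) ^ Nat.card (P : Subgroup C) = 1 := pow_card_eq_one'
        rw [hP8] at h1
        have := congrArg Subtype.val h1
        simpa using this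
      have h9 : (e y) ^ 8 = 1 := by rw [← map_pow, h8, map_one]
      have h10 : e (y ^ 2) = 1 := by rw [map_pow]; exact z2a5_sq _ h9
      have h11 : y ^ 2 = 1 := by
        have := congrArg e.symm h10
        simpa using this
      rw [← map_pow, h11, map_one]
  · obtain ⟨z, hz⟩ := z2a5_six
    refine ⟨((e.symm z : C) : ↥J1), ?_⟩
    rw [Subgroup.orderOf_coe, MulEquiv.orderOf_eq, hz]
  · obtain ⟨z, hz⟩ := z2a5_ten
    refine ⟨((e.symm z : C) : ↥J1), ?_⟩
    rw [Subgroup.orderOf_coe, MulEquiv.orderOf_eq, hz]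

/-- The spectrum of J1. -/
theorem spec_J1 : Set.range (orderOf : ↥J1 → ℕ) = {1, 2, 3, 5, 6, 7, 10, 11, 15, 19} := by
  have := finite_J1
  obtain ⟨h3, hh3⟩ := h3_exists
  obtain ⟨h7, hh7⟩ := h7_exists
  obtain ⟨h11, hh11⟩ := h11_exists
  obtain ⟨h19, hh19⟩ := h19_exists
  obtain ⟨o7, c7⟩ := h7_main h7 hh7
  obtain ⟨o11, c11⟩ := h11_main h11 hh11
  obtain ⟨o19, c19⟩ := h19_main h19 hh19
  have o3 := h3_order h3 hh3
  obtain ⟨y1, y2, hy1, hy2, hy⟩ := y_exists h3 hh3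
  obtain ⟨⟨Q, hQ, hQ2⟩, ⟨x6, hx6⟩, ⟨x10, hx10⟩⟩ := two_local
  obtain ⟨g15, hg15⟩ := g15_exists
  have key := Cfsg.Agent.Lib.Helper57.J1SpecA.spec_of_local card_J1 h3 h7 h11 h19 o3 o7 o11 o19
    c7 c11 c19 (h3_card h3 hh3) y1 y2 hy1 hy2 hy Q hQ hQ2
  apply Set.eq_of_subset_of_subset
  · rintro n ⟨g, rfl⟩
    exact key g
  · intro n hn
    simp only [Set.mem_insert_iff, Set.mem_singleton_iff] at hn
    rcases hn with rfl | rfl | rfl | rfl | rfl | rfl | rfl | rfl | rfl | rfl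
    · exact ⟨1, orderOf_one⟩
    · exact ⟨x6 ^ 3, by rw [orderOf_pow_of_dvd (by norm_num) (by rw [hx6]; norm_num), hx6]⟩
    · exact ⟨x6 ^ 2, by rw [orderOf_pow_of_dvd (by norm_num) (by rw [hx6]; norm_num), hx6]⟩
    · exact ⟨x10 ^ 2, by rw [orderOf_pow_of_dvd (by norm_num) (by rw [hx10]; norm_num), hx10]⟩
    · exact ⟨x6, hx6⟩
    · exact ⟨h7, o7⟩
    · exact ⟨x10, hx10⟩
    · exact ⟨h11, o11⟩
    · exact ⟨g15, hg15⟩
    · exact ⟨h19, o19⟩

end Cfsg.Agent.Lib.Helper7.J1C
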