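import Mathlib

set_option autoImplicit false

namespace Cfsg.Agent.Lib.Helper7

/-! Explicit copy of `L₂(7)` inside `SU₃(3)`: 168 matrices over `GF(9) = F₃[i]`, closed under right
multiplication by two generators. -/

abbrev K3 := ZMod 3

instance fact_K9 : Fact (∀ r : K3, r ^ 2 ≠ 2 + 0 * r) := ⟨by decide⟩

abbrev K9 := QuadraticAlgebra K3 2 0

instance fintypeK9 : Fintype K9 := Fintype.ofEquiv (K3 × K3) (QuadraticAlgebra.equivProd 2 0).symm

theorem card_K9 : Fintype.card K9 = 9 := by
  rw [Fintype.card_congr (QuadraticAlgebra.equivProd (2 : K3) 0)]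
  rfl

def f3 (n : ℕ) : K3 := (⟨n % 3, Nat.mod_lt n (by norm_num)⟩ : Fin 3)

def k9 (n : ℕ) : K9 := ⟨f3 n, f3 (n / 3)⟩

structure M9 where
  a : K9
  b : K9
  c : K9
  d : K9
  e : K9
  f : K9
  g : K9
  h : K9
  i : K9
deriving DecidableEq

def dec9 (n : ℕ) : M9 :=
  ⟨k9 (n % 9), k9 (n / 9 % 9), k9 (n / 81 % 9), k9 (n / 729 % 9), k9 (n / 6561 % 9),
   k9 (n / 59049 % 9), k9 (n / 531441 % 9), k9 (n / 4782969 % 9), k9 (n / 43046721 % 9)⟩

def M9.mul (x y : M9) : M9 :=
  ⟨x.a * y.a + x.b * y.d + x.c * y.g, x.a * y.b + x.b * y.e + x.c * y.h,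
   x.a * y.c + x.b * y.f + x.c * y.i,
   x.d * y.a + x.e * y.d + x.f * y.g, x.d * y.b + x.e * y.e + x.f * y.h,
   x.d * y.c + x.e * y.f + x.f * y.i,
   x.g * y.a + x.h * y.d + x.i * y.g, x.g * y.b + x.h * y.e + x.i * y.h,
   x.g * y.c + x.h * y.f + x.i * y.i⟩

def one9 : M9 := ⟨1, 0, 0, 0, 1, 0, 0, 0, 1⟩

def toC (x : M9) : Matrix (Fin 3) (Fin 3) K9 := !![x.a, x.b, x.c; x.d, x.e, x.f; x.g, x.h, x.i]

theorem toC_mul (x y : M9) : toC (x.mul y) = toC x * toC y := by
  funext i j
  fin_cases i <;> fin_cases j <;>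
    simp [toC, M9.mul, Matrix.mul_apply, Fin.sum_univ_three]

theorem toC_one : toC one9 = 1 := by
  funext i j
  fin_cases i <;> fin_cases j <;> simp [toC, one9]

theorem toC_inj (x y : M9) (h : toC x = toC y) : x = y := by
  have h00 := congrFun (congrFun h 0) 0
  have h01 := congrFun (congrFun h 0) 1
  have h02 := congrFun (congrFun h 0) 2
  have h10 := congrFun (congrFun h 1) 0
  have h11 := congrFun (congrFun h 1) 1
  have h12 := congrFun (congrFun h 1) 2
  have h20 := congrFun (congrFun h 2) 0
  have h21 := congrFun (congrFun h 2) 1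
  have h22 := congrFun (congrFun h 2) 2
  cases x; cases y
  simp [toC] at h00 h01 h02 h10 h11 h12 h20 h21 h22
  simp [*]

def Ls : List ℕ := [
  43053283, 544644, 50090058, 248785924, 182528528, 56939904, 27058636, 334938428, 304096636,
  349931716, 62856410, 28122562, 219039868, 63660124, 28114948, 82014370, 106055768, 177752122,
  125034280, 125307236, 334885936, 177539860, 305160364, 82672480, 54866628, 349738084, 63355048,
  350256404, 350463904, 590499, 55197800, 305192324, 178084424, 37687772, 4901068, 57192340,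
  182335628, 100252264, 100045656, 219066194, 43047468, 248783098, 4783779, 178069528, 98231480,
  325313522, 125566288, 9567477, 97922664, 43048188, 50401786, 304156450, 93461548, 93077712,
  304070474, 50296724, 26822432, 9624988, 98126410, 81928508, 55066648, 239279116, 106460816,
  52527460, 178513196, 649557, 219099610, 182853946, 86094180, 183059258, 86100005, 63386960,
  182321380, 57323636, 63127180, 52150212, 62822716, 177551210, 4784589, 36625304, 1076166,
  218003924, 354522520, 95456096, 82142380, 248851538, 125187724, 36382132, 1121949, 36618338,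
  125002040, 349726754, 105844084, 354721244, 95206572, 106175440, 350175218, 9684038, 355253432,
  218036116, 355052818, 305218648, 27053128, 334935584, 63540524, 350705912, 239223644, 355482322,
  325310516, 239226632, 355040840, 350271316, 27878762, 82545244, 106705306, 82791920, 26816924,
  56995128, 27886376, 52218882, 95255964, 182865944, 354508256, 183302728, 305134040, 63010586,
  182770576, 99982818, 1069524, 37451584, 95587384, 100357154, 219125936, 334883092, 177981044,
  37681616, 125720578, 217977760, 37445428, 248848712, 43059845, 354951628, 93330404, 52422578,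
  106374634, 93133296, 36389098, 178282852, 82259138, 105928484, 50027508, 304130288, 86106565,
  325376122, 125837264, 9566829, 538164, 54816876, 325379128, 218062280, 125532914, 106588784,
  86094918, 239276128, 97854282, 82460516, 4842020, 1180989]

def paL : List ℕ := [
  1, 0, 4, 6, 2, 9, 3, 11, 12, 5, 15, 7, 8, 19, 20, 10, 23, 24, 26, 13, 14, 30, 31, 16, 17, 35, 18,
  37, 38, 40, 21, 22, 44, 45, 47, 25, 50, 27, 28, 54, 29, 56, 57, 58, 32, 33, 62, 34, 64, 65, 36,
  66, 67, 69, 39, 72, 41, 42, 43, 76, 77, 79, 46, 82, 48, 49, 51, 52, 88, 53, 80, 90, 55, 91, 84,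
  93, 59, 60, 97, 61, 70, 99, 63, 100, 74, 102, 104, 106, 68, 109, 71, 73, 113, 75, 107, 115, 117,
  78, 120, 81, 83, 124, 85, 118, 86, 127, 87, 94, 129, 89, 130, 131, 133, 92, 136, 95, 139, 96,
  103, 141, 98, 142, 143, 145, 101, 148, 150, 105, 152, 108, 110, 111, 151, 112, 157, 158, 114,
  159, 153, 116, 156, 119, 121, 122, 160, 123, 163, 164, 125, 165, 126, 132, 128, 138, 161, 166,
  140, 134, 135, 137, 144, 154, 167, 146, 147, 149, 155, 162]

def pbL : List ℕ := [
  2, 3, 5, 7, 8, 0, 10, 1, 13, 14, 16, 17, 18, 4, 21, 22, 6, 25, 27, 28, 29, 9, 32, 33, 34, 11, 36,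
  12, 39, 41, 42, 43, 15, 46, 48, 49, 51, 52, 53, 19, 55, 20, 58, 59, 60, 61, 23, 63, 24, 50, 35,
  26, 68, 70, 71, 73, 74, 75, 30, 31, 78, 80, 81, 83, 84, 85, 86, 87, 37, 89, 38, 72, 54, 40, 92,
  94, 95, 96, 44, 98, 45, 82, 62, 47, 101, 103, 105, 107, 108, 110, 111, 112, 56, 114, 57, 116,
  118, 119, 121, 122, 123, 64, 125, 65, 126, 66, 128, 67, 109, 88, 69, 132, 134, 135, 137, 138, 76,
  140, 77, 120, 97, 79, 144, 146, 147, 149, 151, 145, 153, 154, 155, 142, 90, 156, 91, 136, 113,
  93, 160, 133, 150, 161, 162, 130, 99, 152, 100, 148, 124, 102, 117, 104, 127, 106, 165, 143, 139,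
  166, 163, 141, 115, 159, 131, 167, 157, 129, 164, 158]

def a0 : M9 := dec9 544644

def b0 : M9 := dec9 50090058

def el (k : ℕ) : M9 := dec9 (Ls.getD k 0)

def chkMul (g : M9) (p : List ℕ) : Bool :=
  (List.range 168).all fun k => decide ((el k).mul g = el (p.getD k 0))

def chkLt (p : List ℕ) : Bool := (List.range 168).all fun k => decide (p.getD k 0 < 168)

def chkPar : Bool :=
  (List.range 168).all fun k => decide (k = 0) ||
    (List.range k).any fun j => decide (paL.getD j 0 = k) || decide (pbL.getD j 0 = k)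

def chkInj : Bool :=
  (List.range 168).all fun j => (List.range j).all fun k => !decide (el j = el k)

set_option maxRecDepth 100000 in
theorem chkA : chkMul a0 paL = true := by decide +kernel

set_option maxRecDepth 100000 in
theorem chkB : chkMul b0 pbL = true := by decide +kernel

theorem chkLtA : chkLt paL = true := by decide +kernel

theorem chkLtB : chkLt pbL = true := by decide +kernel

theorem chkPar_true : chkPar = true := by decide +kernel

set_option maxRecDepth 100000 in
theorem chkInj_true : chkInj = true := by decide +kernel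

theorem el_zero : el 0 = one9 := by decide +kernel

theorem el_mul_a (k : ℕ) (hk : k < 168) : (el k).mul a0 = el (paL.getD k 0) := by
  have h := chkA
  rw [chkMul, List.all_eq_true] at h
  exact of_decide_eq_true (h k (List.mem_range.mpr hk))

theorem el_mul_b (k : ℕ) (hk : k < 168) : (el k).mul b0 = el (pbL.getD k 0) := by
  have h := chkB
  rw [chkMul, List.all_eq_true] at h
  exact of_decide_eq_true (h k (List.mem_range.mpr hk))

theorem pa_lt (k : ℕ) (hk : k < 168) : paL.getD k 0 < 168 := by
  have h := chkLtA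
  rw [chkLt, List.all_eq_true] at h
  exact of_decide_eq_true (h k (List.mem_range.mpr hk))

theorem pb_lt (k : ℕ) (hk : k < 168) : pbL.getD k 0 < 168 := by
  have h := chkLtB
  rw [chkLt, List.all_eq_true] at h
  exact of_decide_eq_true (h k (List.mem_range.mpr hk))

theorem el_par (k : ℕ) (hk0 : 0 < k) (hk : k < 168) :
    ∃ j, j < k ∧ (paL.getD j 0 = k ∨ pbL.getD j 0 = k) := by
  have h := chkPar_true
  rw [chkPar, List.all_eq_true] at h
  have h1 := h k (List.mem_range.mpr hk)
  rw [Bool.or_eq_true] at h1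
  rcases h1 with h1 | h1
  · exact absurd (of_decide_eq_true h1) (by omega)
  · rw [List.any_eq_true] at h1
    obtain ⟨j, hj, hj2⟩ := h1
    rw [Bool.or_eq_true] at hj2
    refine ⟨j, List.mem_range.mp hj, ?_⟩
    rcases hj2 with h2 | h2
    · exact Or.inl (of_decide_eq_true h2)
    · exact Or.inr (of_decide_eq_true h2)

theorem el_ne (j k : ℕ) (hj : j < 168) (hk : k < j) : el j ≠ el k := by
  have h := chkInj_true
  rw [chkInj, List.all_eq_true] at h
  have h1 := h j (List.mem_range.mpr hj)
  rw [List.all_eq_true] at h1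
  have h2 := h1 k (List.mem_range.mpr hk)
  intro he
  rw [Bool.not_eq_true', decide_eq_false_iff_not] at h2
  exact h2 he

theorem el_inj (j k : ℕ) (hj : j < 168) (hk : k < 168) (h : el j = el k) : j = k := by
  rcases lt_trichotomy j k with h1 | h1 | h1
  · exact absurd h.symm (el_ne k j hk h1)
  · exact h1
  · exact absurd h (el_ne j k hj h1)

/-- the `k`-th matrix of the list -/
def Lm (k : ℕ) : Matrix (Fin 3) (Fin 3) K9 := toC (el k)

theorem Lm_inj (j k : ℕ) (hj : j < 168) (hk : k < 168) (h : Lm j = Lm k) : j = k :=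
  el_inj j k hj hk (toC_inj _ _ h)

theorem mem_closure_iff (X : Matrix (Fin 3) (Fin 3) K9) :
    X ∈ Submonoid.closure ({toC a0, toC b0} : Set (Matrix (Fin 3) (Fin 3) K9)) ↔
      ∃ k, k < 168 ∧ X = Lm k := by
  constructor
  · intro hX
    induction hX using Submonoid.closure_induction_right with
    | one => exact ⟨0, by norm_num, by rw [Lm, el_zero, toC_one]⟩
    | mul_right x hx y hy ih =>
      obtain ⟨k, hk, rfl⟩ := ih
      rcases hy with rfl | rfl
      · exact ⟨paL.getD k 0, pa_lt k hk, by rw [Lm, Lm, ← toC_mul, el_mul_a k hk]⟩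
      · exact ⟨pbL.getD k 0, pb_lt k hk, by rw [Lm, Lm, ← toC_mul, el_mul_b k hk]⟩
  · rintro ⟨k, hk, rfl⟩
    induction k using Nat.strong_induction_on with
    | _ k ih =>
      rcases Nat.eq_zero_or_pos k with rfl | hk0
      · rw [Lm, el_zero, toC_one]; exact one_mem _
      · obtain ⟨j, hj, h | h⟩ := el_par k hk0 hk
        · have h1 := ih j hj (hj.trans hk)
          have e : Lm k = Lm j * toC a0 := by
            rw [← h, Lm, Lm, ← toC_mul, el_mul_a j (hj.trans hk)]
          rw [e]
          exact mul_mem h1 (Submonoid.subset_closure (by simp))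
        · have h1 := ih j hj (hj.trans hk)
          have e : Lm k = Lm j * toC b0 := by
            rw [← h, Lm, Lm, ← toC_mul, el_mul_b j (hj.trans hk)]
          rw [e]
          exact mul_mem h1 (Submonoid.subset_closure (by simp))

/-- determinant on coded matrices -/
def det9 (x : M9) : K9 :=
  x.a * x.e * x.i - x.a * x.f * x.h - x.b * x.d * x.i + x.b * x.f * x.g + x.c * x.d * x.h
    - x.c * x.e * x.g

theorem toC_det (x : M9) : (toC x).det = det9 x := by
  rw [Matrix.det_fin_three]
  simp [toC, det9]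

/-- conjugate transpose on coded matrices -/
def M9.adj (x : M9) : M9 :=
  ⟨x.a ^ 3, x.d ^ 3, x.g ^ 3, x.b ^ 3, x.e ^ 3, x.h ^ 3, x.c ^ 3, x.f ^ 3, x.i ^ 3⟩

theorem toC_unit (x : M9) (h : x.adj.mul x = one9) (i j : Fin 3) :
    ∑ l, toC x l i * (toC x l j) ^ 3 = if i = j then 1 else 0 := by
  cases x
  simp only [M9.adj, M9.mul, one9, M9.mk.injEq] at h
  obtain ⟨h1, h2, h3, h4, h5, h6, h7, h8, h9⟩ := h
  fin_cases i <;> fin_cases j <;> simp [toC, Fin.sum_univ_three]
  · linear_combination h1
  · linear_combination h4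
  · linear_combination h7
  · linear_combination h2
  · linear_combination h5
  · linear_combination h8
  · linear_combination h3
  · linear_combination h6
  · linear_combination h9

theorem a0_det : det9 a0 = 1 := by decide +kernel

theorem b0_det : det9 b0 = 1 := by decide +kernel

theorem a0_unit : a0.adj.mul a0 = one9 := by decide +kernel

theorem b0_unit : b0.adj.mul b0 = one9 := by decide +kernel

theorem a0_sq : toC a0 ^ 2 = 1 := by
  have h : a0.mul a0 = one9 := by decide +kernel
  rw [pow_two, ← toC_mul, h, toC_one]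

theorem b0_cube : toC b0 ^ 3 = 1 := by
  have h : (b0.mul b0).mul b0 = one9 := by decide +kernel
  rw [pow_succ, pow_two, ← toC_mul, ← toC_mul, h, toC_one]

/-- coded product `a0 * b0` -/
def c0 : M9 := a0.mul b0

theorem ab_pow : (toC a0 * toC b0) ^ 7 = 1 := by
  have h : ((((((c0.mul c0).mul c0).mul c0).mul c0).mul c0).mul c0) = one9 := by decide +kernel
  have e : toC a0 * toC b0 = toC c0 := by rw [c0, toC_mul]
  rw [e, show (7 : ℕ) = 1 + 1 + 1 + 1 + 1 + 1 + 1 from rfl]
  simp only [pow_succ, pow_zero, one_mul]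
  rw [← toC_mul, ← toC_mul, ← toC_mul, ← toC_mul, ← toC_mul, ← toC_mul, h, toC_one]

end Cfsg.Agent.Lib.Helper7
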