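import Mathlib
import Cfsg.Prelude.Def_PLocal
import Cfsg.Prelude.Def_LocalEven
import Cfsg.Agent.Lib.Helper7.TISection

/-!
# `Qd(p)` is not involved in a group with TI Sylow `p`-subgroups (helper7)
-/

set_option autoImplicit false
set_option linter.unusedSectionVars false
set_option linter.unusedVariables false

namespace Cfsg.Agent.Lib.Helper7

open Matrix

section
variable {p : ℕ} [Fact p.Prime]

lemma qd_last_row (M : Matrix.SpecialLinearGroup (Fin 3) (ZMod p)) (hM : M ∈ Cfsg.qd p) :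
    (M : Matrix (Fin 3) (Fin 3) (ZMod p)) 2 0 = 0 ∧
    (M : Matrix (Fin 3) (Fin 3) (ZMod p)) 2 1 = 0 ∧
    (M : Matrix (Fin 3) (Fin 3) (ZMod p)) 2 2 = 1 := by
  unfold Cfsg.qd at hM
  induction hM using Subgroup.closure_induction with
  | mem x hx => exact hx
  | one => simp
  | mul x y _ _ hx hy =>
    obtain ⟨a1, a2, a3⟩ := hx
    obtain ⟨b1, b2, b3⟩ := hy
    simp [Matrix.mul_apply, Fin.sum_univ_three, a1, a2, a3, b1, b2, b3]
  | inv x _ hx =>
    obtain ⟨a1, a2, a3⟩ := hx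
    have hdet := x.det_coe
    rw [Matrix.det_fin_three] at hdet
    rw [Matrix.SpecialLinearGroup.coe_inv, Matrix.adjugate_fin_three]
    simp [a1, a2, a3] at hdet ⊢
    linear_combination hdet

lemma mem_qd_of_row (M : Matrix.SpecialLinearGroup (Fin 3) (ZMod p))
    (h0 : (M : Matrix (Fin 3) (Fin 3) (ZMod p)) 2 0 = 0)
    (h1 : (M : Matrix (Fin 3) (Fin 3) (ZMod p)) 2 1 = 0)
    (h2 : (M : Matrix (Fin 3) (Fin 3) (ZMod p)) 2 2 = 1) : M ∈ Cfsg.qd p :=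
  Subgroup.subset_closure ⟨h0, h1, h2⟩

/-- the translation subgroup of `Qd(p)` -/
def qdV (p : ℕ) [Fact p.Prime] : Subgroup ↥(Cfsg.qd p) where
  carrier := {g | ((g : Matrix.SpecialLinearGroup (Fin 3) (ZMod p)) :
      Matrix (Fin 3) (Fin 3) (ZMod p)) 0 0 = 1 ∧
    ((g : Matrix.SpecialLinearGroup (Fin 3) (ZMod p)) : Matrix (Fin 3) (Fin 3) (ZMod p)) 0 1 = 0 ∧
    ((g : Matrix.SpecialLinearGroup (Fin 3) (ZMod p)) : Matrix (Fin 3) (Fin 3) (ZMod p)) 1 0 = 0 ∧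
    ((g : Matrix.SpecialLinearGroup (Fin 3) (ZMod p)) : Matrix (Fin 3) (Fin 3) (ZMod p)) 1 1 = 1}
  one_mem' := by simp
  mul_mem' := by
    rintro a b ⟨a1, a2, a3, a4⟩ ⟨b1, b2, b3, b4⟩
    obtain ⟨c1, c2, c3⟩ := qd_last_row b.1 b.2
    simp [Matrix.mul_apply, Fin.sum_univ_three, a1, a2, a3, a4, b1, b2, b3, b4, c1, c2, c3]
  inv_mem' := by
    rintro a ⟨a1, a2, a3, a4⟩
    obtain ⟨c1, c2, c3⟩ := qd_last_row a.1 a.2
    simp only [Set.mem_setOf_eq, Subgroup.coe_inv]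
    rw [Matrix.SpecialLinearGroup.coe_inv, Matrix.adjugate_fin_three]
    simp [a1, a2, a3, a4, c1, c2, c3]

lemma mem_qdV (g : ↥(Cfsg.qd p)) : g ∈ qdV p ↔
    ((g : Matrix.SpecialLinearGroup (Fin 3) (ZMod p)) :
      Matrix (Fin 3) (Fin 3) (ZMod p)) 0 0 = 1 ∧
    ((g : Matrix.SpecialLinearGroup (Fin 3) (ZMod p)) : Matrix (Fin 3) (Fin 3) (ZMod p)) 0 1 = 0 ∧
    ((g : Matrix.SpecialLinearGroup (Fin 3) (ZMod p)) : Matrix (Fin 3) (Fin 3) (ZMod p)) 1 0 = 0 ∧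
    ((g : Matrix.SpecialLinearGroup (Fin 3) (ZMod p)) : Matrix (Fin 3) (Fin 3) (ZMod p)) 1 1 = 1 :=
  Iff.rfl

/-- the upper left block, a homomorphism to the matrix monoid -/
def qdBlock (p : ℕ) [Fact p.Prime] : ↥(Cfsg.qd p) →* Matrix (Fin 2) (Fin 2) (ZMod p) where
  toFun g := Matrix.of fun i j =>
    ((g : Matrix.SpecialLinearGroup (Fin 3) (ZMod p)) : Matrix (Fin 3) (Fin 3) (ZMod p))
      (Fin.castSucc i) (Fin.castSucc j)
  map_one' := by
    ext i j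
    fin_cases i <;> fin_cases j <;> simp
  map_mul' a b := by
    obtain ⟨c1, c2, c3⟩ := qd_last_row b.1 b.2
    ext i j
    fin_cases i <;> fin_cases j <;> simp [Matrix.mul_apply, Fin.sum_univ_three, c1, c2]

lemma qdV_eq_ker : qdV p = (qdBlock p).ker := by
  ext g
  rw [mem_qdV, MonoidHom.mem_ker]
  constructor
  · rintro ⟨a1, a2, a3, a4⟩
    ext i j
    fin_cases i <;> fin_cases j <;> simp [qdBlock, a1, a2, a3, a4]
  · intro h
    have h00 := congrFun (congrFun h 0) 0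
    have h01 := congrFun (congrFun h 0) 1
    have h10 := congrFun (congrFun h 1) 0
    have h11 := congrFun (congrFun h 1) 1
    simp [qdBlock] at h00 h01 h10 h11
    exact ⟨h00, h01, h10, h11⟩

instance qdV_normal : (qdV p).Normal := by
  rw [qdV_eq_ker]
  infer_instance

lemma upper_pow (a b : ZMod p) (k : ℕ) :
    (!![1, 0, a; 0, 1, b; 0, 0, 1] : Matrix (Fin 3) (Fin 3) (ZMod p)) ^ k =
      !![1, 0, k * a; 0, 1, k * b; 0, 0, 1] := by
  induction k with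
  | zero =>
    ext i j
    fin_cases i <;> fin_cases j <;> simp
  | succ k ih =>
    rw [pow_succ, ih]
    ext i j
    fin_cases i <;> fin_cases j <;> simp [Matrix.mul_apply, Fin.sum_univ_three] <;> ring

lemma qdV_pow (g : ↥(Cfsg.qd p)) (hg : g ∈ qdV p) : g ^ p = 1 := by
  obtain ⟨a1, a2, a3, a4⟩ := hg
  obtain ⟨c1, c2, c3⟩ := qd_last_row g.1 g.2
  apply Subtype.ext
  apply Subtype.ext
  show ((((g : Matrix.SpecialLinearGroup (Fin 3) (ZMod p)) ^ p :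
    Matrix.SpecialLinearGroup (Fin 3) (ZMod p))) : Matrix (Fin 3) (Fin 3) (ZMod p)) = 1
  rw [Matrix.SpecialLinearGroup.coe_pow]
  have h : ((g : Matrix.SpecialLinearGroup (Fin 3) (ZMod p)) : Matrix (Fin 3) (Fin 3) (ZMod p)) =
      !![1, 0, ((g : Matrix.SpecialLinearGroup (Fin 3) (ZMod p)) :
          Matrix (Fin 3) (Fin 3) (ZMod p)) 0 2; 0, 1,
        ((g : Matrix.SpecialLinearGroup (Fin 3) (ZMod p)) :
          Matrix (Fin 3) (Fin 3) (ZMod p)) 1 2; 0, 0, 1] := by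
    ext i j
    fin_cases i <;> fin_cases j <;> simp [a1, a2, a3, a4, c1, c2, c3]
  rw [h, upper_pow]
  ext i j
  fin_cases i <;> fin_cases j <;> simp

lemma qdV_isPGroup : IsPGroup p (qdV p) := by
  rintro ⟨g, hg⟩
  refine ⟨1, Subtype.ext ?_⟩
  show g ^ p ^ 1 = 1
  rw [pow_one]
  exact qdV_pow g hg

/-- a translation -/
def qdT (p : ℕ) [Fact p.Prime] : ↥(Cfsg.qd p) :=
  ⟨⟨!![1, 0, 1; 0, 1, 0; 0, 0, 1], by rw [Matrix.det_fin_three]; simp⟩,
    mem_qd_of_row _ (by simp) (by simp) (by simp)⟩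

/-- an upper elementary matrix -/
def qdX (p : ℕ) [Fact p.Prime] : ↥(Cfsg.qd p) :=
  ⟨⟨!![1, 1, 0; 0, 1, 0; 0, 0, 1], by rw [Matrix.det_fin_three]; simp⟩,
    mem_qd_of_row _ (by simp) (by simp) (by simp)⟩

/-- a lower elementary matrix -/
def qdY (p : ℕ) [Fact p.Prime] : ↥(Cfsg.qd p) :=
  ⟨⟨!![1, 0, 0; 1, 1, 0; 0, 0, 1], by rw [Matrix.det_fin_three]; simp⟩,
    mem_qd_of_row _ (by simp) (by simp) (by simp)⟩

lemma qdV_ne_bot : qdV p ≠ ⊥ := by
  intro h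
  have h1 : qdT p ∈ qdV p := by
    rw [mem_qdV]
    simp [qdT]
  rw [h, Subgroup.mem_bot] at h1
  have h2 := congrArg (fun g : ↥(Cfsg.qd p) =>
    ((g : Matrix.SpecialLinearGroup (Fin 3) (ZMod p)) : Matrix (Fin 3) (Fin 3) (ZMod p)) 0 2) h1
  simp [qdT] at h2

lemma qdX_pow : qdX p ^ p = 1 := by
  apply Subtype.ext
  apply Subtype.ext
  show ((((qdX p : Matrix.SpecialLinearGroup (Fin 3) (ZMod p)) ^ p :
    Matrix.SpecialLinearGroup (Fin 3) (ZMod p))) : Matrix (Fin 3) (Fin 3) (ZMod p)) = 1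
  rw [Matrix.SpecialLinearGroup.coe_pow]
  have h : ∀ k : ℕ, (!![1, 1, 0; 0, 1, 0; 0, 0, 1] : Matrix (Fin 3) (Fin 3) (ZMod p)) ^ k =
      !![1, (k : ZMod p), 0; 0, 1, 0; 0, 0, 1] := by
    intro k
    induction k with
    | zero =>
      ext i j
      fin_cases i <;> fin_cases j <;> simp
    | succ k ih =>
      rw [pow_succ, ih]
      ext i j
      fin_cases i <;> fin_cases j <;> simp [Matrix.mul_apply, Fin.sum_univ_three, add_comm]
  show (!![1, 1, 0; 0, 1, 0; 0, 0, 1] : Matrix (Fin 3) (Fin 3) (ZMod p)) ^ p = 1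
  rw [h]
  ext i j
  fin_cases i <;> fin_cases j <;> simp

lemma qdY_pow : qdY p ^ p = 1 := by
  apply Subtype.ext
  apply Subtype.ext
  show ((((qdY p : Matrix.SpecialLinearGroup (Fin 3) (ZMod p)) ^ p :
    Matrix.SpecialLinearGroup (Fin 3) (ZMod p))) : Matrix (Fin 3) (Fin 3) (ZMod p)) = 1
  rw [Matrix.SpecialLinearGroup.coe_pow]
  have h : ∀ k : ℕ, (!![1, 0, 0; 1, 1, 0; 0, 0, 1] : Matrix (Fin 3) (Fin 3) (ZMod p)) ^ k =
      !![1, 0, 0; (k : ZMod p), 1, 0; 0, 0, 1] := by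
    intro k
    induction k with
    | zero =>
      ext i j
      fin_cases i <;> fin_cases j <;> simp
    | succ k ih =>
      rw [pow_succ, ih]
      ext i j
      fin_cases i <;> fin_cases j <;> simp [Matrix.mul_apply, Fin.sum_univ_three]
  show (!![1, 0, 0; 1, 1, 0; 0, 0, 1] : Matrix (Fin 3) (Fin 3) (ZMod p)) ^ p = 1
  rw [h]
  ext i j
  fin_cases i <;> fin_cases j <;> simp

lemma trace_pow_pow (M : Matrix (Fin 3) (Fin 3) (ZMod p)) (k : ℕ) :
    Matrix.trace (M ^ p ^ k) = Matrix.trace M := by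
  induction k with
  | zero => simp
  | succ k ih =>
    rw [pow_succ, pow_mul, ZMod.trace_pow_card, ih, ZMod.pow_card]

lemma qdXY_pow (k : ℕ) : (qdX p * qdY p) ^ p ^ k ≠ 1 := by
  intro h
  have h1 : (!![1, 1, 0; 0, 1, 0; 0, 0, 1] * !![1, 0, 0; 1, 1, 0; 0, 0, 1] :
      Matrix (Fin 3) (Fin 3) (ZMod p)) ^ p ^ k = 1 := by
    have h2 := congrArg (fun g : ↥(Cfsg.qd p) =>
      ((g : Matrix.SpecialLinearGroup (Fin 3) (ZMod p)) : Matrix (Fin 3) (Fin 3) (ZMod p))) h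
    simp only [Subgroup.coe_pow, Subgroup.coe_mul, Matrix.SpecialLinearGroup.coe_pow,
      Matrix.SpecialLinearGroup.coe_mul, Subgroup.coe_one, Matrix.SpecialLinearGroup.coe_one] at h2
    exact h2
  have h3 := trace_pow_pow (!![1, 1, 0; 0, 1, 0; 0, 0, 1] * !![1, 0, 0; 1, 1, 0; 0, 0, 1] :
      Matrix (Fin 3) (Fin 3) (ZMod p)) k
  rw [h1] at h3
  simp [Matrix.trace, Fin.sum_univ_three, Matrix.mul_apply] at h3
  have h4 : (1 : ZMod p) = 0 := by linear_combination -h3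
  exact one_ne_zero h4

/-- A finite group with a TI Sylow `p`-subgroup does not involve `Qd(p)`. -/
theorem not_involves_qd_of_ti {G : Type*} [Group G] [Finite G]
    (U : Subgroup G) (hU : IsPGroup p U) (hidx : ¬ p ∣ U.index)
    (hTI : ∀ g : G, ∀ x ∈ U, x ≠ 1 → g * x * g⁻¹ ∈ U → ∀ u ∈ U, g * u * g⁻¹ ∈ U) :
    ¬ Cfsg.Involves ↥(Cfsg.qd p) G := by
  rintro ⟨K, R, hN, ⟨e⟩⟩
  haveI := hN
  obtain ⟨V, hV⟩ : ∃ V : Subgroup (K ⧸ R.subgroupOf K),
      V = (qdV p).comap e.toMonoidHom := ⟨_, rfl⟩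
  haveI : V.Normal := by rw [hV]; infer_instance
  have hVp : IsPGroup p V := by
    rw [hV]
    exact qdV_isPGroup.comap_of_injective _ e.injective
  have hV1 : V ≠ ⊥ := by
    intro h
    have h1 : e.symm (qdT p) ∈ V := by
      rw [hV, Subgroup.mem_comap]
      show e (e.symm (qdT p)) ∈ qdV p
      rw [MulEquiv.apply_symm_apply, mem_qdV]
      simp [qdT]
    rw [h, Subgroup.mem_bot] at h1
    have h2 : qdT p = 1 := by
      have := congrArg e h1
      rwa [MulEquiv.apply_symm_apply, map_one] at this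
    have h3 : qdT p ∈ (⊥ : Subgroup ↥(Cfsg.qd p)) := by rw [h2]; exact Subgroup.one_mem _
    have h4 : qdT p ∈ qdV p := by
      rw [mem_qdV]
      simp [qdT]
    have h5 := congrArg (fun g : ↥(Cfsg.qd p) =>
      ((g : Matrix.SpecialLinearGroup (Fin 3) (ZMod p)) : Matrix (Fin 3) (Fin 3) (ZMod p)) 0 2) h2
    simp [qdT] at h5
  obtain ⟨k, hk⟩ := ti_section_pclosed p U hU hidx hTI K (R.subgroupOf K) V hVp hV1
    (e.symm (qdX p)) (e.symm (qdY p))
    ⟨1, by rw [pow_one, ← map_pow, qdX_pow, map_one]⟩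
    ⟨1, by rw [pow_one, ← map_pow, qdY_pow, map_one]⟩
  rw [← map_mul, ← map_pow] at hk
  have h1 := congrArg e hk
  rw [MulEquiv.apply_symm_apply, map_one] at h1
  exact qdXY_pow k h1

end

end Cfsg.Agent.Lib.Helper7
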