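import Mathlib
import Cfsg.Prelude.Def_ClassicalGeometry
import Cfsg.Agent.Lib.Helper7.SUSimpB
import Cfsg.Agent.Lib.Helper18.UnitaryWitt
import Cfsg.Agent.Lib.Helper18.UnitaryCount

/-!
# Involutions of `SU_3(q)`, `q` odd, part A (helper7)

Every involution is the reflection `R_v = -1 + 2 v v^*` at a unit vector `v`.
-/

set_option autoImplicit false
set_option linter.unusedSectionVars false
set_option linter.unusedVariables false

namespace Cfsg.Agent.Lib.Helper7

open Matrix Cfsg.Agent.Lib.Helper18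

section
variable {F : Type*} [Field F] [Fintype F] {q : ℕ}

lemma herm_two_ne_zero (hF : Fintype.card F = q ^ 2) (hq : Odd q) : (2 : F) ≠ 0 := by
  intro h2
  obtain ⟨j, hj⟩ := herm_exists_pow hF
  have hpr : (ringChar F).Prime := CharP.char_is_prime F (ringChar F)
  have h3 : ringChar F ∣ 2 := by
    have h4 : ((2 : ℕ) : F) = 0 := by exact_mod_cast h2
    exact (CharP.cast_eq_zero_iff F (ringChar F) 2).mp h4
  have h4 : ringChar F = 2 := (Nat.prime_dvd_prime_iff_eq hpr Nat.prime_two).mp h3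
  rw [h4] at hj
  have hq2 := herm_two_le hF
  rcases j with _ | j
  · simp at hj
    omega
  · rw [hj, pow_succ] at hq
    exact (Nat.not_even_iff_odd.mpr hq) (even_two.mul_left _)

lemma herm_two_pow (hF : Fintype.card F = q ^ 2) : (2 : F) ^ q = 2 := by
  have h := herm_add_pow hF (1 : F) 1
  rw [one_pow, one_add_one_eq_two] at h
  exact h

/-- polarisation: a matrix `S` with `h(S x, x) = 0` for all `x` vanishes (odd characteristic) -/
lemma herm_polar (hF : Fintype.card F = q ^ 2) (hq : Odd q) {n : ℕ}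
    (S : Matrix (Fin n) (Fin n) F) (h0 : ∀ x, Cfsg.hermForm n F q (S *ᵥ x) x = 0) : S = 0 := by
  classical
  obtain ⟨c, hc0, hc⟩ := exists_trace_zero_ne hF
  have h2 := herm_two_ne_zero hF hq
  have e1 : ∀ x y, Cfsg.hermForm n F q (S *ᵥ x) y + Cfsg.hermForm n F q (S *ᵥ y) x = 0 := by
    intro x y
    have h := h0 (x + y)
    rw [Matrix.mulVec_add, hf_add_left, hf_add_right hF, hf_add_right hF, h0 x, h0 y] at h
    linear_combination h
  have e3 : ∀ x y, Cfsg.hermForm n F q (S *ᵥ x) y = 0 := by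
    intro x y
    have e2 := e1 x (c • y)
    rw [Matrix.mulVec_smul, hf_smul_right, hf_smul_left, hc] at e2
    have e1' := e1 x y
    have h : (2 * c) * Cfsg.hermForm n F q (S *ᵥ x) y = 0 := by linear_combination -e2 + c * e1'
    rcases mul_eq_zero.mp h with h | h
    · exfalso
      rcases mul_eq_zero.mp h with h | h
      · exact h2 h
      · exact hc0 h
    · exact h
  ext i j
  have h := e3 (Pi.single j 1) (Pi.single i 1)
  rw [hf_single_right hF, Matrix.mulVec_single_one] at h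
  exact h

lemma exists_unit_smul (hF : Fintype.card F = q ^ 2) {n : ℕ} (v : Fin n → F)
    (hv : Cfsg.hermForm n F q v v ≠ 0) : ∃ s : F, s ≠ 0 ∧ Cfsg.hermForm n F q (s • v) (s • v) = 1 := by
  obtain ⟨s, hs0, hs⟩ := herm_norm_surj hF (Cfsg.hermForm n F q v v)⁻¹ (inv_ne_zero hv)
    (by rw [inv_pow, ← hf_conj hF n v v])
  refine ⟨s, hs0, ?_⟩
  rw [hf_smul_left, hf_smul_right, ← mul_assoc, ← pow_succ', hs, inv_mul_cancel₀ hv]

lemma det_one_add_smul_hrk {n : ℕ} (c : F) (u v : Fin n → F) :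
    (1 + c • hrk q n u v).det = 1 + c * Cfsg.hermForm n F q u v := by
  have h1 : c • hrk q n u v = Matrix.replicateCol (Fin 1) (c • u) *
      Matrix.replicateRow (Fin 1) (fun j => v j ^ q) := by
    ext i j
    simp [hrk, Matrix.vecMulVec_apply, Matrix.mul_apply, mul_assoc]
  have h2 := Matrix.det_one_add_replicateCol_mul_replicateRow (ι := Fin 1) (c • u)
    (fun j => v j ^ q)
  have h3 : (fun j => v j ^ q) ⬝ᵥ (c • u) = c * Cfsg.hermForm n F q u v := by
    unfold dotProduct Cfsg.hermForm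
    rw [Finset.mul_sum]
    refine Finset.sum_congr rfl fun j _ => ?_
    simp only [Pi.smul_apply, smul_eq_mul]
    ring
  rw [h1, ← h3]
  convert h2

/-- expansion in an orthonormal basis -/
lemma isFr_expand (hF : Fintype.card F = q ^ 2) {n : ℕ} (B : Fin n → Fin n → F)
    (hB : IsFr q n n B) (x : Fin n → F) : x = ∑ j, Cfsg.hermForm n F q x (B j) • B j := by
  classical
  obtain ⟨M, hM⟩ : ∃ M : Matrix (Fin n) (Fin n) F, M = Matrix.of (fun i j => B j i) := ⟨_, rfl⟩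
  have hcol : colFr M = B := by rw [hM]; rfl
  have hMfr : IsFr q n n (colFr M) := by rw [hcol]; exact hB
  have hU : IsUnit M := isUnit_of_preserves hF M (preserves_of_isFr hF M hMfr)
  have hdet : IsUnit M.det := (Matrix.isUnit_iff_isUnit_det M).mp hU
  obtain ⟨u, hu⟩ : ∃ u : Fin n → F, u = M⁻¹ *ᵥ x := ⟨_, rfl⟩
  have hx : x = ∑ i, u i • B i := by
    rw [← hcol, ← mulVec_eq_lincomb, hu, Matrix.mulVec_mulVec, Matrix.mul_nonsing_inv M hdet,
      Matrix.one_mulVec]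
  have hcoef : ∀ j, Cfsg.hermForm n F q x (B j) = u j := by
    intro j
    rw [hx]
    exact hf_lincomb_left B hB u j
  simp only [hcoef]
  exact hx

/-- the reflection matrix `x ↦ -x + 2 h(x,v) v` -/
def suReflM (q n : ℕ) (v : Fin n → F) : Matrix (Fin n) (Fin n) F :=
  -1 + (2 : F) • hrk q n v v

lemma suReflM_mulVec (n : ℕ) (v x : Fin n → F) :
    suReflM q n v *ᵥ x = -x + (2 * Cfsg.hermForm n F q x v) • v := by
  unfold suReflM
  rw [Matrix.add_mulVec, Matrix.neg_mulVec, Matrix.one_mulVec, Matrix.smul_mulVec, hrk_mulVec,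
    smul_smul]

lemma suReflM_pres (hF : Fintype.card F = q ^ 2) (n : ℕ) (v : Fin n → F) (hv : Cfsg.hermForm n F q v v = 1) :
    suPres q n (suReflM q n v) := by
  intro x y
  rw [suReflM_mulVec, suReflM_mulVec]
  simp only [hf_add_left, hf_add_right hF, hf_neg_left, hf_neg_right hF, hf_smul_left,
    hf_smul_right, hv, mul_pow, herm_two_pow hF]
  rw [hf_conj hF n y v]
  ring

lemma suReflM_det (v : Fin 3 → F) (hv : Cfsg.hermForm 3 F q v v = 1) : (suReflM q 3 v).det = 1 := by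
  have h1 : suReflM q 3 v = -(1 + (-2 : F) • hrk q 3 v v) := by
    unfold suReflM
    rw [neg_add, neg_smul, neg_neg]
  rw [h1, Matrix.det_neg, det_one_add_smul_hrk, hv]
  norm_num [Fintype.card_fin]

/-- the reflection at a unit vector, in `SU_3(q)` -/
def suRefl (hF : Fintype.card F = q ^ 2) (v : Fin 3 → F) (hv : Cfsg.hermForm 3 F q v v = 1) :
    ↥(Cfsg.SU 3 F q) :=
  suMk hF (suReflM q 3 v) (suReflM_det v hv)
    (isFr_of_preserves hF _ (suReflM_pres hF 3 v hv))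

lemma suRefl_mulVec (hF : Fintype.card F = q ^ 2) (v : Fin 3 → F) (hv : Cfsg.hermForm 3 F q v v = 1)
    (x : Fin 3 → F) : ((suRefl hF v hv : Matrix.SpecialLinearGroup (Fin 3) F) : Matrix (Fin 3) (Fin 3) F) *ᵥ x = -x + (2 * Cfsg.hermForm 3 F q x v) • v :=
  suReflM_mulVec 3 v x

lemma suRefl_self (hF : Fintype.card F = q ^ 2) (v : Fin 3 → F) (hv : Cfsg.hermForm 3 F q v v = 1) :
    ((suRefl hF v hv : Matrix.SpecialLinearGroup (Fin 3) F) : Matrix (Fin 3) (Fin 3) F) *ᵥ v = v := by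
  rw [suRefl_mulVec, hv]
  module

lemma suRefl_mul_self (hF : Fintype.card F = q ^ 2) (v : Fin 3 → F) (hv : Cfsg.hermForm 3 F q v v = 1) :
    suRefl hF v hv * suRefl hF v hv = 1 := by
  apply su_ext
  rw [su_coe_mul, su_coe_one]
  apply Matrix.mulVec_injective
  funext x
  rw [← Matrix.mulVec_mulVec, suRefl_mulVec, suRefl_mulVec, Matrix.one_mulVec]
  simp only [hf_add_left, hf_neg_left, hf_smul_left, hv, mul_one]
  module

lemma suRefl_ne_one (hF : Fintype.card F = q ^ 2) (hq : Odd q) (v : Fin 3 → F)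
    (hv : Cfsg.hermForm 3 F q v v = 1) : suRefl hF v hv ≠ 1 := by
  intro h
  obtain ⟨z, hvz, hzz⟩ := exists_unit_perp1 hF (by norm_num : 2 ≤ 3) v hv
  have hzv : Cfsg.hermForm 3 F q z v = 0 := hf_eq_zero_symm hF 3 _ _ hvz
  have h1 := suRefl_mulVec hF v hv z
  rw [h, su_coe_one, Matrix.one_mulVec, hzv, mul_zero, zero_smul, add_zero] at h1
  have h2 : (2 : F) • z = 0 := by
    rw [two_smul]
    nth_rewrite 1 [h1]
    exact neg_add_cancel z
  rcases smul_eq_zero.mp h2 with h3 | h3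
  · exact herm_two_ne_zero hF hq h3
  · rw [h3, hf_zero_left] at hzz
    exact zero_ne_one hzz

lemma suRefl_smul (hF : Fintype.card F = q ^ 2) (v : Fin 3 → F) (hv : Cfsg.hermForm 3 F q v v = 1) (s : F)
    (hs : s ^ (q + 1) = 1) (hsv : Cfsg.hermForm 3 F q (s • v) (s • v) = 1) :
    suRefl hF (s • v) hsv = suRefl hF v hv := by
  apply su_ext
  apply Matrix.mulVec_injective
  funext x
  rw [suRefl_mulVec, suRefl_mulVec, hf_smul_right, smul_smul]
  have h1 : 2 * (s ^ q * Cfsg.hermForm 3 F q x v) * s = 2 * Cfsg.hermForm 3 F q x v := by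
    rw [pow_succ] at hs
    linear_combination 2 * Cfsg.hermForm 3 F q x v * hs
  rw [h1]

lemma suRefl_eq_iff (hF : Fintype.card F = q ^ 2) (hq : Odd q) (v w : Fin 3 → F)
    (hv : Cfsg.hermForm 3 F q v v = 1) (hw : Cfsg.hermForm 3 F q w w = 1) :
    suRefl hF v hv = suRefl hF w hw ↔ ∃ s : F, s ^ (q + 1) = 1 ∧ w = s • v := by
  have h2 := herm_two_ne_zero hF hq
  constructor
  · intro h
    have h1 := suRefl_mulVec hF v hv w
    rw [h, suRefl_self] at h1
    have h3 : (2 : F) • w = (2 : F) • (Cfsg.hermForm 3 F q w v • v) := by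
      rw [smul_smul, two_smul]
      nth_rewrite 1 [h1]
      abel
    have h4 : w = Cfsg.hermForm 3 F q w v • v := smul_right_injective (Fin 3 → F) h2 h3
    refine ⟨Cfsg.hermForm 3 F q w v, ?_, h4⟩
    have h6 := hw
    nth_rewrite 1 2 [h4] at h6
    rw [hf_smul_left, hf_smul_right, hv, mul_one] at h6
    rw [pow_succ']
    exact h6
  · rintro ⟨s, hs, rfl⟩
    exact (suRefl_smul hF v hv s hs hw).symm

lemma suRefl_commute_of_perp (hF : Fintype.card F = q ^ 2) (v w : Fin 3 → F)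
    (hv : Cfsg.hermForm 3 F q v v = 1) (hw : Cfsg.hermForm 3 F q w w = 1) (hvw : Cfsg.hermForm 3 F q v w = 0) :
    Commute (suRefl hF v hv) (suRefl hF w hw) := by
  have hwv : Cfsg.hermForm 3 F q w v = 0 := hf_eq_zero_symm hF 3 _ _ hvw
  apply su_ext
  rw [su_coe_mul, su_coe_mul]
  apply Matrix.mulVec_injective
  funext x
  rw [← Matrix.mulVec_mulVec, ← Matrix.mulVec_mulVec, suRefl_mulVec, suRefl_mulVec,
    suRefl_mulVec, suRefl_mulVec]
  simp only [hf_add_left, hf_neg_left, hf_smul_left, hvw, hwv, mul_zero, add_zero]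
  module

lemma suRefl_commute_iff (hF : Fintype.card F = q ^ 2) (hq : Odd q) (v w : Fin 3 → F)
    (hv : Cfsg.hermForm 3 F q v v = 1) (hw : Cfsg.hermForm 3 F q w w = 1) :
    Commute (suRefl hF v hv) (suRefl hF w hw) ↔
      Cfsg.hermForm 3 F q v w = 0 ∨ suRefl hF v hv = suRefl hF w hw := by
  have h2 := herm_two_ne_zero hF hq
  constructor
  · intro hc
    by_cases hvw : Cfsg.hermForm 3 F q v w = 0
    · exact Or.inl hvw
    right
    have hc' : ((suRefl hF v hv : Matrix.SpecialLinearGroup (Fin 3) F) : Matrix (Fin 3) (Fin 3) F) *ᵥ (((suRefl hF w hw : Matrix.SpecialLinearGroup (Fin 3) F) : Matrix (Fin 3) (Fin 3) F) *ᵥ v) = ((suRefl hF w hw : Matrix.SpecialLinearGroup (Fin 3) F) : Matrix (Fin 3) (Fin 3) F) *ᵥ v := by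
      have h1 : (((suRefl hF v hv * suRefl hF w hw : ↥(Cfsg.SU 3 F q)) : Matrix.SpecialLinearGroup (Fin 3) F) : Matrix (Fin 3) (Fin 3) F) *ᵥ v =
          (((suRefl hF w hw * suRefl hF v hv : ↥(Cfsg.SU 3 F q)) : Matrix.SpecialLinearGroup (Fin 3) F) : Matrix (Fin 3) (Fin 3) F) *ᵥ v := by rw [hc.eq]
      rw [su_coe_mul, su_coe_mul, ← Matrix.mulVec_mulVec, ← Matrix.mulVec_mulVec,
        suRefl_self] at h1
      exact h1
    obtain ⟨u, hu⟩ : ∃ u : Fin 3 → F, u = ((suRefl hF w hw : Matrix.SpecialLinearGroup (Fin 3) F) : Matrix (Fin 3) (Fin 3) F) *ᵥ v := ⟨_, rfl⟩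
    rw [← hu] at hc'
    rw [suRefl_mulVec] at hc'
    have h3 : (2 : F) • u = (2 : F) • (Cfsg.hermForm 3 F q u v • v) := by
      rw [smul_smul, two_smul]
      nth_rewrite 1 [← hc']
      abel
    have h4 : u = Cfsg.hermForm 3 F q u v • v := smul_right_injective (Fin 3 → F) h2 h3
    obtain ⟨l, hl⟩ : ∃ l : F, l = Cfsg.hermForm 3 F q u v := ⟨_, rfl⟩
    rw [← hl] at h4
    rw [hu, suRefl_mulVec] at h4
    have h6 : w = ((l + 1) / (2 * Cfsg.hermForm 3 F q v w)) • v := by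
      have h7 : (2 * Cfsg.hermForm 3 F q v w) • w = (l + 1) • v := by
        rw [add_smul, one_smul, ← h4]
        abel
      have h8 : 2 * Cfsg.hermForm 3 F q v w ≠ 0 := mul_ne_zero h2 hvw
      rw [div_eq_inv_mul, mul_smul, ← h7, smul_smul, inv_mul_cancel₀ h8, one_smul]
    obtain ⟨s, hs⟩ : ∃ s : F, s = (l + 1) / (2 * Cfsg.hermForm 3 F q v w) := ⟨_, rfl⟩
    rw [← hs] at h6
    rw [suRefl_eq_iff hF hq]
    refine ⟨s, ?_, h6⟩
    have h9 := hw
    nth_rewrite 1 2 [h6] at h9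
    rw [hf_smul_left, hf_smul_right, hv, mul_one] at h9
    rw [pow_succ']
    exact h9
  · rintro (h | h)
    · exact suRefl_commute_of_perp hF v w hv hw h
    · rw [h]

lemma isFr_three (hF : Fintype.card F = q ^ 2) (a b c : Fin 3 → F) (haa : Cfsg.hermForm 3 F q a a = 1)
    (hbb : Cfsg.hermForm 3 F q b b = 1) (hcc : Cfsg.hermForm 3 F q c c = 1) (hab : Cfsg.hermForm 3 F q a b = 0) (hac : Cfsg.hermForm 3 F q a c = 0)
    (hbc : Cfsg.hermForm 3 F q b c = 0) : IsFr q 3 3 ![a, b, c] := by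
  have hba : Cfsg.hermForm 3 F q b a = 0 := hf_eq_zero_symm hF 3 _ _ hab
  have hca : Cfsg.hermForm 3 F q c a = 0 := hf_eq_zero_symm hF 3 _ _ hac
  have hcb : Cfsg.hermForm 3 F q c b = 0 := hf_eq_zero_symm hF 3 _ _ hbc
  intro i j
  fin_cases i <;> fin_cases j <;> simp [haa, hbb, hcc, hab, hac, hbc, hba, hca, hcb]

lemma exists_frame3 (hF : Fintype.card F = q ^ 2) (a b : Fin 3 → F) (haa : Cfsg.hermForm 3 F q a a = 1)
    (hbb : Cfsg.hermForm 3 F q b b = 1) (hab : Cfsg.hermForm 3 F q a b = 0) : ∃ c : Fin 3 → F, IsFr q 3 3 ![a, b, c] := by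
  have hba : Cfsg.hermForm 3 F q b a = 0 := hf_eq_zero_symm hF 3 _ _ hab
  have hfr : IsFr q 3 2 ![a, b] := by
    intro i j
    fin_cases i <;> fin_cases j <;> simp [haa, hbb, hab, hba]
  obtain ⟨c, hc1, hcc⟩ := exists_unit_perp hF (by norm_num : 2 < 3) ![a, b] hfr
  have hca : Cfsg.hermForm 3 F q c a = 0 := by simpa using hc1 0
  have hcb : Cfsg.hermForm 3 F q c b = 0 := by simpa using hc1 1
  exact ⟨c, isFr_three hF a b c haa hbb hcc hab (hf_eq_zero_symm hF 3 _ _ hca)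
    (hf_eq_zero_symm hF 3 _ _ hcb)⟩

lemma exists_frame_of_unit (hF : Fintype.card F = q ^ 2) (a : Fin 3 → F) (haa : Cfsg.hermForm 3 F q a a = 1) :
    ∃ b c : Fin 3 → F, IsFr q 3 3 ![a, b, c] := by
  obtain ⟨b, hab, hbb⟩ := exists_unit_perp1 hF (by norm_num : 2 ≤ 3) a haa
  obtain ⟨c, hc⟩ := exists_frame3 hF a b haa hbb hab
  exact ⟨b, c, hc⟩

lemma frame3_expand (hF : Fintype.card F = q ^ 2) {a b c : Fin 3 → F}
    (hB : IsFr q 3 3 ![a, b, c]) (x : Fin 3 → F) :
    x = Cfsg.hermForm 3 F q x a • a + Cfsg.hermForm 3 F q x b • b + Cfsg.hermForm 3 F q x c • c := by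
  have h := isFr_expand hF ![a, b, c] hB x
  rw [Fin.sum_univ_three] at h
  exact h

lemma frame3_parseval (hF : Fintype.card F = q ^ 2) {a b c : Fin 3 → F}
    (hB : IsFr q 3 3 ![a, b, c]) (x : Fin 3 → F) :
    Cfsg.hermForm 3 F q x x = Cfsg.hermForm 3 F q x a ^ (q + 1) + Cfsg.hermForm 3 F q x b ^ (q + 1) + Cfsg.hermForm 3 F q x c ^ (q + 1) := by
  have hx := frame3_expand hF hB x
  nth_rewrite 1 [hx]
  rw [hf_add_left, hf_add_left, hf_smul_left, hf_smul_left, hf_smul_left, hf_conj hF 3 x a,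
    hf_conj hF 3 x b, hf_conj hF 3 x c]
  ring

/-- every involution of `SU_3(q)`, `q` odd, is a reflection at a unit vector -/
theorem exists_suRefl_of_inv (hF : Fintype.card F = q ^ 2) (hq : Odd q) (t : ↥(Cfsg.SU 3 F q))
    (ht : t ≠ 1) (ht2 : t * t = 1) :
    ∃ (v : Fin 3 → F) (hv : Cfsg.hermForm 3 F q v v = 1), t = suRefl hF v hv := by
  classical
  have h2 := herm_two_ne_zero hF hq
  obtain ⟨T, hTdef⟩ : ∃ T : Matrix (Fin 3) (Fin 3) F, T = ((t : Matrix.SpecialLinearGroup (Fin 3) F) : Matrix (Fin 3) (Fin 3) F) := ⟨_, rfl⟩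
  have hTT : T * T = 1 := by
    rw [hTdef, ← su_coe_mul, ht2, su_coe_one]
  have hT : suPres q 3 T := by rw [hTdef]; exact su_pres t
  have hdet : T.det = 1 := by rw [hTdef]; exact t.1.det_coe
  have hTTv : ∀ x, T *ᵥ (T *ᵥ x) = x := by
    intro x
    rw [Matrix.mulVec_mulVec, hTT, Matrix.one_mulVec]
  have hadj : ∀ x y, Cfsg.hermForm 3 F q (T *ᵥ x) y = Cfsg.hermForm 3 F q x (T *ᵥ y) := by
    intro x y
    calc Cfsg.hermForm 3 F q (T *ᵥ x) y = Cfsg.hermForm 3 F q (T *ᵥ x) (T *ᵥ (T *ᵥ y)) := by rw [hTTv]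
      _ = Cfsg.hermForm 3 F q x (T *ᵥ y) := hT x (T *ᵥ y)
  -- a non-isotropic fixed vector
  have hA : ∃ x, Cfsg.hermForm 3 F q ((1 + T) *ᵥ x) x ≠ 0 := by
    by_contra hcon
    push Not at hcon
    have h1 : 1 + T = 0 := herm_polar hF hq (1 + T) hcon
    have h3 : T = -1 := by
      rw [eq_neg_iff_add_eq_zero, add_comm]
      exact h1
    rw [h3, Matrix.det_neg, Matrix.det_one] at hdet
    norm_num [Fintype.card_fin] at hdet
    apply h2
    linear_combination -hdet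
  have hB : ∃ x, Cfsg.hermForm 3 F q ((1 - T) *ᵥ x) x ≠ 0 := by
    by_contra hcon
    push Not at hcon
    have h1 : 1 - T = 0 := herm_polar hF hq (1 - T) hcon
    apply ht
    apply su_ext
    rw [su_coe_one, ← hTdef]
    exact (sub_eq_zero.mp h1).symm
  obtain ⟨x₁, hx₁⟩ := hA
  obtain ⟨x₂, hx₂⟩ := hB
  rw [Matrix.add_mulVec, Matrix.one_mulVec] at hx₁
  rw [Matrix.sub_mulVec, Matrix.one_mulVec] at hx₂
  obtain ⟨a', ha'⟩ : ∃ a' : Fin 3 → F, a' = x₁ + T *ᵥ x₁ := ⟨_, rfl⟩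
  obtain ⟨b', hb'⟩ : ∃ b' : Fin 3 → F, b' = x₂ - T *ᵥ x₂ := ⟨_, rfl⟩
  rw [← ha'] at hx₁
  rw [← hb'] at hx₂
  have hTa' : T *ᵥ a' = a' := by
    rw [ha', Matrix.mulVec_add, hTTv, add_comm]
  have hTb' : T *ᵥ b' = -b' := by
    rw [hb', Matrix.mulVec_sub, hTTv, neg_sub]
  have haa' : Cfsg.hermForm 3 F q a' a' ≠ 0 := by
    have h1 : Cfsg.hermForm 3 F q a' a' = 2 * Cfsg.hermForm 3 F q a' x₁ := by
      nth_rewrite 2 [ha']
      rw [hf_add_right hF, ← hadj, hTa']
      ring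
    rw [h1]
    exact mul_ne_zero h2 hx₁
  have hbb' : Cfsg.hermForm 3 F q b' b' ≠ 0 := by
    have h1 : Cfsg.hermForm 3 F q b' b' = 2 * Cfsg.hermForm 3 F q b' x₂ := by
      nth_rewrite 2 [hb']
      rw [hf_sub_right hF, ← hadj, hTb', hf_neg_left]
      ring
    rw [h1]
    exact mul_ne_zero h2 hx₂
  obtain ⟨s₁, hs₁, haa⟩ := exists_unit_smul hF a' haa'
  obtain ⟨s₂, hs₂, hbb⟩ := exists_unit_smul hF b' hbb'
  obtain ⟨a, ha⟩ : ∃ a : Fin 3 → F, a = s₁ • a' := ⟨_, rfl⟩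
  obtain ⟨b, hb⟩ : ∃ b : Fin 3 → F, b = s₂ • b' := ⟨_, rfl⟩
  rw [← ha] at haa
  rw [← hb] at hbb
  have hTa : T *ᵥ a = a := by rw [ha, Matrix.mulVec_smul, hTa']
  have hTb : T *ᵥ b = -b := by rw [hb, Matrix.mulVec_smul, hTb', smul_neg]
  have hab : Cfsg.hermForm 3 F q a b = 0 := by
    have h1 := hT a b
    rw [hTa, hTb, hf_neg_right hF] at h1
    have h3 : 2 * Cfsg.hermForm 3 F q a b = 0 := by linear_combination -h1
    rcases mul_eq_zero.mp h3 with h | h
    · exact absurd h h2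
    · exact h
  obtain ⟨c, hfr⟩ := exists_frame3 hF a b haa hbb hab
  have hcc : Cfsg.hermForm 3 F q c c = 1 := by simpa using hfr 2 2
  have hca : Cfsg.hermForm 3 F q c a = 0 := by simpa using hfr 2 0
  have hcb : Cfsg.hermForm 3 F q c b = 0 := by simpa using hfr 2 1
  have hba : Cfsg.hermForm 3 F q b a = 0 := by simpa using hfr 1 0
  have hbc : Cfsg.hermForm 3 F q b c = 0 := by simpa using hfr 1 2
  have hac : Cfsg.hermForm 3 F q a c = 0 := by simpa using hfr 0 2
  have hc0 : c ≠ 0 := by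
    rintro rfl
    rw [hf_zero_left] at hcc
    exact zero_ne_one hcc
  have hTca : Cfsg.hermForm 3 F q (T *ᵥ c) a = 0 := by
    calc Cfsg.hermForm 3 F q (T *ᵥ c) a = Cfsg.hermForm 3 F q (T *ᵥ c) (T *ᵥ a) := by rw [hTa]
      _ = Cfsg.hermForm 3 F q c a := hT c a
      _ = 0 := hca
  have hTcb : Cfsg.hermForm 3 F q (T *ᵥ c) b = 0 := by
    have h1 := hT c b
    rw [hTb, hf_neg_right hF, hcb] at h1
    linear_combination -h1
  obtain ⟨l, hl⟩ : ∃ l : F, l = Cfsg.hermForm 3 F q (T *ᵥ c) c := ⟨_, rfl⟩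
  have hTc : T *ᵥ c = l • c := by
    have h1 := frame3_expand hF hfr (T *ᵥ c)
    rw [hTca, hTcb, zero_smul, zero_smul, zero_add, zero_add, ← hl] at h1
    exact h1
  have hl2 : (l - 1) * (l + 1) = 0 := by
    have h1 := hTTv c
    rw [hTc, Matrix.mulVec_smul, hTc, smul_smul] at h1
    have h3 : (l * l - 1) • c = 0 := by
      rw [sub_smul, one_smul, h1, sub_self]
    rcases smul_eq_zero.mp h3 with h | h
    · linear_combination h
    · exact absurd h hc0
  rcases mul_eq_zero.mp hl2 with hl1 | hl1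
  · -- `l = 1`: determinant `-1`, impossible
    exfalso
    have hl' : l = 1 := by linear_combination hl1
    have hTeq : T = 1 + (-2 : F) • hrk q 3 b b := by
      apply Matrix.mulVec_injective
      funext x
      obtain ⟨α, β, γ, hx⟩ : ∃ α β γ : F, x = α • a + β • b + γ • c :=
        ⟨_, _, _, frame3_expand hF hfr x⟩
      rw [hx, Matrix.add_mulVec, Matrix.one_mulVec, Matrix.smul_mulVec, hrk_mulVec]
      simp only [Matrix.mulVec_add, Matrix.mulVec_smul, hTa, hTb, hTc, hl', hf_add_left,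
        hf_smul_left, hab, hbb, hcb, mul_zero, mul_one, add_zero, zero_add]
      module
    rw [hTeq, det_one_add_smul_hrk, hbb] at hdet
    apply h2
    linear_combination -hdet
  · have hl' : l = -1 := by linear_combination hl1
    refine ⟨a, haa, su_ext ?_⟩
    rw [← hTdef]
    apply Matrix.mulVec_injective
    funext x
    obtain ⟨α, β, γ, hx⟩ : ∃ α β γ : F, x = α • a + β • b + γ • c :=
      ⟨_, _, _, frame3_expand hF hfr x⟩
    rw [suRefl_mulVec, hx]
    simp only [Matrix.mulVec_add, Matrix.mulVec_smul, hTa, hTb, hTc, hl', hf_add_left,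
      hf_smul_left, haa, hba, hca, mul_zero, mul_one, add_zero]
    module

end

end Cfsg.Agent.Lib.Helper7
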