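import Mathlib
import Cfsg.Prelude.Def_ClassicalGeometry
import Cfsg.Agent.Lib.Helper7.SU3InvA

/-!
# Involutions of `SU_3(q)`, `q` odd, part B: the commuting involution graph (helper7)
-/

set_option autoImplicit false
set_option linter.unusedSectionVars false
set_option linter.unusedVariables false

namespace Cfsg.Agent.Lib.Helper7

open Matrix Cfsg.Agent.Lib.Helper18

lemma card_subtype_split {α : Type*} [Finite α] (p r : α → Prop) :
    Nat.card {x // p x} = Nat.card {x // p x ∧ r x} + Nat.card {x // p x ∧ ¬ r x} := by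
  classical
  haveI := Fintype.ofFinite α
  rw [Nat.card_eq_fintype_card, Nat.card_eq_fintype_card, Nat.card_eq_fintype_card,
    Fintype.card_subtype, Fintype.card_subtype, Fintype.card_subtype,
    ← Finset.card_filter_add_card_filter_not (s := Finset.univ.filter p) r,
    Finset.filter_filter, Finset.filter_filter]

section
variable {F : Type*} [Field F] [Fintype F] {q : ℕ}

lemma card_norm_one (hF : Fintype.card F = q ^ 2) :
    Nat.card {s : F // s ^ (q + 1) = 1} = q + 1 := by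
  classical
  rw [Nat.card_eq_fintype_card, Fintype.card_subtype]
  exact herm_card_norm_one hF

/-- counting involutions through unit vectors: the fibres of `b ↦ R_b` have `q + 1` elements -/
lemma card_refl_fibers (hF : Fintype.card F = q ^ 2) (hq : Odd q) (P : (Fin 3 → F) → Prop)
    (Q : ↥(Cfsg.SU 3 F q) → Prop) (hQinv : ∀ x, Q x → x ≠ 1 ∧ x * x = 1)
    (hPQ : ∀ (b : Fin 3 → F) (hb : Cfsg.hermForm 3 F q b b = 1), Q (suRefl hF b hb) ↔ P b) :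
    Nat.card {b : Fin 3 → F // Cfsg.hermForm 3 F q b b = 1 ∧ P b} = Nat.card {x // Q x} * (q + 1) := by
  classical
  obtain ⟨f, hf⟩ : ∃ f : {b : Fin 3 → F // Cfsg.hermForm 3 F q b b = 1 ∧ P b} → {x // Q x},
      ∀ b, (f b).1 = suRefl hF b.1 b.2.1 :=
    ⟨fun b => ⟨suRefl hF b.1 b.2.1, (hPQ b.1 b.2.1).mpr b.2.2⟩, fun b => rfl⟩
  apply card_eq_mul_of_fibers' f (q + 1)
  rintro ⟨x, hx⟩
  obtain ⟨hx1, hx2⟩ := hQinv x hx
  obtain ⟨b₀, hb₀, rfl⟩ := exists_suRefl_of_inv hF hq x hx1 hx2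
  rw [← card_norm_one hF]
  symm
  have hsb : ∀ s : {s : F // s ^ (q + 1) = 1}, Cfsg.hermForm 3 F q (s.1 • b₀) (s.1 • b₀) = 1 := by
    intro s
    rw [hf_smul_left, hf_smul_right, hb₀, mul_one, ← pow_succ']
    exact s.2
  apply Nat.card_congr
  refine Equiv.ofBijective (fun s => ⟨⟨s.1 • b₀, hsb s, (hPQ _ (hsb s)).mp (by
    rw [suRefl_smul hF b₀ hb₀ s.1 s.2 (hsb s)]; exact hx)⟩, Subtype.ext (by
    rw [hf]; exact suRefl_smul hF b₀ hb₀ s.1 s.2 (hsb s))⟩) ⟨?_, ?_⟩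
  · intro s s' hss
    have h1 : s.1 • b₀ = s'.1 • b₀ := congrArg (fun y => y.1.1) hss
    have h2 := congrArg (fun y => Cfsg.hermForm 3 F q y b₀) h1
    simp only [hf_smul_left, hb₀, mul_one] at h2
    exact Subtype.ext h2
  · rintro ⟨⟨b, hb, hPb⟩, hfb⟩
    have h1 : suRefl hF b hb = suRefl hF b₀ hb₀ := by
      have h2 := congrArg Subtype.val hfb
      rw [hf] at h2
      exact h2
    obtain ⟨s, hs, rfl⟩ := (suRefl_eq_iff hF hq b₀ b hb₀ hb).mp h1.symm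
    exact ⟨⟨s, hs⟩, rfl⟩

lemma unit_sub_norm (hF : Fintype.card F = q ^ 2) {n : ℕ} (a b : Fin n → F) (haa : Cfsg.hermForm n F q a a = 1) :
    Cfsg.hermForm n F q (b - Cfsg.hermForm n F q b a • a) (b - Cfsg.hermForm n F q b a • a) = Cfsg.hermForm n F q b b - Cfsg.hermForm n F q b a ^ (q + 1) ∧
      Cfsg.hermForm n F q (b - Cfsg.hermForm n F q b a • a) a = 0 := by
  constructor
  · rw [hf_sub_left, hf_sub_right hF, hf_sub_right hF, hf_smul_left, hf_smul_left,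
      hf_smul_right, hf_smul_right, haa, hf_conj hF n b a]
    ring
  · rw [hf_sub_left, hf_smul_left, haa]
    ring

lemma card_unit_fiber (hF : Fintype.card F = q ^ 2) (a : Fin 3 → F) (haa : Cfsg.hermForm 3 F q a a = 1)
    (α : F) :
    Nat.card {b : Fin 3 → F // Cfsg.hermForm 3 F q b b = 1 ∧ Cfsg.hermForm 3 F q b a = α} =
      perpCnt q (fun _ : Fin 1 => a) (1 - α ^ (q + 1)) := by
  unfold perpCnt
  apply Nat.card_congr
  refine
    { toFun := fun b => ⟨b.1 - α • a, fun _ => ?_, ?_⟩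
      invFun := fun w => ⟨w.1 + α • a, ?_, ?_⟩
      left_inv := fun b => Subtype.ext (by simp)
      right_inv := fun w => Subtype.ext (by simp) }
  · have h := (unit_sub_norm hF a b.1 haa).2
    rw [b.2.2] at h
    exact h
  · have h := (unit_sub_norm hF a b.1 haa).1
    rw [b.2.2, b.2.1] at h
    exact h
  · have hw1 : Cfsg.hermForm 3 F q w.1 a = 0 := w.2.1 0
    have hw2 := w.2.2
    have haw : Cfsg.hermForm 3 F q a w.1 = 0 := hf_eq_zero_symm hF 3 _ _ hw1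
    rw [hf_add_left, hf_add_right hF, hf_add_right hF, hf_smul_left, hf_smul_left,
      hf_smul_right, hf_smul_right, hw1, haw, haa, hw2]
    ring
  · have hw1 : Cfsg.hermForm 3 F q w.1 a = 0 := w.2.1 0
    rw [hf_add_left, hf_smul_left, hw1, haa]
    ring

lemma card_unit_by_coeff (hF : Fintype.card F = q ^ 2) (a : Fin 3 → F) (haa : Cfsg.hermForm 3 F q a a = 1)
    (p : F → Prop) (c : ℕ)
    (hc : ∀ α, p α → perpCnt q (fun _ : Fin 1 => a) (1 - α ^ (q + 1)) = c) :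
    Nat.card {b : Fin 3 → F // Cfsg.hermForm 3 F q b b = 1 ∧ p (Cfsg.hermForm 3 F q b a)} = Nat.card {α : F // p α} * c := by
  classical
  obtain ⟨g, hg⟩ : ∃ g : {b : Fin 3 → F // Cfsg.hermForm 3 F q b b = 1 ∧ p (Cfsg.hermForm 3 F q b a)} → {α : F // p α},
      ∀ b, (g b).1 = Cfsg.hermForm 3 F q b.1 a := ⟨fun b => ⟨_, b.2.2⟩, fun b => rfl⟩
  apply card_eq_mul_of_fibers' g c
  rintro ⟨α, hα⟩
  rw [← hc α hα, ← card_unit_fiber hF a haa α]
  apply Nat.card_congr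
  exact
    { toFun := fun x => ⟨x.1.1, x.1.2.1, by
        have h := congrArg Subtype.val x.2
        rw [hg] at h
        exact h⟩
      invFun := fun b => ⟨⟨b.1, b.2.1, by rw [b.2.2]; exact hα⟩,
        Subtype.ext (by rw [hg]; exact b.2.2)⟩
      left_inv := fun x => rfl
      right_inv := fun b => rfl }

lemma perp_unit_count (hF : Fintype.card F = q ^ 2) (a : Fin 3 → F) (haa : Cfsg.hermForm 3 F q a a = 1) :
    perpCnt q (fun _ : Fin 1 => a) 1 = q * (q ^ 2 - 1) := by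
  have hfr : IsFr q (1 + 2) 1 (fun _ : Fin 1 => a) := by
    intro i j
    rw [Subsingleton.elim i j, if_pos rfl]
    exact haa
  have h1 := perpCnt_one hF (k := 1) (m := 2) (fun _ : Fin 1 => a) hfr
  have h2 := hcnt_one_eq hF 1
  rw [h2] at h1
  simpa using h1

lemma card_unit (hF : Fintype.card F = q ^ 2) :
    Nat.card {b : Fin 3 → F // Cfsg.hermForm 3 F q b b = 1} = q ^ 2 * (q ^ 3 + 1) := by
  rw [hcnt_eq_hermForm 3 1, hcnt_one_eq hF 2]
  simp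

lemma card_coeff_mid (hF : Fintype.card F = q ^ 2) :
    Nat.card {α : F // α ≠ 0 ∧ α ^ (q + 1) ≠ 1} + (q + 2) = q ^ 2 := by
  classical
  have h1 := card_subtype_split (fun _ : F => True) (fun x : F => x ^ (q + 1) = 1)
  have h2 := card_subtype_split (fun x : F => True ∧ ¬ x ^ (q + 1) = 1) (fun x : F => x = 0)
  have e1 : Nat.card {x : F // True} = q ^ 2 := by
    rw [Nat.card_congr (Equiv.subtypeUnivEquiv (fun _ => trivial)), Nat.card_eq_fintype_card, hF]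
  have e2 : Nat.card {x : F // True ∧ x ^ (q + 1) = 1} = q + 1 := by
    refine Eq.trans ?_ (card_norm_one hF)
    exact Nat.card_congr (Equiv.subtypeEquivRight (fun x => by simp))
  have e3 : Nat.card {x : F // (True ∧ ¬ x ^ (q + 1) = 1) ∧ x = 0} = 1 := by
    rw [Nat.card_eq_one_iff_unique]
    refine ⟨⟨?_⟩, ⟨⟨0, ⟨trivial, by simp⟩, rfl⟩⟩⟩
    rintro ⟨x, _, hx⟩ ⟨y, _, hy⟩
    exact Subtype.ext (hx.trans hy.symm)
  have e4 : Nat.card {x : F // (True ∧ ¬ x ^ (q + 1) = 1) ∧ ¬ x = 0} =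
      Nat.card {α : F // α ≠ 0 ∧ α ^ (q + 1) ≠ 1} :=
    Nat.card_congr (Equiv.subtypeEquivRight (fun x => by tauto))
  rw [e1, e2, h2, e3, e4] at h1
  omega

lemma exists_unit_perp_two (hF : Fintype.card F = q ^ 2) (b u : Fin 3 → F) (hbb : Cfsg.hermForm 3 F q b b = 1)
    (huu : Cfsg.hermForm 3 F q u u = 1) (hN : Cfsg.hermForm 3 F q b u ^ (q + 1) ≠ 1) :
    ∃ d : Fin 3 → F, Cfsg.hermForm 3 F q d d = 1 ∧ Cfsg.hermForm 3 F q d u = 0 ∧ Cfsg.hermForm 3 F q d b = 0 := by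
  obtain ⟨hw1, hw2⟩ := unit_sub_norm hF u b huu
  obtain ⟨w, hw⟩ : ∃ w : Fin 3 → F, w = b - Cfsg.hermForm 3 F q b u • u := ⟨_, rfl⟩
  rw [← hw] at hw1 hw2
  rw [hbb] at hw1
  have hw0 : Cfsg.hermForm 3 F q w w ≠ 0 := by
    rw [hw1]
    exact sub_ne_zero.mpr (Ne.symm hN)
  obtain ⟨s, hs0, hsw⟩ := exists_unit_smul hF w hw0
  have hu_sw : Cfsg.hermForm 3 F q u (s • w) = 0 :=
    hf_eq_zero_symm hF 3 _ _ (by rw [hf_smul_left, hw2, mul_zero])
  obtain ⟨d, hfr⟩ := exists_frame3 hF u (s • w) huu hsw hu_sw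
  have hdd : Cfsg.hermForm 3 F q d d = 1 := by simpa using hfr 2 2
  have hdu : Cfsg.hermForm 3 F q d u = 0 := by simpa using hfr 2 0
  have hdsw : Cfsg.hermForm 3 F q d (s • w) = 0 := by simpa using hfr 2 1
  have hdw : Cfsg.hermForm 3 F q d w = 0 := by
    rw [hf_smul_right] at hdsw
    rcases mul_eq_zero.mp hdsw with h | h
    · exact absurd h (pow_ne_zero _ hs0)
    · exact h
  refine ⟨d, hdd, hdu, ?_⟩
  have hb : b = w + Cfsg.hermForm 3 F q b u • u := by rw [hw]; abel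
  rw [hb, hf_add_right hF, hf_smul_right, hdw, hdu]
  ring

lemma refl_adj_iff (hF : Fintype.card F = q ^ 2) (hq : Odd q) (a b : Fin 3 → F)
    (haa : Cfsg.hermForm 3 F q a a = 1) (hbb : Cfsg.hermForm 3 F q b b = 1) :
    (suRefl hF b hbb ≠ 1 ∧ suRefl hF b hbb * suRefl hF b hbb = 1 ∧
      suRefl hF b hbb ≠ suRefl hF a haa ∧ Commute (suRefl hF a haa) (suRefl hF b hbb)) ↔
    Cfsg.hermForm 3 F q b a = 0 := by
  constructor
  · rintro ⟨_, _, hne, hc⟩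
    rcases (suRefl_commute_iff hF hq a b haa hbb).mp hc with h | h
    · exact hf_eq_zero_symm hF 3 _ _ h
    · exact absurd h.symm hne
  · intro h
    have hab : Cfsg.hermForm 3 F q a b = 0 := hf_eq_zero_symm hF 3 _ _ h
    refine ⟨suRefl_ne_one hF hq b hbb, suRefl_mul_self hF b hbb, ?_,
      suRefl_commute_of_perp hF a b haa hbb hab⟩
    intro heq
    obtain ⟨s, hs, hb⟩ := (suRefl_eq_iff hF hq a b haa hbb).mp heq.symm
    rw [hb, hf_smul_left, haa, mul_one] at h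
    rw [h, zero_pow (Nat.succ_ne_zero q)] at hs
    exact zero_ne_one hs

lemma refl_dist_two_iff (hF : Fintype.card F = q ^ 2) (hq : Odd q) (a b : Fin 3 → F)
    (haa : Cfsg.hermForm 3 F q a a = 1) (hbb : Cfsg.hermForm 3 F q b b = 1) :
    (¬ Commute (suRefl hF a haa) (suRefl hF b hbb) ∧
      ∃ y : ↥(Cfsg.SU 3 F q), y ≠ 1 ∧ y * y = 1 ∧ Commute (suRefl hF a haa) y ∧
        Commute y (suRefl hF b hbb)) ↔
    (Cfsg.hermForm 3 F q b a ≠ 0 ∧ Cfsg.hermForm 3 F q b a ^ (q + 1) ≠ 1) := by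
  constructor
  · rintro ⟨hnc, y, hy1, hy2, hcy, hyb⟩
    obtain ⟨c, hcc, rfl⟩ := exists_suRefl_of_inv hF hq y hy1 hy2
    have hac : Cfsg.hermForm 3 F q a c = 0 := by
      rcases (suRefl_commute_iff hF hq a c haa hcc).mp hcy with h | h
      · exact h
      · exfalso
        apply hnc
        rw [h]
        exact hyb
    have hcb : Cfsg.hermForm 3 F q c b = 0 := by
      rcases (suRefl_commute_iff hF hq c b hcc hbb).mp hyb with h | h
      · exact h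
      · exfalso
        apply hnc
        rw [← h]
        exact hcy
    have hba0 : Cfsg.hermForm 3 F q b a ≠ 0 := by
      intro h
      apply hnc
      exact suRefl_commute_of_perp hF a b haa hbb (hf_eq_zero_symm hF 3 _ _ h)
    refine ⟨hba0, ?_⟩
    intro hN
    obtain ⟨d, hfr⟩ := exists_frame3 hF a c haa hcc hac
    have hpar := frame3_parseval hF hfr b
    have hbc : Cfsg.hermForm 3 F q b c = 0 := hf_eq_zero_symm hF 3 _ _ hcb
    rw [hbb, hN, hbc, zero_pow (Nat.succ_ne_zero q), add_zero] at hpar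
    have hbd : Cfsg.hermForm 3 F q b d = 0 := by
      have h3 : Cfsg.hermForm 3 F q b d ^ (q + 1) = 0 := by linear_combination -hpar
      exact (pow_eq_zero_iff (Nat.succ_ne_zero q)).mp h3
    have hexp := frame3_expand hF hfr b
    rw [hbc, hbd, zero_smul, zero_smul, add_zero, add_zero] at hexp
    apply hnc
    have h4 : suRefl hF a haa = suRefl hF b hbb :=
      (suRefl_eq_iff hF hq a b haa hbb).mpr ⟨_, hN, hexp⟩
    rw [h4]
  · rintro ⟨hα0, hαN⟩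
    have hnc : ¬ Commute (suRefl hF a haa) (suRefl hF b hbb) := by
      intro hc
      rcases (suRefl_commute_iff hF hq a b haa hbb).mp hc with h | h
      · exact hα0 (hf_eq_zero_symm hF 3 _ _ h)
      · obtain ⟨s, hs, hb⟩ := (suRefl_eq_iff hF hq a b haa hbb).mp h
        apply hαN
        rw [hb, hf_smul_left, haa, mul_one]
        exact hs
    obtain ⟨c, hcc, hca, hcb⟩ := exists_unit_perp_two hF b a hbb haa hαN
    exact ⟨hnc, suRefl hF c hcc, suRefl_ne_one hF hq c hcc, suRefl_mul_self hF c hcc,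
      suRefl_commute_of_perp hF a c haa hcc (hf_eq_zero_symm hF 3 _ _ hca),
      suRefl_commute_of_perp hF c b hcc hbb hcb⟩

lemma refl_diam (hF : Fintype.card F = q ^ 2) (hq : Odd q) (a b : Fin 3 → F)
    (haa : Cfsg.hermForm 3 F q a a = 1) (hbb : Cfsg.hermForm 3 F q b b = 1) :
    ∃ y z : ↥(Cfsg.SU 3 F q), y ≠ 1 ∧ y * y = 1 ∧ z ≠ 1 ∧ z * z = 1 ∧
      Commute (suRefl hF a haa) y ∧ Commute y z ∧ Commute z (suRefl hF b hbb) := by
  have h2 := herm_two_ne_zero hF hq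
  by_cases hN : Cfsg.hermForm 3 F q b a ^ (q + 1) = 1
  · obtain ⟨u1, u2, hfr⟩ := exists_frame_of_unit hF a haa
    have hpar := frame3_parseval hF hfr b
    rw [hbb, hN] at hpar
    have hu1 : Cfsg.hermForm 3 F q u1 u1 = 1 := by simpa using hfr 1 1
    have hu2 : Cfsg.hermForm 3 F q u2 u2 = 1 := by simpa using hfr 2 2
    have hau1 : Cfsg.hermForm 3 F q a u1 = 0 := by simpa using hfr 0 1
    have hau2 : Cfsg.hermForm 3 F q a u2 = 0 := by simpa using hfr 0 2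
    have key : ∃ u : Fin 3 → F, Cfsg.hermForm 3 F q u u = 1 ∧ Cfsg.hermForm 3 F q a u = 0 ∧ Cfsg.hermForm 3 F q b u ^ (q + 1) ≠ 1 := by
      by_cases h1 : Cfsg.hermForm 3 F q b u1 ^ (q + 1) = 1
      · refine ⟨u2, hu2, hau2, ?_⟩
        intro h3
        rw [h1, h3] at hpar
        apply h2
        linear_combination -hpar
      · exact ⟨u1, hu1, hau1, h1⟩
    obtain ⟨u, huu, hau, hNu⟩ := key
    obtain ⟨d, hdd, hdu, hdb⟩ := exists_unit_perp_two hF b u hbb huu hNu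
    exact ⟨suRefl hF u huu, suRefl hF d hdd, suRefl_ne_one hF hq u huu,
      suRefl_mul_self hF u huu, suRefl_ne_one hF hq d hdd, suRefl_mul_self hF d hdd,
      suRefl_commute_of_perp hF a u haa huu hau,
      suRefl_commute_of_perp hF u d huu hdd (hf_eq_zero_symm hF 3 _ _ hdu),
      suRefl_commute_of_perp hF d b hdd hbb hdb⟩
  · obtain ⟨c, hcc, hca, hcb⟩ := exists_unit_perp_two hF b a hbb haa hN
    exact ⟨suRefl hF c hcc, suRefl hF c hcc, suRefl_ne_one hF hq c hcc,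
      suRefl_mul_self hF c hcc, suRefl_ne_one hF hq c hcc, suRefl_mul_self hF c hcc,
      suRefl_commute_of_perp hF a c haa hcc (hf_eq_zero_symm hF 3 _ _ hca), Commute.refl _,
      suRefl_commute_of_perp hF c b hcc hbb hcb⟩

/-- the commuting involution graph of `SU_3(q)`, `q` odd -/
theorem su3_commuting_graph (hF : Fintype.card F = q ^ 2) (hq : Odd q)
    (t : ↥(Cfsg.SU 3 F q)) (ht : t ≠ 1) (ht2 : t * t = 1) :
    Nat.card {x : ↥(Cfsg.SU 3 F q) // x ≠ 1 ∧ x * x = 1 ∧ x ≠ t ∧ Commute t x} = q * (q - 1) ∧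
    Nat.card {x : ↥(Cfsg.SU 3 F q) // x ≠ 1 ∧ x * x = 1 ∧ ¬ Commute t x ∧
        ∃ y : ↥(Cfsg.SU 3 F q), y ≠ 1 ∧ y * y = 1 ∧ Commute t y ∧ Commute y x} =
      q * (q - 2) * (q ^ 2 - 1) ∧
    Nat.card {x : ↥(Cfsg.SU 3 F q) // x ≠ 1 ∧ x * x = 1 ∧ ¬ Commute t x ∧
        ∀ y : ↥(Cfsg.SU 3 F q), y ≠ 1 → y * y = 1 → ¬ (Commute t y ∧ Commute y x)} =
      (q + 1) * (q ^ 2 - 1) ∧
    ∀ x : ↥(Cfsg.SU 3 F q), x ≠ 1 → x * x = 1 →
      ∃ y z : ↥(Cfsg.SU 3 F q), y ≠ 1 ∧ y * y = 1 ∧ z ≠ 1 ∧ z * z = 1 ∧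
        Commute t y ∧ Commute y z ∧ Commute z x := by
  classical
  obtain ⟨a, haa, rfl⟩ := exists_suRefl_of_inv hF hq t ht ht2
  have hq3 : 3 ≤ q := by
    have h2 := herm_two_le hF
    rcases hq with ⟨k, rfl⟩
    omega
  -- vectors orthogonal to `a`
  have hV1 : Nat.card {b : Fin 3 → F // Cfsg.hermForm 3 F q b b = 1 ∧ Cfsg.hermForm 3 F q b a = 0} = q * (q ^ 2 - 1) := by
    have h := card_unit_by_coeff hF a haa (fun α => α = 0) (q * (q ^ 2 - 1)) (by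
      intro α hα
      rw [hα, zero_pow (Nat.succ_ne_zero q), sub_zero]
      exact perp_unit_count hF a haa)
    rw [h]
    have h1 : Nat.card {α : F // α = 0} = 1 := by
      rw [Nat.card_eq_fintype_card, Fintype.card_subtype_eq]
    rw [h1, one_mul]
  have hS1 := card_refl_fibers hF hq (fun b => Cfsg.hermForm 3 F q b a = 0)
    (fun x => x ≠ 1 ∧ x * x = 1 ∧ x ≠ suRefl hF a haa ∧ Commute (suRefl hF a haa) x)
    (fun x hx => ⟨hx.1, hx.2.1⟩) (fun b hb => refl_adj_iff hF hq a b haa hb)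
  rw [hV1] at hS1
  have hV2 : Nat.card {b : Fin 3 → F // Cfsg.hermForm 3 F q b b = 1 ∧
      (Cfsg.hermForm 3 F q b a ≠ 0 ∧ Cfsg.hermForm 3 F q b a ^ (q + 1) ≠ 1)} =
      Nat.card {α : F // α ≠ 0 ∧ α ^ (q + 1) ≠ 1} * (q * (q ^ 2 - 1)) :=
    card_unit_by_coeff hF a haa (fun α => α ≠ 0 ∧ α ^ (q + 1) ≠ 1) (q * (q ^ 2 - 1)) (by
      rintro α ⟨hα0, hαN⟩
      rw [perpCnt_scale hF _ (1 - α ^ (q + 1)) (sub_ne_zero.mpr (Ne.symm hαN))
        (by rw [herm_sub_pow hF, one_pow, herm_norm_fixed hF])]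
      exact perp_unit_count hF a haa)
  have hS2 := card_refl_fibers hF hq (fun b => Cfsg.hermForm 3 F q b a ≠ 0 ∧ Cfsg.hermForm 3 F q b a ^ (q + 1) ≠ 1)
    (fun x => x ≠ 1 ∧ x * x = 1 ∧ ¬ Commute (suRefl hF a haa) x ∧
        ∃ y : ↥(Cfsg.SU 3 F q), y ≠ 1 ∧ y * y = 1 ∧ Commute (suRefl hF a haa) y ∧ Commute y x)
    (fun x hx => ⟨hx.1, hx.2.1⟩) (fun b hb => by
      rw [← refl_dist_two_iff hF hq a b haa hb]
      constructor
      · rintro ⟨_, _, h⟩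
        exact h
      · intro h
        exact ⟨suRefl_ne_one hF hq b hb, suRefl_mul_self hF b hb, h⟩)
  rw [hV2] at hS2
  have hS0 := card_refl_fibers hF hq (fun _ => True)
    (fun x : ↥(Cfsg.SU 3 F q) => x ≠ 1 ∧ x * x = 1) (fun x hx => hx)
    (fun b hb => ⟨fun _ => trivial, fun _ =>
      ⟨suRefl_ne_one hF hq b hb, suRefl_mul_self hF b hb⟩⟩)
  have hV0 : Nat.card {b : Fin 3 → F // Cfsg.hermForm 3 F q b b = 1 ∧ True} = q ^ 2 * (q ^ 3 + 1) := by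
    rw [← card_unit hF]
    exact Nat.card_congr (Equiv.subtypeEquivRight (fun b => by simp))
  rw [hV0] at hS0
  have hmid := card_coeff_mid hF
  -- the partition of the involutions
  have hp1 := card_subtype_split (fun x : ↥(Cfsg.SU 3 F q) => x ≠ 1 ∧ x * x = 1)
    (fun x => Commute (suRefl hF a haa) x)
  have hp2 := card_subtype_split
    (fun x : ↥(Cfsg.SU 3 F q) => (x ≠ 1 ∧ x * x = 1) ∧ Commute (suRefl hF a haa) x)
    (fun x => x = suRefl hF a haa)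
  have hp3 := card_subtype_split
    (fun x : ↥(Cfsg.SU 3 F q) => (x ≠ 1 ∧ x * x = 1) ∧ ¬ Commute (suRefl hF a haa) x)
    (fun x => ∃ y : ↥(Cfsg.SU 3 F q), y ≠ 1 ∧ y * y = 1 ∧ Commute (suRefl hF a haa) y ∧
      Commute y x)
  have e1 : Nat.card {x : ↥(Cfsg.SU 3 F q) //
      ((x ≠ 1 ∧ x * x = 1) ∧ Commute (suRefl hF a haa) x) ∧ x = suRefl hF a haa} = 1 := by
    rw [Nat.card_eq_one_iff_unique]
    refine ⟨⟨?_⟩, ⟨⟨suRefl hF a haa, ⟨⟨suRefl_ne_one hF hq a haa, suRefl_mul_self hF a haa⟩,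
      Commute.refl _⟩, rfl⟩⟩⟩
    rintro ⟨x, _, hx⟩ ⟨y, _, hy⟩
    exact Subtype.ext (hx.trans hy.symm)
  have e2 : Nat.card {x : ↥(Cfsg.SU 3 F q) //
      ((x ≠ 1 ∧ x * x = 1) ∧ Commute (suRefl hF a haa) x) ∧ ¬ x = suRefl hF a haa} =
      Nat.card {x : ↥(Cfsg.SU 3 F q) // x ≠ 1 ∧ x * x = 1 ∧ x ≠ suRefl hF a haa ∧
        Commute (suRefl hF a haa) x} :=
    Nat.card_congr (Equiv.subtypeEquivRight (fun x => by tauto))
  have e3 : Nat.card {x : ↥(Cfsg.SU 3 F q) //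
      ((x ≠ 1 ∧ x * x = 1) ∧ ¬ Commute (suRefl hF a haa) x) ∧
        ∃ y : ↥(Cfsg.SU 3 F q), y ≠ 1 ∧ y * y = 1 ∧ Commute (suRefl hF a haa) y ∧
          Commute y x} =
      Nat.card {x : ↥(Cfsg.SU 3 F q) // x ≠ 1 ∧ x * x = 1 ∧ ¬ Commute (suRefl hF a haa) x ∧
        ∃ y : ↥(Cfsg.SU 3 F q), y ≠ 1 ∧ y * y = 1 ∧ Commute (suRefl hF a haa) y ∧
          Commute y x} :=
    Nat.card_congr (Equiv.subtypeEquivRight (fun x => by
      constructor
      · rintro ⟨⟨h1, h2⟩, h3⟩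
        exact ⟨h1.1, h1.2, h2, h3⟩
      · rintro ⟨h1, h2, h3, h4⟩
        exact ⟨⟨⟨h1, h2⟩, h3⟩, h4⟩))
  have e4 : Nat.card {x : ↥(Cfsg.SU 3 F q) //
      ((x ≠ 1 ∧ x * x = 1) ∧ ¬ Commute (suRefl hF a haa) x) ∧
        ¬ ∃ y : ↥(Cfsg.SU 3 F q), y ≠ 1 ∧ y * y = 1 ∧ Commute (suRefl hF a haa) y ∧
          Commute y x} =
      Nat.card {x : ↥(Cfsg.SU 3 F q) // x ≠ 1 ∧ x * x = 1 ∧ ¬ Commute (suRefl hF a haa) x ∧
        ∀ y : ↥(Cfsg.SU 3 F q), y ≠ 1 → y * y = 1 →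
          ¬ (Commute (suRefl hF a haa) y ∧ Commute y x)} :=
    Nat.card_congr (Equiv.subtypeEquivRight (fun x => by
      constructor
      · rintro ⟨⟨h1, h2⟩, h3⟩
        exact ⟨h1.1, h1.2, h2, fun y hy1 hy2 hyc => h3 ⟨y, hy1, hy2, hyc.1, hyc.2⟩⟩
      · rintro ⟨h1, h2, h3, h4⟩
        exact ⟨⟨⟨h1, h2⟩, h3⟩, fun ⟨y, hy1, hy2, hc1, hc2⟩ => h4 y hy1 hy2 ⟨hc1, hc2⟩⟩))
  rw [e1, e2] at hp2
  rw [e3, e4] at hp3
  rw [hp2, hp3] at hp1
  obtain ⟨n0, hn0⟩ : ∃ n0 : ℕ, n0 = Nat.card {x : ↥(Cfsg.SU 3 F q) // x ≠ 1 ∧ x * x = 1} :=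
    ⟨_, rfl⟩
  obtain ⟨n1, hn1⟩ : ∃ n1 : ℕ, n1 = Nat.card {x : ↥(Cfsg.SU 3 F q) // x ≠ 1 ∧ x * x = 1 ∧
      x ≠ suRefl hF a haa ∧ Commute (suRefl hF a haa) x} := ⟨_, rfl⟩
  obtain ⟨n2, hn2⟩ : ∃ n2 : ℕ, n2 = Nat.card {x : ↥(Cfsg.SU 3 F q) // x ≠ 1 ∧ x * x = 1 ∧
      ¬ Commute (suRefl hF a haa) x ∧
        ∃ y : ↥(Cfsg.SU 3 F q), y ≠ 1 ∧ y * y = 1 ∧ Commute (suRefl hF a haa) y ∧
          Commute y x} := ⟨_, rfl⟩
  obtain ⟨n3, hn3⟩ : ∃ n3 : ℕ, n3 = Nat.card {x : ↥(Cfsg.SU 3 F q) // x ≠ 1 ∧ x * x = 1 ∧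
      ¬ Commute (suRefl hF a haa) x ∧
        ∀ y : ↥(Cfsg.SU 3 F q), y ≠ 1 → y * y = 1 →
          ¬ (Commute (suRefl hF a haa) y ∧ Commute y x)} := ⟨_, rfl⟩
  obtain ⟨m, hm⟩ : ∃ m : ℕ, m = Nat.card {α : F // α ≠ 0 ∧ α ^ (q + 1) ≠ 1} := ⟨_, rfl⟩
  rw [← hn0, ← hn1, ← hn2, ← hn3] at hp1
  rw [← hn1] at hS1
  rw [← hn2, ← hm] at hS2
  rw [← hn0] at hS0
  rw [← hm] at hmid
  rw [← hn1, ← hn2, ← hn3]
  -- arithmetic
  obtain ⟨r, rfl⟩ : ∃ r : ℕ, q = r + 3 := ⟨q - 3, by omega⟩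
  have hA : (r + 3) ^ 2 - 1 = r ^ 2 + 6 * r + 8 := by
    apply Nat.sub_eq_of_eq_add
    ring
  have hq1 : r + 3 - 1 = r + 2 := by omega
  have hq2 : r + 3 - 2 = r + 1 := by omega
  rw [hA] at hS1 hS2
  rw [hA, hq1, hq2]
  have hn1' : n1 = (r + 3) * (r + 2) := by
    have h : n1 * (r + 3 + 1) = (r + 3) * (r + 2) * (r + 3 + 1) := by
      rw [← hS1]
      ring
    exact Nat.eq_of_mul_eq_mul_right (Nat.succ_pos _) h
  have hm' : m = (r + 1) * (r + 4) := by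
    have h : m + (r + 3 + 2) = (r + 1) * (r + 4) + (r + 3 + 2) := by
      rw [hmid]
      ring
    exact Nat.add_right_cancel h
  have hn2' : n2 = (r + 3) * (r + 1) * (r ^ 2 + 6 * r + 8) := by
    have h : n2 * (r + 3 + 1) = (r + 3) * (r + 1) * (r ^ 2 + 6 * r + 8) * (r + 3 + 1) := by
      rw [← hS2, hm']
      ring
    exact Nat.eq_of_mul_eq_mul_right (Nat.succ_pos _) h
  have hn0' : n0 = (r + 3) ^ 2 * (r ^ 2 + 5 * r + 7) := by
    have h : n0 * (r + 3 + 1) = (r + 3) ^ 2 * (r ^ 2 + 5 * r + 7) * (r + 3 + 1) := by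
      rw [← hS0]
      ring
    exact Nat.eq_of_mul_eq_mul_right (Nat.succ_pos _) h
  have hn3' : n3 = (r + 3 + 1) * (r ^ 2 + 6 * r + 8) := by
    rw [hn0', hn1', hn2'] at hp1
    have h : (r + 3) ^ 2 * (r ^ 2 + 5 * r + 7) = 1 + (r + 3) * (r + 2) +
        ((r + 3) * (r + 1) * (r ^ 2 + 6 * r + 8) + (r + 3 + 1) * (r ^ 2 + 6 * r + 8)) := by
      ring
    exact Nat.add_left_cancel (Nat.add_left_cancel (hp1.symm.trans h))
  refine ⟨hn1', hn2', hn3', ?_⟩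
  intro x hx1 hx2
  obtain ⟨b, hbb, rfl⟩ := exists_suRefl_of_inv hF hq x hx1 hx2
  exact refl_diam hF hq a b haa hbb

end

end Cfsg.Agent.Lib.Helper7
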