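import Cfsg.Agent.Lib.Helper7.SimsSplit
import Cfsg.Agent.Lib.Helper2.PGABS

/-!
# Groups `V : L` with `V` abelian of exponent 5 in the Schreier–Sims engine

For a stabilizer chain whose first three levels carry a quotient `L` and whose tail generates an
abelian normal subgroup `V` of exponent 5, Bool checks over the coset representatives and a norm
check for an element of order 13 give the hypotheses of `Helper2.PG.pg_orders`: every element
order divides `20`, `50`, `75` or `13`.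
-/

set_option autoImplicit false
set_option maxHeartbeats 400000

namespace Cfsg.Agent.Lib.Helper7.Sims

open Equiv

/-- The mask `2^1536 - 1` of a chunk of 128 entries of 12 bits. -/
def chunkMask : ℕ := 0xffffffffffffffffffffffffffffffffffffffffffffffffffffffffffffffffffffffffffffffffffffffffffffffffffffffffffffffffffffffffffffffffffffffffffffffffffffffffffffffffffffffffffffffffffffffffffffffffffffffffffffffffffffffffffffffffffffffffffffffffffffffffffffffffffffffffffffffffffffffffffffffffffffffffffffffffffffffffffffffffffffffffffffffffffffffffffffffffffffffffffffffffffffffffffffffff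

/-- Table lookup: entry `i` of a table packed with 12 bits per entry.  The entry is read through
its chunk of 128 entries, with the chunk index and the index in the chunk evaluated first, so
that the kernel shares the intermediate values and they stay small. -/
def ap12 (T i : ℕ) : ℕ :=
  forceNat (Nat.div i 128) (fun j => forceNat (Nat.mod i 128) (fun r =>
    Nat.land (Nat.shiftRight (Nat.land (Nat.shiftRight T (Nat.mul 1536 j)) chunkMask)
      (Nat.mul 12 r)) 4095))

/-- `f` fixes the points `b1`, `b2`, `b3`. -/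
def fix3 (b1 b2 b3 : ℕ) (f : ℕ → ℕ) : Bool :=
  Nat.beq (f b1) b1 && Nat.beq (f b2) b2 && Nat.beq (f b3) b3

/-- One of `f^10`, `f^13`, `f^15`, `f^4` fixes the three base points. -/
def ordQ (b1 b2 b3 : ℕ) (f : ℕ → ℕ) : Bool :=
  fix3 b1 b2 b3 (f^[10]) || fix3 b1 b2 b3 (f^[13]) || fix3 b1 b2 b3 (f^[15]) ||
    fix3 b1 b2 b3 (f^[4])

/-- The check `ordQ` for the coset representatives `T1 ∘ T2 ∘ T3`, `T1 ∈ U1` fixed. -/
def cosetChk1 (ap : ℕ → ℕ → ℕ) (b1 b2 b3 : ℕ) (U2 U3 : List ℕ) (T1 : ℕ) : Bool :=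
  U2.all (fun T2 => U3.all (fun T3 => ordQ b1 b2 b3 (fun x => ap T1 (ap T2 (ap T3 x)))))

/-- The check `ordQ` for all coset representatives given by the first three levels. -/
def cosetChk (ap : ℕ → ℕ → ℕ) (b1 b2 b3 : ℕ) (U1 U2 U3 : List ℕ) : Bool :=
  U1.all (cosetChk1 ap b1 b2 b3 U2 U3)

/-- Norm check: `(s ∘ f0)^13 = f0^13` on `[0, n)` for the tables `s` of `Sv`. -/
def normChk13 (ap : ℕ → ℕ → ℕ) (n : ℕ) (Sv : List ℕ) (f0 : ℕ → ℕ) : Bool :=
  Sv.all (fun s => allLt (fun i => Nat.beq ((fun x => ap s (f0 x))^[13] i) (f0^[13] i)) n)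

/-! ### Splitting the checks into parts (to bound the size of a single kernel computation) -/

theorem closeS_of_chunks (ap : ℕ → ℕ → ℕ) (n s : ℕ) (Us : List (List ℕ)) (L : List (ℕ × List ℕ))
    (U : List ℕ) (hU : U = Us.flatten) (h : Us.all (fun U' => closeS ap n s U' L) = true) :
    closeS ap n s U L = true := by
  subst hU
  rw [closeS, List.all_eq_true]
  intro u hu
  obtain ⟨U', hU', huU'⟩ := List.mem_flatten.1 hu
  have h1 := List.all_eq_true.1 h U' hU'
  rw [closeS, List.all_eq_true] at h1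
  exact h1 u huU'

theorem conjChk_of_parts (ap : ℕ → ℕ → ℕ) (n : ℕ) (A : List ℕ) (L : List (ℕ × List ℕ)) :
    ∀ (S Si : List ℕ), zipAll (fun s si => conjChk ap n A L [s] [si]) S Si = true →
      conjChk ap n A L S Si = true
  | [], [], _ => rfl
  | [], _ :: _, h => by simp [zipAll] at h
  | _ :: _, [], h => by simp [zipAll] at h
  | s :: S, si :: Si, h => by
    rw [zipAll, Bool.and_eq_true] at h
    obtain ⟨h1, h2⟩ := h
    rw [conjChk, Bool.and_eq_true, Bool.and_eq_true] at h1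
    rw [conjChk, Bool.and_eq_true, Bool.and_eq_true]
    exact ⟨h1.1, conjChk_of_parts ap n A L S Si h2⟩

/-- The table `s` commutes with the tables of `S`. -/
def commRow (ap : ℕ → ℕ → ℕ) (n : ℕ) (S : List ℕ) (s : ℕ) : Bool :=
  S.all (fun s' => allLt (fun i => Nat.beq (ap s (ap s' i)) (ap s' (ap s i))) n)

theorem commChk_of_rows (ap : ℕ → ℕ → ℕ) (n : ℕ) (S : List ℕ)
    (h : S.all (commRow ap n S) = true) : commChk ap n S = true := h

theorem normChk13_of_parts (ap : ℕ → ℕ → ℕ) (n : ℕ) (Sv : List ℕ) (f0 : ℕ → ℕ)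
    (h : Sv.all (fun s => normChk13 ap n [s] f0) = true) : normChk13 ap n Sv f0 = true := by
  rw [normChk13, List.all_eq_true]
  intro s hs
  have h1 := List.all_eq_true.1 h s hs
  rw [normChk13, List.all_cons, List.all_nil, Bool.and_true] at h1
  exact h1

variable {n : ℕ} {ap : ℕ → ℕ → ℕ}

/-- The element orders of a group `V : L` given by a chain and Bool checks. -/
theorem pg_spec {l1 l2 l3 : Lvl} {tail : List Lvl} {S1i w0 : List ℕ}
    (hOK : LvOK ap n (l1 :: l2 :: l3 :: tail)) (hB : BaseOK ap n (l1 :: l2 :: l3 :: tail))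
    (hS : ∀ T ∈ l1.S, ∃ g : Perm (Fin n), ActsAs g (ap T))
    (hcomm : commChk ap n (headS tail) = true) (hp5 : powChk ap n 5 (headS tail) = true)
    (hconj : conjChk ap n (headS tail) (bu tail) l1.S S1i = true)
    (hchk : cosetChk ap l1.b l2.b l3.b l1.U l2.U l3.U = true)
    (hw0 : w0.all (fun T => memB T l1.S) = true)
    (hwit : witChk n 13 [13] (bs (l1 :: l2 :: l3 :: tail)) (evalChain ap w0) = true)
    (hnc : normChk13 ap n (headS tail) (evalChain ap w0) = true)
    (hcard : ¬ 13 ^ 2 ∣ cardL (l1 :: l2 :: l3 :: tail)) :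
    ∀ g ∈ K (n := n) ap l1.S,
      orderOf g ∣ 20 ∨ orderOf g ∣ 50 ∨ orderOf g ∣ 75 ∨ orderOf g ∣ 13 := by
  have hOK2 : LvOK ap n (l2 :: l3 :: tail) := hOK.2.2.2.2
  have hOK3 : LvOK ap n (l3 :: tail) := hOK2.2.2.2.2
  have hB2 : BaseOK ap n (l2 :: l3 :: tail) := hB.2.2.2
  have hB3 : BaseOK ap n (l3 :: tail) := hB2.2.2.2
  have hS2 : ∀ T ∈ l2.S, ∃ g : Perm (Fin n), ActsAs g (ap T) :=
    hS_tail (l := l1) (rest := l2 :: l3 :: tail) hOK hS
  have hS3 : ∀ T ∈ l3.S, ∃ g : Perm (Fin n), ActsAs g (ap T) :=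
    hS_tail (l := l2) (rest := l3 :: tail) hOK2 hS2
  have hS4 : ∀ T ∈ headS tail, ∃ g : Perm (Fin n), ActsAs g (ap T) :=
    hS_tail (l := l3) (rest := tail) hOK3 hS3
  have hb1 : l1.b < n := (nblt_iff _ _).1 hB.1
  have hb2 : l2.b < n := (nblt_iff _ _).1 hB2.1
  have hb3 : l3.b < n := (nblt_iff _ _).1 hB3.1
  have h43 : K (n := n) ap (headS tail) ≤ K (n := n) ap l3.S :=
    K_tail_le (l := l3) (rest := tail) hOK3
  have h32 : K (n := n) ap l3.S ≤ K (n := n) ap l2.S :=
    K_tail_le (l := l2) (rest := l3 :: tail) hOK2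
  have h21 : K (n := n) ap l2.S ≤ K (n := n) ap l1.S :=
    K_tail_le (l := l1) (rest := l2 :: l3 :: tail) hOK
  have hVG : K (n := n) ap (headS tail) ≤ K (n := n) ap l1.S := (h43.trans h32).trans h21
  -- membership in `V` by fixing the three base points
  have hmemA : ∀ x ∈ K (n := n) ap l1.S, ∀ fx : ℕ → ℕ, ActsAs x fx →
      (x ∈ K (n := n) ap (headS tail) ↔ fix3 l1.b l2.b l3.b fx = true) := by
    intro x hx fx hfx
    rw [fix3, Bool.and_eq_true, Bool.and_eq_true, nbeq_iff, nbeq_iff, nbeq_iff]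
    constructor
    · intro hxA
      have h1 := fix_of_mem_tail (l := l1) (rest := l2 :: l3 :: tail) hOK hB hS
        (h32 (h43 hxA)) hb1
      have h2 := fix_of_mem_tail (l := l2) (rest := l3 :: tail) hOK2 hB2 hS2 (h43 hxA) hb2
      have h3 := fix_of_mem_tail (l := l3) (rest := tail) hOK3 hB3 hS3 hxA hb3
      refine ⟨⟨?_, ?_⟩, ?_⟩
      · rw [← hfx ⟨l1.b, hb1⟩, h1]
      · rw [← hfx ⟨l2.b, hb2⟩, h2]
      · rw [← hfx ⟨l3.b, hb3⟩, h3]
    · rintro ⟨⟨h1, h2⟩, h3⟩
      have hx2 : x ∈ K (n := n) ap l2.S :=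
        stab_mem (l := l1) (rest := l2 :: l3 :: tail) hOK hB hS hx hb1
          (Fin.ext (by rw [hfx]; exact h1))
      have hx3 : x ∈ K (n := n) ap l3.S :=
        stab_mem (l := l2) (rest := l3 :: tail) hOK2 hB2 hS2 hx2 hb2
          (Fin.ext (by rw [hfx]; exact h2))
      exact stab_mem (l := l3) (rest := tail) hOK3 hB3 hS3 hx3 hb3
        (Fin.ext (by rw [hfx]; exact h3))
  -- `V` is abelian of exponent 5 and normal
  have hcommA : ∀ a ∈ K (n := n) ap (headS tail), ∀ b ∈ K (n := n) ap (headS tail),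
      a * b = b * a := by
    apply comm_of_closure
    rintro x ⟨s, hs, hx⟩ y ⟨s', hs', hy⟩
    have h1 := (allLt_iff _ n).1 (List.all_eq_true.1 (List.all_eq_true.1 hcomm s hs) s' hs')
    exact ActsAs.ext' (hx.mul hy) (hy.mul hx) (fun i hi => (nbeq_iff _ _).1 (h1 i hi))
  have hexp : ∀ v ∈ K (n := n) ap (headS tail), v ^ 5 = 1 :=
    pow_of_chk (ap := ap) (n := n) (S := headS tail) (k := 5) hcomm hp5
  have hnorm : ∀ g ∈ K (n := n) ap l1.S, ∀ a ∈ K (n := n) ap (headS tail),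
      g * a * g⁻¹ ∈ K (n := n) ap (headS tail) :=
    normal_of_conjChk (ap := ap) (n := n) (Lvs := tail) hOK3.2.2.2.2 hS4 l1.S S1i hconj
  -- coset representatives
  have hdec : ∀ g ∈ K (n := n) ap l1.S, ∃ c ∈ K (n := n) ap l1.S,
      ∃ a ∈ K (n := n) ap (headS tail), g = c * a ∧
        (c ^ 4 ∈ K (n := n) ap (headS tail) ∨ c ^ 10 ∈ K (n := n) ap (headS tail) ∨
          c ^ 13 ∈ K (n := n) ap (headS tail) ∨ c ^ 15 ∈ K (n := n) ap (headS tail)) := by
    intro g hg
    obtain ⟨T1, hT1, u1, hu1K, hu1, p1, hp1, rfl⟩ :=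
      decomp1 (l := l1) (rest := l2 :: l3 :: tail) hOK hS hg
    obtain ⟨T2, hT2, u2, hu2K, hu2, p2, hp2, rfl⟩ :=
      decomp1 (l := l2) (rest := l3 :: tail) hOK2 hS2 hp1
    obtain ⟨T3, hT3, u3, hu3K, hu3, p3, hp3, rfl⟩ :=
      decomp1 (l := l3) (rest := tail) hOK3 hS3 hp2
    have hcK : u1 * u2 * u3 ∈ K (n := n) ap l1.S :=
      mul_mem (mul_mem hu1K (h21 hu2K)) (h21 (h32 hu3K))
    have hc : ActsAs (u1 * u2 * u3) (fun x => ap T1 (ap T2 (ap T3 x))) := (hu1.mul hu2).mul hu3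
    have hpow : ∀ k : ℕ, fix3 l1.b l2.b l3.b ((fun x => ap T1 (ap T2 (ap T3 x)))^[k]) = true →
        (u1 * u2 * u3) ^ k ∈ K (n := n) ap (headS tail) :=
      fun k hk => (hmemA _ (pow_mem hcK k) _ (actsAs_pow hc k)).2 hk
    refine ⟨u1 * u2 * u3, hcK, p3, hp3, by simp only [mul_assoc], ?_⟩
    have h1 := List.all_eq_true.1 (List.all_eq_true.1 (List.all_eq_true.1 hchk T1 hT1) T2 hT2)
      T3 hT3
    rw [ordQ, Bool.or_eq_true, Bool.or_eq_true, Bool.or_eq_true] at h1
    rcases h1 with ((h1 | h1) | h1) | h1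
    · exact Or.inr (Or.inl (hpow 10 h1))
    · exact Or.inr (Or.inr (Or.inl (hpow 13 h1)))
    · exact Or.inr (Or.inr (Or.inr (hpow 15 h1)))
    · exact Or.inl (hpow 4 h1)
  -- the element of order 13
  obtain ⟨c0, hc0K, hc0⟩ := exists_word (ap := ap) (n := n) l1.S hS w0
    (fun T hT => (memB_iff _ _).1 (List.all_eq_true.1 hw0 T hT))
  have hps : ∀ p : ℕ, p.Prime → p ∣ 13 → p ∈ [13] := by
    intro p hp hd
    have h13 : Nat.Prime 13 := by norm_num
    rw [(Nat.prime_dvd_prime_iff_eq hp h13).1 hd]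
    exact List.mem_singleton.2 rfl
  have hc0ord : orderOf c0 = 13 :=
    orderOf_eq_of_witChk (ap := ap) (n := n) (Lvs := l1 :: l2 :: l3 :: tail) hOK hB hS hc0K hc0
      (by norm_num) hps hwit
  have hN : ∀ s ∈ elems (n := n) ap (headS tail), (s * c0) ^ 13 = c0 ^ 13 := by
    rintro s ⟨T, hT, hs⟩
    have h1 := (allLt_iff _ n).1 (List.all_eq_true.1 hnc T hT)
    exact ActsAs.ext' (actsAs_pow (hs.mul hc0) 13) (actsAs_pow hc0 13)
      (fun i hi => (nbeq_iff _ _).1 (h1 i hi))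
  have hcard' : ¬ 13 ^ 2 ∣ Nat.card (K (n := n) ap l1.S) := by
    have h1 := card_K (ap := ap) (n := n) (Lvs := l1 :: l2 :: l3 :: tail) hOK hB hS
    have h2 : Nat.card (K (n := n) ap l1.S) = cardL (l1 :: l2 :: l3 :: tail) := h1
    rw [h2]
    exact hcard
  exact Cfsg.Agent.Lib.Helper2.PG.pg_orders (K (n := n) ap l1.S) (K (n := n) ap (headS tail))
    (elems (n := n) ap (headS tail)) rfl hVG hnorm hcommA hexp hdec c0 hc0K hc0ord hN hcard'

end Cfsg.Agent.Lib.Helper7.Sims
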