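import Mathlib

set_option autoImplicit false

namespace Cfsg.Agent.Lib.Helper7.SylA

/-! ### Coded permutations of `Fin 8` -/

structure P8 where
  a0 : Fin 8
  a1 : Fin 8
  a2 : Fin 8
  a3 : Fin 8
  a4 : Fin 8
  a5 : Fin 8
  a6 : Fin 8
  a7 : Fin 8
deriving DecidableEq

def P8.get (x : P8) (i : Fin 8) : Fin 8 :=
  if i.val = 0 then x.a0 else if i.val = 1 then x.a1 else if i.val = 2 then x.a2
  else if i.val = 3 then x.a3 else if i.val = 4 then x.a4 else if i.val = 5 then x.a5
  else if i.val = 6 then x.a6 else x.a7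

def P8.mul (x y : P8) : P8 :=
  ⟨x.get y.a0, x.get y.a1, x.get y.a2, x.get y.a3, x.get y.a4, x.get y.a5, x.get y.a6, x.get y.a7⟩

theorem P8.get_mul (x y : P8) (i : Fin 8) : (x.mul y).get i = x.get (y.get i) := by
  fin_cases i <;> rfl

theorem P8.ext_get (x y : P8) (h : ∀ i, x.get i = y.get i) : x = y := by
  have h0 := h 0
  have h1 := h 1
  have h2 := h 2
  have h3 := h 3
  have h4 := h 4
  have h5 := h 5
  have h6 := h 6
  have h7 := h 7
  cases x; cases y
  simp only [P8.mk.injEq]
  exact ⟨h0, h1, h2, h3, h4, h5, h6, h7⟩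

def f8 (n : ℕ) : Fin 8 := ⟨n % 8, Nat.mod_lt n (by norm_num)⟩

def decP (n : ℕ) : P8 :=
  ⟨f8 n, f8 (n / 8), f8 (n / 64), f8 (n / 512), f8 (n / 4096), f8 (n / 32768), f8 (n / 262144),
    f8 (n / 2097152)⟩

/-- the coded permutation `c` represents `σ` -/
def RepP (c : P8) (σ : Equiv.Perm (Fin 8)) : Prop := ∀ i, σ i = c.get i

theorem repP_mul {c d : P8} {σ τ : Equiv.Perm (Fin 8)} (h1 : RepP c σ) (h2 : RepP d τ) :
    RepP (c.mul d) (σ * τ) := by
  intro i
  rw [Equiv.Perm.mul_apply, h2 i, h1, P8.get_mul]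

theorem repP_eq {c : P8} {σ τ : Equiv.Perm (Fin 8)} (h1 : RepP c σ) (h2 : RepP c τ) : σ = τ :=
  Equiv.ext fun i => (h1 i).trans (h2 i).symm

theorem repP_code {c d : P8} {σ : Equiv.Perm (Fin 8)} (h1 : RepP c σ) (h2 : RepP d σ) : c = d :=
  P8.ext_get c d fun i => (h1 i).symm.trans (h2 i)

theorem repP_one : RepP (decP 16434824) 1 := by
  intro i
  fin_cases i <;> rfl

/-! ### Coded `4 × 4` matrices mod 3 -/

def f3 (n : ℕ) : ZMod 3 := (⟨n % 3, Nat.mod_lt n (by norm_num)⟩ : Fin 3)

def ix4 : Fin 2 ⊕ Fin 2 → ℕ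
  | .inl a => a.val
  | .inr a => 2 + a.val

def cm4 (c : ℕ) : Matrix (Fin 2 ⊕ Fin 2) (Fin 2 ⊕ Fin 2) (ZMod 3) :=
  fun i j => f3 (c / 3 ^ (4 * ix4 i + ix4 j))

namespace P1

def us : List ℕ := [
  16434824, 16433690, 6852524, 16433235, 6823845, 2207660, 16434369, 2178981, 6851390, 6850935,
  16406145, 343980, 372645, 6822270, 6822711, 2206526, 2206071, 16405011, 4988844, 5017509,
  2177406, 2177847, 11789960, 6852069, 11761281, 9926280, 9954945, 16404570, 342846, 342391,
  371070, 371511, 6823404, 11788826, 2207205, 11760147, 9925146, 9953811, 16405704, 4987710,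
  4987255, 5015934, 5016375, 2178540, 11788371, 14571144, 14599809, 11759706, 9924691, 9953370,
  343525, 372204, 11789505, 14570010, 14598675, 11760840, 9925825, 9954504, 4988389, 5017068,
  14569555, 14598234, 14570689, 14599368]

def vs : List ℕ := [
  14408200, 1103004, 30307698, 9743250, 3322072, 9959817, 1611828, 10275339, 10807509, 5886864,
  32015746, 906906, 5354694, 9940107, 926616, 1723366, 14480389, 5689308, 31950127, 28822969,
  15959034, 17601463, 10472196, 16004953, 9605493, 11024076, 1240761, 6241188, 28829539, 3315502,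
  30353617, 31904208, 14473819, 32022316, 1437618, 14362281, 30419236, 1657747, 30425806, 10137582,
  5492451, 1457328, 5157057, 10669752, 17667082, 3203964, 17673652, 3249883, 16077142, 28711431,
  5176767, 6024621, 5709018, 4960200, 10491906, 710049, 6221478, 4822443, 17555544, 1729936,
  572292, 11004366, 28757350, 16070572]

def t0 : List ℕ := [
  1, 0, 8, 6, 13, 15, 3, 20, 2, 23, 27, 28, 30, 4, 32, 5, 34, 38, 39, 41, 7, 43, 33, 9, 47, 36, 49,
  10, 11, 50, 12, 51, 14, 22, 16, 55, 25, 57, 17, 18, 58, 19, 59, 21, 52, 53, 61, 24, 56, 26, 29,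
  31, 44, 45, 63, 35, 48, 37, 40, 42, 62, 46, 60, 54]

def t1 : List ℕ := [
  2, 5, 0, 11, 10, 1, 18, 17, 22, 25, 4, 3, 27, 26, 24, 33, 36, 7, 6, 38, 37, 35, 8, 45, 14, 9, 13,
  12, 44, 48, 49, 47, 46, 15, 53, 21, 16, 20, 19, 52, 56, 57, 55, 54, 28, 23, 32, 31, 29, 30, 60,
  61, 39, 34, 43, 42, 40, 41, 62, 63, 50, 51, 58, 59]

def t2 : List ℕ := [
  3, 6, 9, 0, 14, 16, 1, 21, 23, 2, 17, 29, 31, 32, 4, 34, 5, 10, 40, 42, 43, 7, 44, 8, 35, 48, 37,
  38, 50, 11, 51, 12, 13, 52, 15, 24, 56, 26, 27, 58, 18, 59, 19, 20, 22, 60, 54, 55, 25, 57, 28,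
  30, 33, 62, 46, 47, 36, 49, 39, 41, 45, 63, 53, 61]

def t3 : List ℕ := [
  4, 7, 10, 12, 0, 17, 19, 1, 24, 26, 2, 27, 3, 25, 22, 35, 37, 5, 38, 6, 36, 33, 14, 46, 8, 13, 9,
  11, 47, 49, 48, 44, 45, 21, 54, 15, 20, 16, 18, 55, 57, 56, 52, 53, 31, 32, 23, 28, 30, 29, 61,
  60, 42, 43, 34, 39, 41, 40, 63, 62, 51, 50, 59, 58]

def p (i : Fin 4) (k : ℕ) : ℕ :=
  if i.val = 0 then t0.getD k 0 else if i.val = 1 then t1.getD k 0
  else if i.val = 2 then t2.getD k 0 else t3.getD k 0

def gp (i : Fin 4) : P8 :=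
  decP (if i.val = 0 then 16433690 else if i.val = 1 then 6852524
    else if i.val = 2 then 16433235 else 6823845)

def gm (i : Fin 4) : Matrix (Fin 2 ⊕ Fin 2) (Fin 2 ⊕ Fin 2) (ZMod 3) :=
  cm4 (if i.val = 0 then 1103004 else if i.val = 1 then 30307698
    else if i.val = 2 then 9743250 else 3322072)

def uel (k : ℕ) : P8 := decP (us.getD k 0)

def vel (k : ℕ) : Matrix (Fin 2 ⊕ Fin 2) (Fin 2 ⊕ Fin 2) (ZMod 3) := cm4 (vs.getD k 0)

def chkP (i : Fin 4) : Bool :=
  (List.range 64).all fun k => decide ((uel k).mul (gp i) = uel (p i k))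

def chkM (i : Fin 4) : Bool :=
  (List.range 64).all fun k =>
    decide (vel k * gm i = vel (p i k)) || decide (vel k * gm i = - vel (p i k))

def chkLt (i : Fin 4) : Bool := (List.range 64).all fun k => decide (p i k < 64)

def chkPar : Bool :=
  (List.range 64).all fun k => decide (k = 0) ||
    (List.range k).any fun j => decide (p 0 j = k) || decide (p 1 j = k) || decide (p 2 j = k) ||
      decide (p 3 j = k)

def chkInjP : Bool :=
  (List.range 64).all fun j => (List.range j).all fun k => !decide (uel j = uel k)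

def chkInjM : Bool :=
  (List.range 64).all fun j => (List.range j).all fun k =>
    !decide (vel j = vel k) && !decide (vel j = - vel k)

set_option maxRecDepth 100000 in
theorem chkP_all : ∀ i, chkP i = true := by decide +kernel

set_option maxRecDepth 100000 in
theorem chkM_all : ∀ i, chkM i = true := by decide +kernel

theorem chkLt_all : ∀ i, chkLt i = true := by decide +kernel

theorem chkPar_true : chkPar = true := by decide +kernel

set_option maxRecDepth 100000 in
theorem chkInjP_true : chkInjP = true := by decide +kernel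

set_option maxRecDepth 100000 in
theorem chkInjM_true : chkInjM = true := by decide +kernel

theorem uel_zero : uel 0 = decP 16434824 := by decide +kernel

theorem vel_zero : vel 0 = 1 := by decide +kernel

theorem gm_symp : ∀ i, gm i * Matrix.J (Fin 2) (ZMod 3) * (gm i).transpose =
    Matrix.J (Fin 2) (ZMod 3) := by decide +kernel

theorem uel_mul (i : Fin 4) (k : ℕ) (hk : k < 64) : (uel k).mul (gp i) = uel (p i k) := by
  have h := chkP_all i
  rw [chkP, List.all_eq_true] at h
  exact of_decide_eq_true (h k (List.mem_range.mpr hk))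

theorem vel_mul (i : Fin 4) (k : ℕ) (hk : k < 64) :
    vel k * gm i = vel (p i k) ∨ vel k * gm i = - vel (p i k) := by
  have h := chkM_all i
  rw [chkM, List.all_eq_true] at h
  have h1 := h k (List.mem_range.mpr hk)
  rw [Bool.or_eq_true] at h1
  rcases h1 with h1 | h1
  · exact Or.inl (of_decide_eq_true h1)
  · exact Or.inr (of_decide_eq_true h1)

theorem p_lt (k : ℕ) (hk : k < 64) (i : Fin 4) : p i k < 64 := by
  have h := chkLt_all i
  rw [chkLt, List.all_eq_true] at h
  exact of_decide_eq_true (h k (List.mem_range.mpr hk))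

theorem par (k : ℕ) (hk0 : 0 < k) (hk : k < 64) : ∃ j, j < k ∧ ∃ i, p i j = k := by
  have h := chkPar_true
  rw [chkPar, List.all_eq_true] at h
  have h1 := h k (List.mem_range.mpr hk)
  rw [Bool.or_eq_true] at h1
  rcases h1 with h1 | h1
  · exact absurd (of_decide_eq_true h1) (by omega)
  · rw [List.any_eq_true] at h1
    obtain ⟨j, hj, hj2⟩ := h1
    refine ⟨j, List.mem_range.mp hj, ?_⟩
    simp only [Bool.or_eq_true, decide_eq_true_eq] at hj2
    rcases hj2 with ((h2 | h2) | h2) | h2
    · exact ⟨0, h2⟩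
    · exact ⟨1, h2⟩
    · exact ⟨2, h2⟩
    · exact ⟨3, h2⟩

theorem uel_inj (j k : ℕ) (hj : j < 64) (hk : k < 64) (h : uel j = uel k) : j = k := by
  have hc := chkInjP_true
  rw [chkInjP, List.all_eq_true] at hc
  have key : ∀ j k, j < 64 → k < j → uel j ≠ uel k := by
    intro j k hj hkj he
    have h1 := hc j (List.mem_range.mpr hj)
    rw [List.all_eq_true] at h1
    have h2 := h1 k (List.mem_range.mpr hkj)
    rw [Bool.not_eq_true', decide_eq_false_iff_not] at h2
    exact h2 he
  rcases lt_trichotomy j k with h1 | h1 | h1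
  · exact absurd h.symm (key k j hk h1)
  · exact h1
  · exact absurd h (key j k hj h1)

theorem vel_inj (j k : ℕ) (hj : j < 64) (hk : k < 64) (h : vel j = vel k ∨ vel j = - vel k) :
    j = k := by
  have hc := chkInjM_true
  rw [chkInjM, List.all_eq_true] at hc
  have key : ∀ j k, j < 64 → k < j → vel j ≠ vel k ∧ vel j ≠ - vel k := by
    intro j k hj hkj
    have h1 := hc j (List.mem_range.mpr hj)
    rw [List.all_eq_true] at h1
    have h2 := h1 k (List.mem_range.mpr hkj)
    rw [Bool.and_eq_true, Bool.not_eq_true', Bool.not_eq_true', decide_eq_false_iff_not,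
      decide_eq_false_iff_not] at h2
    exact h2
  rcases lt_trichotomy j k with h1 | h1 | h1
  · exfalso
    have h3 := key k j hk h1
    rcases h with h | h
    · exact h3.1 h.symm
    · exact h3.2 (by rw [h, neg_neg])
  · exact h1
  · exfalso
    have h3 := key j k hj h1
    rcases h with h | h
    · exact h3.1 h
    · exact h3.2 h

end P1

end Cfsg.Agent.Lib.Helper7.SylA
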