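import Mathlib
import Cfsg.Prelude.Def_Classical
import Cfsg.Agent.Lib.Helper7.SylData1

set_option autoImplicit false

namespace Cfsg.Agent.Lib.Helper7.SylA

/-! ### Coded `6 × 6` matrices mod 2 -/

abbrev I6 : Type := (Fin 2 ⊕ Fin 2) ⊕ Fin 2

def f2 (n : ℕ) : ZMod 2 := (⟨n % 2, Nat.mod_lt n (by norm_num)⟩ : Fin 2)

def ix6 : I6 → ℕ
  | .inl (.inl a) => a.val
  | .inl (.inr a) => 2 + a.val
  | .inr a => 4 + a.val

def cm6 (c : ℕ) : Matrix I6 I6 (ZMod 2) :=
  fun i j => f2 (c / 2 ^ (6 * ix6 i + ix6 j))

abbrev Q6 : (I6 → ZMod 2) → ZMod 2 := Cfsg.quadFormMinus 2 (ZMod 2) 1 1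

namespace P2

def us : List ℕ := [
  16434824, 16434817, 16433690, 6852524, 16433242, 6823852, 16433683, 2207660, 6852517, 6851390,
  16433235, 372652, 6823845, 6822718, 16434376, 2178988, 2207653, 2206526, 6850942, 16406152,
  6851383, 11789960, 16434369, 343980, 372645, 371518, 6822270, 16406145, 6822711, 11789953,
  5017516, 2178981, 2177854, 2206078, 16405018, 2206519, 11788826, 6850935, 9954952, 6852076,
  11761288, 4988844, 343973, 342846, 371070, 16404570, 371511, 11788378, 6822263, 9954945, 6823404,
  11761281, 5017509, 5016382, 2177406, 16405011, 2177847, 11788819, 2206071, 9953818, 2207212,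
  11760154, 6852069, 9926280, 14599816, 4988837, 4987710, 342398, 16404563, 342839, 11788371,
  371063, 9953370, 372204, 11759706, 6823397, 9926273, 14599809, 5015934, 16405704, 5016375,
  11789512, 2177399, 9953811, 2178540, 11760147, 2207205, 9925146, 14598682, 14571144, 4987262,
  16405697, 4987703, 11789505, 342391, 9953363, 343532, 11759699, 372197, 9924698, 14598234,
  14571137, 5015927, 9954504, 5017068, 11760840, 2178533, 9925139, 14598675, 14570010, 4987255,
  9954497, 4988396, 11760833, 343525, 9924691, 14598227, 14569562, 5017061, 9925832, 14599368,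
  14570003, 4988389, 9925825, 14599361, 14569555, 14570696, 14570689]

def vs : List ℕ := [
  34630287489, 51810156673, 35721040065, 34672754817, 51827167425, 54000107649, 52900843713,
  35763376321, 51856818305, 35746730177, 34647232705, 54016987329, 36824432769, 55074083009,
  52883968129, 55090671809, 52947439809, 34689667201, 51857313985, 53962358913, 52930728129,
  35704131777, 35704098945, 34689577153, 36841312449, 55090761857, 36824928449, 36782489729,
  37898342593, 52884000961, 55073927297, 37914996929, 54017093761, 52947734657, 55053111489,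
  51873796225, 34647199873, 34673184961, 53962723521, 52930891905, 55036145857, 35746574465,
  51873640641, 35763482753, 36841607297, 36799500481, 37915152513, 52900810881, 54000537793,
  36782854337, 37898506369, 37856276673, 37898252417, 54000279745, 37915422849, 37873176769,
  36841353345, 51827134593, 35763736705, 55053275265, 51873890497, 53979345025, 35746828417,
  34630594753, 55036440705, 52930637953, 34672926913, 51874066561, 53979304129, 52947480705,
  35721007233, 54017347713, 36799664257, 37915246785, 37873217665, 55074181249, 51810463937,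
  37856571521, 37898608833, 37856301185, 36824670401, 51810189505, 55091032193, 37873471617,
  36841578689, 36799410305, 34689827009, 35721277569, 53979570369, 35704369281, 52930994369,
  55036170369, 51857055937, 34630320321, 34689937537, 53979598977, 52947706049, 55053021313,
  55090921665, 51827404929, 37873443009, 52884238465, 55074349249, 37856526529, 36824703105,
  36782596289, 54017253569, 52901081217, 36799766721, 34647498945, 35746996417, 55036395713,
  51857088641, 53962465473, 35763642561, 34647470209, 55053377729, 52901109953, 54000377985,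
  52884267201, 36782760065, 51827433665, 34673025153, 35704398017, 53962629249, 35721306305,
  51810427009, 34630557825]

def t0 : List ℕ := [
  1, 0, 6, 8, 10, 12, 2, 16, 3, 20, 4, 24, 5, 28, 22, 31, 7, 35, 37, 27, 9, 29, 14, 42, 11, 46, 48,
  19, 13, 21, 52, 15, 56, 58, 55, 17, 57, 18, 49, 62, 51, 65, 23, 69, 71, 68, 25, 70, 26, 38, 75,
  40, 30, 80, 82, 34, 32, 36, 33, 83, 86, 85, 39, 76, 77, 41, 92, 94, 45, 43, 47, 44, 95, 98, 97,
  50, 63, 64, 102, 91, 53, 93, 54, 59, 106, 61, 60, 107, 108, 101, 110, 79, 66, 81, 67, 72, 114,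
  74, 73, 115, 116, 89, 78, 111, 118, 113, 84, 87, 88, 121, 90, 103, 122, 105, 96, 99, 100, 125,
  104, 123, 124, 109, 112, 119, 120, 117, 127, 126]

def t1 : List ℕ := [
  2, 4, 0, 9, 1, 13, 14, 17, 18, 3, 22, 25, 26, 5, 6, 32, 33, 7, 8, 34, 39, 36, 10, 43, 44, 11, 12,
  45, 50, 47, 53, 54, 15, 16, 19, 60, 21, 62, 59, 20, 61, 66, 67, 23, 24, 27, 73, 29, 75, 72, 28,
  74, 78, 30, 31, 79, 84, 81, 86, 38, 35, 40, 37, 87, 88, 90, 41, 42, 91, 96, 93, 98, 49, 46, 51,
  48, 99, 100, 52, 55, 104, 57, 106, 103, 56, 105, 58, 63, 64, 109, 65, 68, 112, 70, 114, 111, 69,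
  113, 71, 76, 77, 117, 118, 83, 80, 85, 82, 119, 120, 89, 122, 95, 92, 97, 94, 123, 124, 101, 102,
  107, 108, 126, 110, 115, 116, 127, 121, 125]

def t2 : List ℕ := [
  3, 5, 7, 0, 11, 1, 15, 2, 19, 21, 23, 4, 27, 29, 30, 6, 34, 36, 38, 8, 40, 9, 41, 10, 45, 47, 49,
  12, 51, 13, 14, 55, 57, 59, 16, 61, 17, 63, 18, 64, 20, 22, 68, 70, 72, 24, 74, 25, 76, 26, 77,
  28, 79, 81, 83, 31, 85, 32, 87, 33, 88, 35, 89, 37, 39, 91, 93, 95, 42, 97, 43, 99, 44, 100, 46,
  101, 48, 50, 103, 52, 105, 53, 107, 54, 108, 56, 109, 58, 60, 62, 111, 65, 113, 66, 115, 67, 116,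
  69, 117, 71, 73, 75, 119, 78, 120, 80, 121, 82, 84, 86, 123, 90, 124, 92, 125, 94, 96, 98, 126,
  102, 104, 106, 127, 110, 112, 114, 118, 122]

def p (i : Fin 3) (k : ℕ) : ℕ :=
  if i.val = 0 then t0.getD k 0 else if i.val = 1 then t1.getD k 0 else t2.getD k 0

def gp (i : Fin 3) : P8 :=
  decP (if i.val = 0 then 16434817 else if i.val = 1 then 16433690 else 6852524)

def gm (i : Fin 3) : Matrix I6 I6 (ZMod 2) :=
  cm6 (if i.val = 0 then 51810156673 else if i.val = 1 then 35721040065 else 34672754817)

def uel (k : ℕ) : P8 := decP (us.getD k 0)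

def vel (k : ℕ) : Matrix I6 I6 (ZMod 2) := cm6 (vs.getD k 0)

def chkP (i : Fin 3) : Bool :=
  (List.range 128).all fun k => decide ((uel k).mul (gp i) = uel (p i k))

def chkM (i : Fin 3) : Bool :=
  (List.range 128).all fun k => decide (vel k * gm i = vel (p i k))

def chkLt (i : Fin 3) : Bool := (List.range 128).all fun k => decide (p i k < 128)

def chkPar : Bool :=
  (List.range 128).all fun k => decide (k = 0) ||
    (List.range k).any fun j => decide (p 0 j = k) || decide (p 1 j = k) || decide (p 2 j = k)

def chkInjP : Bool :=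
  (List.range 128).all fun j => (List.range j).all fun k => !decide (uel j = uel k)

def chkInjM : Bool :=
  (List.range 128).all fun j => (List.range j).all fun k => !decide (vel j = vel k)

set_option maxRecDepth 100000 in
theorem chkP_all : ∀ i, chkP i = true := by decide +kernel

set_option maxRecDepth 100000 in
theorem chkM_all : ∀ i, chkM i = true := by decide +kernel

theorem chkLt_all : ∀ i, chkLt i = true := by decide +kernel

set_option maxRecDepth 100000 in
theorem chkPar_true : chkPar = true := by decide +kernel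

set_option maxRecDepth 100000 in
theorem chkInjP_true : chkInjP = true := by decide +kernel

set_option maxRecDepth 100000 in
theorem chkInjM_true : chkInjM = true := by decide +kernel

theorem uel_zero : uel 0 = decP 16434824 := by decide +kernel

theorem vel_zero : vel 0 = 1 := by decide +kernel

theorem gm_sq : ∀ i, gm i * gm i = 1 := by decide +kernel

set_option maxRecDepth 100000 in
theorem gm_iso : ∀ i, ∀ u : I6 → ZMod 2, Q6 (Matrix.mulVec (gm i) u) = Q6 u := by decide +kernel

theorem uel_mul (i : Fin 3) (k : ℕ) (hk : k < 128) : (uel k).mul (gp i) = uel (p i k) := by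
  have h := chkP_all i
  rw [chkP, List.all_eq_true] at h
  exact of_decide_eq_true (h k (List.mem_range.mpr hk))

theorem vel_mul (i : Fin 3) (k : ℕ) (hk : k < 128) : vel k * gm i = vel (p i k) := by
  have h := chkM_all i
  rw [chkM, List.all_eq_true] at h
  exact of_decide_eq_true (h k (List.mem_range.mpr hk))

theorem p_lt (k : ℕ) (hk : k < 128) (i : Fin 3) : p i k < 128 := by
  have h := chkLt_all i
  rw [chkLt, List.all_eq_true] at h
  exact of_decide_eq_true (h k (List.mem_range.mpr hk))

theorem par (k : ℕ) (hk0 : 0 < k) (hk : k < 128) : ∃ j, j < k ∧ ∃ i, p i j = k := by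
  have h := chkPar_true
  rw [chkPar, List.all_eq_true] at h
  have h1 := h k (List.mem_range.mpr hk)
  rw [Bool.or_eq_true] at h1
  rcases h1 with h1 | h1
  · exact absurd (of_decide_eq_true h1) (by omega)
  · rw [List.any_eq_true] at h1
    obtain ⟨j, hj, hj2⟩ := h1
    refine ⟨j, List.mem_range.mp hj, ?_⟩
    simp only [Bool.or_eq_true, decide_eq_true_eq] at hj2
    rcases hj2 with (h2 | h2) | h2
    · exact ⟨0, h2⟩
    · exact ⟨1, h2⟩
    · exact ⟨2, h2⟩

theorem uel_inj (j k : ℕ) (hj : j < 128) (hk : k < 128) (h : uel j = uel k) : j = k := by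
  have hc := chkInjP_true
  rw [chkInjP, List.all_eq_true] at hc
  have key : ∀ j k, j < 128 → k < j → uel j ≠ uel k := by
    intro j k hj hkj he
    have h1 := hc j (List.mem_range.mpr hj)
    rw [List.all_eq_true] at h1
    have h2 := h1 k (List.mem_range.mpr hkj)
    rw [Bool.not_eq_true', decide_eq_false_iff_not] at h2
    exact h2 he
  rcases lt_trichotomy j k with h1 | h1 | h1
  · exact absurd h.symm (key k j hk h1)
  · exact h1
  · exact absurd h (key j k hj h1)

theorem vel_inj (j k : ℕ) (hj : j < 128) (hk : k < 128) (h : vel j = vel k) : j = k := by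
  have hc := chkInjM_true
  rw [chkInjM, List.all_eq_true] at hc
  have key : ∀ j k, j < 128 → k < j → vel j ≠ vel k := by
    intro j k hj hkj he
    have h1 := hc j (List.mem_range.mpr hj)
    rw [List.all_eq_true] at h1
    have h2 := h1 k (List.mem_range.mpr hkj)
    rw [Bool.not_eq_true', decide_eq_false_iff_not] at h2
    exact h2 he
  rcases lt_trichotomy j k with h1 | h1 | h1
  · exact absurd h.symm (key k j hk h1)
  · exact h1
  · exact absurd h (key j k hj h1)

end P2

end Cfsg.Agent.Lib.Helper7.SylA
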