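import Cfsg.Agent.Lib.Helper7.UzPFin
import Cfsg.Agent.Lib.Helper75.FiberPowP

/-!
# A group `5^12 : U3(4)` of degree 2145 and its fiber powers

`GP` is a group of permutations of `Fin 2145` of the shape `5^12 : U3(4)`, where the elements of
order 13 of `U3(4)` act fixed point freely on the elementary abelian normal subgroup `5^12`.  Its
element orders divide `20`, `50`, `75` or `13`, and `10`, `15`, `13` occur.  The subgroup `5^12` is
normal of exponent five, so the fiber powers give arbitrarily large finite groups with the same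
element orders.
-/

set_option autoImplicit false
set_option maxHeartbeats 400000

namespace Cfsg.Agent.Lib.Helper7.UzP

open Cfsg.Agent.Lib.Helper7.Sims Equiv

/-- The group `5^12 : U3(4)` of degree 2145. -/
def GP : Subgroup (Perm (Fin 2145)) := K (n := 2145) ap12 S0

/-- Its normal subgroup `5^12`. -/
def VP : Subgroup (Perm (Fin 2145)) := K (n := 2145) ap12 (headS tailL)

theorem hSvS0 : ∀ T ∈ headS tailL, T ∈ S0 := fun T hT =>
  (memB_iff _ _).1 (List.all_eq_true.1 hVsub T hT)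

theorem hSVp : ∀ T ∈ headS tailL, ∃ g : Perm (Fin 2145), ActsAs g (ap12 T) :=
  fun T hT => hS0 T (hSvS0 T hT)

theorem VP_le : VP ≤ GP := by
  apply Subgroup.closure_mono
  rintro u ⟨T, hT, hu⟩
  exact ⟨T, hSvS0 T hT, hu⟩

theorem VP_conj : ∀ g ∈ GP, ∀ a ∈ VP, g * a * g⁻¹ ∈ VP := by
  have h := normal_of_conjChk (ap := ap12) (n := 2145) (Lvs := tailL) lvOKtail hSVp Sn1 S1i hconj
  rw [hgen.2] at h
  exact h

theorem VP_normal : (VP.subgroupOf GP).Normal := by
  constructor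
  intro x hx g
  rw [Subgroup.mem_subgroupOf] at hx ⊢
  exact VP_conj g g.2 x hx

theorem VP_exp : ∀ x ∈ VP.subgroupOf GP, x ^ 5 = 1 := by
  intro x hx
  rw [Subgroup.mem_subgroupOf] at hx
  exact Subtype.ext
    (pow_of_chk (ap := ap12) (n := 2145) (S := headS tailL) (k := 5) hcomm hp5 x hx)

theorem VP_ne : VP.subgroupOf GP ≠ ⊥ := by
  have ht : t2 ∈ headS tailL := (memB_iff _ _).1 hVmem
  obtain ⟨g, hg⟩ := hS0 t2 (hSvS0 t2 ht)
  have hgN : g ∈ VP := Subgroup.subset_closure ⟨t2, ht, hg⟩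
  have hgH : g ∈ GP := VP_le hgN
  intro hbot
  have h1 : (⟨g, hgH⟩ : GP) ∈ VP.subgroupOf GP := Subgroup.mem_subgroupOf.2 hgN
  rw [hbot, Subgroup.mem_bot] at h1
  have h2 : g = 1 := congrArg Subtype.val h1
  have h3 := hg ⟨65, by norm_num⟩
  rw [h2] at h3
  have h4 : ap12 t2 65 = 65 := h3.symm
  have h5 := hVne
  rw [h4, Nat.beq_refl] at h5
  exact Bool.noConfusion h5

/-- Element orders of `GP` (as a group). -/
theorem GP_dvd (x : GP) : orderOf x ∣ 20 ∨ orderOf x ∣ 50 ∨ orderOf x ∣ 75 ∨ orderOf x ∣ 13 := by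
  rw [← Subgroup.orderOf_coe]
  exact dvd_K0 x.1 x.2

theorem GP_wit10 : ∃ x : GP, orderOf x = 10 := by
  obtain ⟨g, hg, ho⟩ := wit10
  exact ⟨⟨g, hg⟩, by rw [← Subgroup.orderOf_coe]; exact ho⟩

theorem GP_wit15 : ∃ x : GP, orderOf x = 15 := by
  obtain ⟨g, hg, ho⟩ := wit15
  exact ⟨⟨g, hg⟩, by rw [← Subgroup.orderOf_coe]; exact ho⟩

theorem GP_wit13 : ∃ x : GP, orderOf x = 13 := by
  obtain ⟨g, hg, ho⟩ := wit13
  exact ⟨⟨g, hg⟩, by rw [← Subgroup.orderOf_coe]; exact ho⟩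

/-- Arbitrarily large finite groups whose element orders divide `20`, `50`, `75` or `13`, with
elements of orders `10`, `15` and `13`. -/
theorem exists_large (B : ℕ) : ∃ (G : Type) (_ : Group G) (_ : Fintype G),
    B < Fintype.card G ∧
      (∀ g : G, orderOf g ∣ 20 ∨ orderOf g ∣ 50 ∨ orderOf g ∣ 75 ∨ orderOf g ∣ 13) ∧
      (∃ g : G, orderOf g = 10) ∧ (∃ g : G, orderOf g = 15) ∧ (∃ g : G, orderOf g = 13) := by
  have := VP_normal
  obtain ⟨G, iG, iF, hB, hs⟩ :=
    Cfsg.Agent.Lib.Helper75.FiberPowP.exists_large_same_spectrum_prime (H := GP) 5 (by norm_num)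
      (VP.subgroupOf GP) VP_exp VP_ne B
  have hto : ∀ m : ℕ, (∃ x : GP, orderOf x = m) → ∃ g : G, orderOf g = m := by
    rintro m ⟨x, hx⟩
    have h1 : m ∈ Set.range (orderOf : G → ℕ) := by
      rw [hs]
      exact ⟨x, hx⟩
    exact h1
  refine ⟨G, iG, iF, hB, ?_, hto 10 GP_wit10, hto 15 GP_wit15, hto 13 GP_wit13⟩
  intro g
  have h1 : orderOf g ∈ Set.range (orderOf : GP → ℕ) := by
    rw [← hs]
    exact ⟨g, rfl⟩
  obtain ⟨x, hx⟩ := h1
  rw [← hx]
  exact GP_dvd x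

end Cfsg.Agent.Lib.Helper7.UzP
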