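import Cfsg.Agent.Lib.Helper7.UzPTab

/-! Generated kernel checks (normal subgroup) of the certificate (UzP). -/

set_option autoImplicit false
set_option maxRecDepth 1000000

namespace Cfsg.Agent.Lib.Helper7.UzP

open Cfsg.Agent.Lib.Helper7.Sims

theorem hcommr0 : commRow ap12 2145 Sn4 t2 = true := by decide +kernel
theorem hcommr1 : commRow ap12 2145 Sn4 t3 = true := by decide +kernel
theorem hcommr2 : commRow ap12 2145 Sn4 t4 = true := by decide +kernel
theorem hcommr3 : commRow ap12 2145 Sn4 t5 = true := by decide +kernel
theorem hcommr4 : commRow ap12 2145 Sn4 t6 = true := by decide +kernel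
theorem hcommr5 : commRow ap12 2145 Sn4 t7 = true := by decide +kernel
theorem hcommr6 : commRow ap12 2145 Sn4 t8 = true := by decide +kernel
theorem hcommr7 : commRow ap12 2145 Sn4 t9 = true := by decide +kernel
theorem hcommr8 : commRow ap12 2145 Sn4 t10 = true := by decide +kernel
theorem hcommr9 : commRow ap12 2145 Sn4 t11 = true := by decide +kernel
theorem hcommr10 : commRow ap12 2145 Sn4 t12 = true := by decide +kernel
theorem hcommr11 : commRow ap12 2145 Sn4 t13 = true := by decide +kernel
theorem hp5 : powChk ap12 2145 5 (headS tailL) = true := by decide +kernel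
theorem hnc0 : normChk13 ap12 2145 [t2] (evalChain ap12 w13) = true := by decide +kernel
theorem hnc1 : normChk13 ap12 2145 [t3] (evalChain ap12 w13) = true := by decide +kernel
theorem hnc2 : normChk13 ap12 2145 [t4] (evalChain ap12 w13) = true := by decide +kernel
theorem hnc3 : normChk13 ap12 2145 [t5] (evalChain ap12 w13) = true := by decide +kernel
theorem hnc4 : normChk13 ap12 2145 [t6] (evalChain ap12 w13) = true := by decide +kernel
theorem hnc5 : normChk13 ap12 2145 [t7] (evalChain ap12 w13) = true := by decide +kernel
theorem hnc6 : normChk13 ap12 2145 [t8] (evalChain ap12 w13) = true := by decide +kernel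
theorem hnc7 : normChk13 ap12 2145 [t9] (evalChain ap12 w13) = true := by decide +kernel
theorem hnc8 : normChk13 ap12 2145 [t10] (evalChain ap12 w13) = true := by decide +kernel
theorem hnc9 : normChk13 ap12 2145 [t11] (evalChain ap12 w13) = true := by decide +kernel
theorem hnc10 : normChk13 ap12 2145 [t12] (evalChain ap12 w13) = true := by decide +kernel
theorem hnc11 : normChk13 ap12 2145 [t13] (evalChain ap12 w13) = true := by decide +kernel
theorem hw13' : w13.all (fun T => memB T l1L.S) = true := by decide +kernel
theorem hwit13' : witChk 2145 13 [13] (bs (l1L :: l2L :: l3L :: tailL)) (evalChain ap12 w13) = true := by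
  decide +kernel
theorem hcard : ¬ 13 ^ 2 ∣ cardL (l1L :: l2L :: l3L :: tailL) := by decide +kernel
theorem hVne : Nat.beq (ap12 t2 65) 65 = false := by decide +kernel
theorem hVsub : (headS tailL).all (fun T => memB T S0) = true := by decide +kernel
theorem hVmem : memB t2 (headS tailL) = true := by decide +kernel

end Cfsg.Agent.Lib.Helper7.UzP
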