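import Cfsg.Agent.Lib.Helper7.UzPTab

/-! Generated kernel checks (normality) of the certificate (UzP). -/

set_option autoImplicit false
set_option maxRecDepth 1000000

namespace Cfsg.Agent.Lib.Helper7.UzP

open Cfsg.Agent.Lib.Helper7.Sims

theorem hconj0 : conjChk ap12 2145 (headS tailL) (bu tailL) [t0] [t19] = true := by decide +kernel
theorem hconj1 : conjChk ap12 2145 (headS tailL) (bu tailL) [t1] [t20] = true := by decide +kernel
theorem hconj2 : conjChk ap12 2145 (headS tailL) (bu tailL) [t2] [t21] = true := by decide +kernel
theorem hconj3 : conjChk ap12 2145 (headS tailL) (bu tailL) [t3] [t22] = true := by decide +kernel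
theorem hconj4 : conjChk ap12 2145 (headS tailL) (bu tailL) [t4] [t23] = true := by decide +kernel
theorem hconj5 : conjChk ap12 2145 (headS tailL) (bu tailL) [t5] [t24] = true := by decide +kernel
theorem hconj6 : conjChk ap12 2145 (headS tailL) (bu tailL) [t6] [t25] = true := by decide +kernel
theorem hconj7 : conjChk ap12 2145 (headS tailL) (bu tailL) [t7] [t26] = true := by decide +kernel
theorem hconj8 : conjChk ap12 2145 (headS tailL) (bu tailL) [t8] [t27] = true := by decide +kernel
theorem hconj9 : conjChk ap12 2145 (headS tailL) (bu tailL) [t9] [t28] = true := by decide +kernel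
theorem hconj10 : conjChk ap12 2145 (headS tailL) (bu tailL) [t10] [t29] = true := by decide +kernel
theorem hconj11 : conjChk ap12 2145 (headS tailL) (bu tailL) [t11] [t30] = true := by decide +kernel
theorem hconj12 : conjChk ap12 2145 (headS tailL) (bu tailL) [t12] [t31] = true := by decide +kernel
theorem hconj13 : conjChk ap12 2145 (headS tailL) (bu tailL) [t13] [t32] = true := by decide +kernel
theorem hconj14 : conjChk ap12 2145 (headS tailL) (bu tailL) [t16] [t33] = true := by decide +kernel
theorem hconj15 : conjChk ap12 2145 (headS tailL) (bu tailL) [t18] [t34] = true := by decide +kernel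

end Cfsg.Agent.Lib.Helper7.UzP
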