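import Cfsg.Agent.Lib.Helper7.UzPTab

/-! Generated kernel checks (coset representatives, part 0) of the certificate (UzP). -/

set_option autoImplicit false
set_option maxRecDepth 1000000

namespace Cfsg.Agent.Lib.Helper7.UzP

open Cfsg.Agent.Lib.Helper7.Sims

theorem hcos0 : cosetChk1 ap12 54 7 0 U2 U3 t14 = true := by decide +kernel
theorem hcos4 : cosetChk1 ap12 54 7 0 U2 U3 t17 = true := by decide +kernel
theorem hcos8 : cosetChk1 ap12 54 7 0 U2 U3 t38 = true := by decide +kernel
theorem hcos12 : cosetChk1 ap12 54 7 0 U2 U3 t42 = true := by decide +kernel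
theorem hcos16 : cosetChk1 ap12 54 7 0 U2 U3 t46 = true := by decide +kernel
theorem hcos20 : cosetChk1 ap12 54 7 0 U2 U3 t50 = true := by decide +kernel
theorem hcos24 : cosetChk1 ap12 54 7 0 U2 U3 t54 = true := by decide +kernel
theorem hcos28 : cosetChk1 ap12 54 7 0 U2 U3 t58 = true := by decide +kernel
theorem hcos32 : cosetChk1 ap12 54 7 0 U2 U3 t62 = true := by decide +kernel
theorem hcos36 : cosetChk1 ap12 54 7 0 U2 U3 t66 = true := by decide +kernel
theorem hcos40 : cosetChk1 ap12 54 7 0 U2 U3 t70 = true := by decide +kernel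
theorem hcos44 : cosetChk1 ap12 54 7 0 U2 U3 t74 = true := by decide +kernel
theorem hcos48 : cosetChk1 ap12 54 7 0 U2 U3 t78 = true := by decide +kernel
theorem hcos52 : cosetChk1 ap12 54 7 0 U2 U3 t82 = true := by decide +kernel
theorem hcos56 : cosetChk1 ap12 54 7 0 U2 U3 t86 = true := by decide +kernel
theorem hcos60 : cosetChk1 ap12 54 7 0 U2 U3 t90 = true := by decide +kernel
theorem hcos64 : cosetChk1 ap12 54 7 0 U2 U3 t94 = true := by decide +kernel

end Cfsg.Agent.Lib.Helper7.UzP
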