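import Cfsg.Agent.Lib.Helper7.UzPTab

/-! Generated kernel checks (coset representatives, part 1) of the certificate (UzP). -/

set_option autoImplicit false
set_option maxRecDepth 1000000

namespace Cfsg.Agent.Lib.Helper7.UzP

open Cfsg.Agent.Lib.Helper7.Sims

theorem hcos1 : cosetChk1 ap12 54 7 0 U2 U3 t0 = true := by decide +kernel
theorem hcos5 : cosetChk1 ap12 54 7 0 U2 U3 t35 = true := by decide +kernel
theorem hcos9 : cosetChk1 ap12 54 7 0 U2 U3 t39 = true := by decide +kernel
theorem hcos13 : cosetChk1 ap12 54 7 0 U2 U3 t43 = true := by decide +kernel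
theorem hcos17 : cosetChk1 ap12 54 7 0 U2 U3 t47 = true := by decide +kernel
theorem hcos21 : cosetChk1 ap12 54 7 0 U2 U3 t51 = true := by decide +kernel
theorem hcos25 : cosetChk1 ap12 54 7 0 U2 U3 t55 = true := by decide +kernel
theorem hcos29 : cosetChk1 ap12 54 7 0 U2 U3 t59 = true := by decide +kernel
theorem hcos33 : cosetChk1 ap12 54 7 0 U2 U3 t63 = true := by decide +kernel
theorem hcos37 : cosetChk1 ap12 54 7 0 U2 U3 t67 = true := by decide +kernel
theorem hcos41 : cosetChk1 ap12 54 7 0 U2 U3 t71 = true := by decide +kernel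
theorem hcos45 : cosetChk1 ap12 54 7 0 U2 U3 t75 = true := by decide +kernel
theorem hcos49 : cosetChk1 ap12 54 7 0 U2 U3 t79 = true := by decide +kernel
theorem hcos53 : cosetChk1 ap12 54 7 0 U2 U3 t83 = true := by decide +kernel
theorem hcos57 : cosetChk1 ap12 54 7 0 U2 U3 t87 = true := by decide +kernel
theorem hcos61 : cosetChk1 ap12 54 7 0 U2 U3 t91 = true := by decide +kernel

end Cfsg.Agent.Lib.Helper7.UzP
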