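import Cfsg.Agent.Lib.Helper7.UzPTab

/-! Generated kernel checks (coset representatives, part 2) of the certificate (UzP). -/

set_option autoImplicit false
set_option maxRecDepth 1000000

namespace Cfsg.Agent.Lib.Helper7.UzP

open Cfsg.Agent.Lib.Helper7.Sims

theorem hcos2 : cosetChk1 ap12 54 7 0 U2 U3 t1 = true := by decide +kernel
theorem hcos6 : cosetChk1 ap12 54 7 0 U2 U3 t36 = true := by decide +kernel
theorem hcos10 : cosetChk1 ap12 54 7 0 U2 U3 t40 = true := by decide +kernel
theorem hcos14 : cosetChk1 ap12 54 7 0 U2 U3 t44 = true := by decide +kernel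
theorem hcos18 : cosetChk1 ap12 54 7 0 U2 U3 t48 = true := by decide +kernel
theorem hcos22 : cosetChk1 ap12 54 7 0 U2 U3 t52 = true := by decide +kernel
theorem hcos26 : cosetChk1 ap12 54 7 0 U2 U3 t56 = true := by decide +kernel
theorem hcos30 : cosetChk1 ap12 54 7 0 U2 U3 t60 = true := by decide +kernel
theorem hcos34 : cosetChk1 ap12 54 7 0 U2 U3 t64 = true := by decide +kernel
theorem hcos38 : cosetChk1 ap12 54 7 0 U2 U3 t68 = true := by decide +kernel
theorem hcos42 : cosetChk1 ap12 54 7 0 U2 U3 t72 = true := by decide +kernel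
theorem hcos46 : cosetChk1 ap12 54 7 0 U2 U3 t76 = true := by decide +kernel
theorem hcos50 : cosetChk1 ap12 54 7 0 U2 U3 t80 = true := by decide +kernel
theorem hcos54 : cosetChk1 ap12 54 7 0 U2 U3 t84 = true := by decide +kernel
theorem hcos58 : cosetChk1 ap12 54 7 0 U2 U3 t88 = true := by decide +kernel
theorem hcos62 : cosetChk1 ap12 54 7 0 U2 U3 t92 = true := by decide +kernel

end Cfsg.Agent.Lib.Helper7.UzP
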