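import Cfsg.Agent.Lib.Helper7.UzPTab

/-! Generated kernel checks (coset representatives, part 3) of the certificate (UzP). -/

set_option autoImplicit false
set_option maxRecDepth 1000000

namespace Cfsg.Agent.Lib.Helper7.UzP

open Cfsg.Agent.Lib.Helper7.Sims

theorem hcos3 : cosetChk1 ap12 54 7 0 U2 U3 t15 = true := by decide +kernel
theorem hcos7 : cosetChk1 ap12 54 7 0 U2 U3 t37 = true := by decide +kernel
theorem hcos11 : cosetChk1 ap12 54 7 0 U2 U3 t41 = true := by decide +kernel
theorem hcos15 : cosetChk1 ap12 54 7 0 U2 U3 t45 = true := by decide +kernel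
theorem hcos19 : cosetChk1 ap12 54 7 0 U2 U3 t49 = true := by decide +kernel
theorem hcos23 : cosetChk1 ap12 54 7 0 U2 U3 t53 = true := by decide +kernel
theorem hcos27 : cosetChk1 ap12 54 7 0 U2 U3 t57 = true := by decide +kernel
theorem hcos31 : cosetChk1 ap12 54 7 0 U2 U3 t61 = true := by decide +kernel
theorem hcos35 : cosetChk1 ap12 54 7 0 U2 U3 t65 = true := by decide +kernel
theorem hcos39 : cosetChk1 ap12 54 7 0 U2 U3 t69 = true := by decide +kernel
theorem hcos43 : cosetChk1 ap12 54 7 0 U2 U3 t73 = true := by decide +kernel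
theorem hcos47 : cosetChk1 ap12 54 7 0 U2 U3 t77 = true := by decide +kernel
theorem hcos51 : cosetChk1 ap12 54 7 0 U2 U3 t81 = true := by decide +kernel
theorem hcos55 : cosetChk1 ap12 54 7 0 U2 U3 t85 = true := by decide +kernel
theorem hcos59 : cosetChk1 ap12 54 7 0 U2 U3 t89 = true := by decide +kernel
theorem hcos63 : cosetChk1 ap12 54 7 0 U2 U3 t93 = true := by decide +kernel

end Cfsg.Agent.Lib.Helper7.UzP
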